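import Cfsg.Agent.H51.OVSpec

/-! Kit of the tower OV: incidence lemmas, the tangent bijection, counting modulo a prime. -/

set_option autoImplicit false
set_option linter.unusedSectionVars false

namespace H51.OV

universe u v w

section Count

variable {G : Type u} [Group G] {X : Type v} [Finite X] [MulAction G X]

/-- Fixed points of an element of prime order on an invariant set. -/
theorem mod_fix (S : Set X) (y : G) {r : ℕ} (hr : r.Prime) (e : y ^ r = 1)
    (inv : ∀ x ∈ S, y • x ∈ S) : S.ncard ≡ {x | x ∈ S ∧ y • x = x}.ncard [MOD r] := by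
  classical
  have := Fact.mk hr
  have := Fintype.ofFinite X
  let f : Function.End S := fun x => ⟨y • x.1, inv _ x.2⟩
  have k : ∀ (j : ℕ) (x : S), ((f ^ j) x).1 = y ^ j • x.1 := by
    intro j
    induction j with
    | zero => intro x; simp [Function.End.one_def]
    | succ j ih =>
      intro x
      rw [pow_succ, pow_succ, mul_smul]
      exact ih (f x)
  have e1 : f ^ r ^ 1 = 1 := by
    funext x
    apply Subtype.ext
    rw [k, pow_one, e, one_smul]
    rfl
  have := Equiv.Perm.card_fixedPoints_modEq e1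
  rw [← Nat.card_eq_fintype_card, ← Nat.card_eq_fintype_card, Nat.card_coe_set_eq] at this
  convert this using 1
  rw [← Nat.card_coe_set_eq]
  refine Nat.card_congr ⟨fun x => ⟨⟨x.1, x.2.1⟩, Subtype.ext x.2.2⟩,
    fun x => ⟨x.1.1, x.1.2, congrArg Subtype.val x.2⟩, fun _ => rfl, fun _ => rfl⟩

/-- An involution on an invariant set of odd size has a fixed point. -/
theorem exists_fix (S : Set X) (a : G) (e : a * a = 1) (inv : ∀ x ∈ S, a • x ∈ S)
    (o : Odd S.ncard) : ∃ x ∈ S, a • x = x := by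
  by_contra n
  have := mod_fix S a Nat.prime_two ((sq a).trans e) inv
  have z : {x | x ∈ S ∧ a • x = x} = ∅ := Set.eq_empty_of_forall_notMem fun x k => n ⟨x, k⟩
  rw [z, Set.ncard_empty, Nat.ModEq] at this
  rw [Nat.odd_iff] at o
  omega

/-- A semiregular element of order four. -/
theorem four_dvd (S : Set X) (x : G) (e : x * x * (x * x) = 1) (inv : ∀ p ∈ S, x • p ∈ S)
    (nf : ∀ p ∈ S, (x * x) • p ≠ p) : 4 ∣ S.ncard := by
  induction hn : S.ncard using Nat.strong_induction_on generalizing S with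
  | _ k ih =>
  rcases S.eq_empty_or_nonempty with rfl | ⟨p, hp⟩
  · simp at hn; simp [← hn]
  have n1 : ∀ q ∈ S, x • q ≠ q := fun q hq k => nf q hq (by rw [mul_smul, k, k])
  have n2 : ∀ q ∈ S, x • x • q ≠ q := fun q hq k => nf q hq (by rw [mul_smul, k])
  have e4 : ∀ q : X, x • x • x • x • q = q := fun q => by
    rw [← mul_smul, ← mul_smul, ← mul_smul, mul_assoc (x * x), e, one_smul]
  have p1 := inv _ hp
  have p2 := inv _ p1
  have p3 := inv _ p2
  set T : Set X := {p, x • p, x • x • p, x • x • x • p} with hT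
  have c : T.ncard = 4 := by
    have a := n1 _ hp
    have b := n2 _ hp
    have c := n1 _ p1
    have d := n2 _ p1
    have f := n1 _ p2
    have g := n1 _ p3
    rw [e4] at g
    rw [hT, Set.ncard_insert_of_notMem, Set.ncard_insert_of_notMem, Set.ncard_pair f.symm]
    · simp [c.symm, d.symm]
    · simp [a.symm, b.symm, g]
  have le : T ⊆ S := by
    rintro q (rfl | rfl | rfl | rfl) <;> assumption
  have s := Set.ncard_sdiff_add_ncard_of_subset le
  have := ih (S \ T).ncard (by omega) (S \ T) (fun q hq => ⟨inv _ hq.1, fun m => hq.2 ?_⟩)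
    (fun q hq => nf q hq.1) rfl
  · omega
  · rcases m with m | m | m | m
    · rw [← e4 q, m]; simp [hT]
    · rw [smul_left_cancel_iff] at m; simp [hT, m]
    · rw [smul_left_cancel_iff] at m; simp [hT, m]
    · rw [Set.mem_singleton_iff, smul_left_cancel_iff] at m; simp [hT, m]

end Count

/-- Double counting of flags. -/
theorem flags {P : Type v} {L : Type w} [Membership P L] (O : Finset P) (B : Finset L) :
    ∑ p ∈ O, {l : L | l ∈ B ∧ p ∈ l}.ncard = ∑ l ∈ B, {p : P | p ∈ O ∧ p ∈ l}.ncard := by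
  classical
  have a : ∀ p : P, {l : L | l ∈ B ∧ p ∈ l}.ncard = ∑ l ∈ B, if p ∈ l then 1 else 0 := fun p => by
    rw [← Finset.card_filter, ← Set.ncard_coe_finset]; congr 1; ext; simp
  have b : ∀ l : L, {p : P | p ∈ O ∧ p ∈ l}.ncard = ∑ p ∈ O, if p ∈ l then 1 else 0 := fun l => by
    rw [← Finset.card_filter, ← Set.ncard_coe_finset]; congr 1; ext; simp
  simp only [a, b]
  exact Finset.sum_comm

/-- A set with more than three elements avoids three given ones. -/
theorem exists_ne3 {X : Type v} {S : Set X} (h : 4 ≤ S.ncard) (a b c : X) :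
    ∃ x ∈ S, x ≠ a ∧ x ≠ b ∧ x ≠ c := by
  by_contra n
  have le : S ⊆ {a, b, c} := fun x hx => by
    by_contra k
    simp only [Set.mem_insert_iff, Set.mem_singleton_iff, not_or] at k
    exact n ⟨x, hx, k⟩
  have := Set.ncard_le_ncard le
  have := Set.ncard_insert_le a ({b, c} : Set X)
  have := Set.ncard_insert_le b ({c} : Set X)
  rw [Set.ncard_singleton] at this
  omega

/-- A set with more than two elements avoids two given ones. -/
theorem exists_ne2 {X : Type v} {S : Set X} (h : 3 ≤ S.ncard) (a b : X) :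
    ∃ x ∈ S, x ≠ a ∧ x ≠ b := by
  by_contra n
  have le : S ⊆ {a, b} := fun x hx => by
    by_contra k
    simp only [Set.mem_insert_iff, Set.mem_singleton_iff, not_or] at k
    exact n ⟨x, hx, k⟩
  have := Set.ncard_le_ncard le
  have := Set.ncard_insert_le a ({b} : Set X)
  rw [Set.ncard_singleton] at this
  omega

namespace Pl

variable {G : Type u} {P : Type v} {L : Type w} [Group G] [MulAction G P] [MulAction G L]
  [Membership P L] {n : ℕ} {O : Set P} (h : Pl G P L n O)

include h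

theorem ln_eq {p q : P} {l k : L} (ne : p ≠ q) (a : p ∈ l) (b : q ∈ l) (c : p ∈ k) (d : q ∈ k) :
    l = k := (h.uq a b c d).resolve_left ne

theorem pt_eq {p q : P} {l k : L} (ne : l ≠ k) (a : p ∈ l) (b : p ∈ k) (c : q ∈ l) (d : q ∈ k) :
    p = q := (h.uq a c b d).resolve_right ne

theorem smul_mem (g : G) {p : P} {l : L} (m : p ∈ l) : g • p ∈ g • l := (h.coll g p l).2 m

theorem mem_of_fix {g : G} {p : P} {l : L} (e : g • l = l) (m : p ∈ l) : g • p ∈ l :=
  e ▸ h.smul_mem g m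

theorem mem_smul_of_fix {g : G} {p : P} {l : L} (e : g • p = p) (m : p ∈ l) : p ∈ g • l :=
  e ▸ h.smul_mem g m

theorem fix_line {g : G} {p q : P} {l : L} (ne : p ≠ q) (a : p ∈ l) (b : q ∈ l) (c : g • p ∈ l)
    (d : g • q ∈ l) : g • l = l :=
  h.ln_eq (mt (smul_left_cancel g) ne) (h.smul_mem g a) (h.smul_mem g b) c d

theorem fix_line' {g : G} {p q : P} {l : L} (ne : p ≠ q) (a : p ∈ l) (b : q ∈ l) (c : g • p = p)
    (d : g • q = q) : g • l = l := h.fix_line ne a b (c.symm ▸ a) (d.symm ▸ b)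

theorem fix_point {g : G} {p : P} {l k : L} (ne : l ≠ k) (a : p ∈ l) (b : p ∈ k) (c : g • l = l)
    (d : g • k = k) : g • p = p := h.pt_eq ne (h.mem_of_fix c a) (h.mem_of_fix d b) a b

/-- The line through a point and its image under an involution is fixed. -/
theorem fix_swap {g : G} {p : P} {l : L} (e : g * g = 1) (ne : g • p ≠ p) (a : p ∈ l)
    (b : g • p ∈ l) : g • l = l :=
  h.fix_line ne.symm a b b (by rwa [← mul_smul, e, one_smul])

theorem exists_pt (l : L) (a b c : P) : ∃ p, p ∈ l ∧ p ≠ a ∧ p ≠ b ∧ p ≠ c :=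
  exists_ne3 (S := {p | p ∈ l}) (by have := h.big; rw [h.pts]; omega) a b c

theorem exists_ln (p : P) (a b c : L) : ∃ l, p ∈ l ∧ l ≠ a ∧ l ≠ b ∧ l ≠ c :=
  exists_ne3 (S := {l : L | p ∈ l}) (by have := h.big; rw [h.lns]; omega) a b c

theorem exists_O (a b c : P) : ∃ p ∈ O, p ≠ a ∧ p ≠ b ∧ p ≠ c :=
  exists_ne3 (by have := h.big; rw [h.card]; omega) a b c

/-- A collineation with two centres is trivial. -/
theorem two_centres {g : G} {C W : P} (ne : C ≠ W) (hC : ∀ l : L, C ∈ l → g • l = l)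
    (hW : ∀ l : L, W ∈ l → g • l = l) : g = 1 := by
  obtain ⟨l, a, b⟩ := h.join C W
  have k : ∀ X, X ∉ l → g • X = X := fun X x => by
    obtain ⟨l₁, c, d⟩ := h.join C X
    obtain ⟨l₂, e, f⟩ := h.join W X
    refine h.fix_point (fun j => x ?_) d f (hC _ c) (hW _ e)
    subst j
    exact h.ln_eq ne c e a b ▸ d
  refine h.faith g fun X => ?_
  by_cases x : X ∈ l
  swap
  · exact k X x
  obtain ⟨m, c, d, -⟩ := h.exists_ln X l l l
  obtain ⟨Y, e, f, -⟩ := h.exists_pt m X X X
  obtain ⟨Z, i, j, o, -⟩ := h.exists_pt m X Y Y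
  exact h.fix_point d c x (h.fix_line' o i e (k Z fun z => j (h.pt_eq d i z c x))
    (k Y fun z => f (h.pt_eq d e z c x))) (hC l a)

/-- A line meets the oval in at most two points. -/
theorem le_two (l : L) : {p : P | p ∈ O ∧ p ∈ l}.ncard ≤ 2 := by
  by_contra n
  obtain ⟨a, ha, -⟩ := exists_ne2 (S := {p : P | p ∈ O ∧ p ∈ l}) (by omega)
    (Set.nonempty_of_ncard_ne_zero (s := {p : P | p ∈ O ∧ p ∈ l}) (by omega)).some
    (Set.nonempty_of_ncard_ne_zero (s := {p : P | p ∈ O ∧ p ∈ l}) (by omega)).some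
  obtain ⟨b, hb, ba, -⟩ := exists_ne2 (S := {p : P | p ∈ O ∧ p ∈ l}) (by omega) a a
  obtain ⟨c, hc, ca, cb⟩ := exists_ne2 (S := {p : P | p ∈ O ∧ p ∈ l}) (by omega) a b
  rcases h.arc l a ha.1 b hb.1 c hc.1 ha.2 hb.2 hc.2 with e | e | e
  exacts [ba e.symm, ca e.symm, cb e.symm]

variable [Finite P] [Finite L]

/-- The bijection from the oval to the lines through `p`; `ψ p` is the tangent. -/
theorem psi {p : P} (hp : p ∈ O) : ∃ ψ : P → L, Set.BijOn ψ O {l | p ∈ l} ∧ (∀ R, R ∈ ψ R) ∧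
    (∀ R ∈ O, R ∈ ψ p → R = p) ∧
    ∀ R ∈ O, ∀ g : G, g • p = p → (g • ψ R = ψ R ↔ g • R = R) := by
  classical
  choose f f1 f2 using h.join p
  have inj : Set.InjOn f (O \ {p}) := fun a ha b hb e => by
    rcases h.arc (f a) p hp a ha.1 b hb.1 (f1 a) (f2 a) (e ▸ f2 b) with k | k | k
    exacts [(ha.2 k.symm).elim, (hb.2 k.symm).elim, k]
  have c1 : (f '' (O \ {p})).ncard = n := by
    rw [inj.ncard_image, Set.ncard_sdiff_singleton_of_mem hp, h.card]; rfl
  have le : f '' (O \ {p}) ⊆ {l | p ∈ l} := by rintro _ ⟨a, -, rfl⟩; exact f1 a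
  have c2 := Set.ncard_sdiff_add_ncard_of_subset le
  rw [h.lns, c1, add_comm, Nat.add_left_cancel_iff, Set.ncard_eq_one] at c2
  obtain ⟨t, ht⟩ := c2
  have tm : t ∈ {l : L | p ∈ l} \ f '' (O \ {p}) := ht ▸ rfl
  have ut : ∀ l : L, p ∈ l → (∀ R ∈ O, R ∈ l → R = p) → l = t := fun l a b => by
    have : l ∈ {l : L | p ∈ l} \ f '' (O \ {p}) := ⟨a, by
      rintro ⟨R, hR, rfl⟩
      exact hR.2 (b R hR.1 (f2 R))⟩
    rwa [ht] at this
  have tO : ∀ R ∈ O, R ∈ t → R = p := fun R hR m => by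
    by_contra ne
    exact tm.2 ⟨R, ⟨hR, ne⟩, h.ln_eq ne (f2 R) (f1 R) m tm.1⟩
  refine ⟨fun R => if R = p then t else f R, ⟨fun R _ => ?_, fun a ha b hb e => ?_, fun l hl => ?_⟩,
    fun R => ?_, by simpa using tO, fun R hR g hg => ?_⟩
  · by_cases k : R = p
    · simpa [k] using tm.1
    · simpa [k] using f1 R
  · by_cases x : a = p <;> by_cases y : b = p <;> simp only [x, y, if_true, if_false] at e
    · rw [x, y]
    · exact (y (tO b hb (e ▸ f2 b))).elim
    · exact (x (tO a ha (e ▸ f2 a))).elim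
    · exact inj ⟨ha, x⟩ ⟨hb, y⟩ e
  · by_cases k : l ∈ f '' (O \ {p})
    · obtain ⟨R, hR, rfl⟩ := k
      exact ⟨R, hR.1, if_neg hR.2⟩
    · have : l ∈ {l : L | p ∈ l} \ f '' (O \ {p}) := ⟨hl, k⟩
      rw [ht] at this
      exact ⟨p, hp, (if_pos rfl).trans this.symm⟩
  · by_cases k : R = p
    · simpa [k] using tm.1
    · simpa [k] using f2 R
  · by_cases k : R = p
    · simp only [k, if_true, hg, iff_true]
      refine ut _ (h.mem_smul_of_fix hg tm.1) fun Q hQ m => ?_
      have := tO (g⁻¹ • Q) (h.inv _ _ hQ) ((h.coll g _ _).1 (by rwa [smul_inv_smul]))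
      rw [← hg, ← this, smul_inv_smul]
    · simp only [k, if_false]
      refine ⟨fun e => ?_, fun e => h.fix_line' k (f2 R) (f1 R) e hg⟩
      rcases h.arc (f R) p hp R hR (g • R) (h.inv _ _ hR) (f1 R) (f2 R) (h.mem_of_fix e (f2 R))
        with j | j | j
      · exact (k j.symm).elim
      · exact (k (smul_left_cancel g (j.symm.trans hg.symm))).elim
      · exact j.symm

/-- `G` is faithful on the oval. -/
theorem fix_O {g : G} (e : ∀ p ∈ O, g • p = p) : g = 1 := by
  have k : ∀ p ∈ O, ∀ l : L, p ∈ l → g • l = l := fun p hp l m => by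
    obtain ⟨ψ, b, -, -, c⟩ := h.psi hp
    obtain ⟨R, hR, rfl⟩ := b.surjOn m
    exact (c R hR g (e p hp)).2 (e R hR)
  obtain ⟨p, hp⟩ : O.Nonempty := Set.nonempty_of_ncard_ne_zero (by rw [h.card]; omega)
  obtain ⟨q, hq, ne, -⟩ := h.exists_O p p p
  exact h.two_centres ne (k q hq) (k p hp)

/-- Lines through `p ∈ O` fixed by a set of elements fixing `p`. -/
theorem cnt_through {p : P} (hp : p ∈ O) (A : Set G) (hA : ∀ g ∈ A, g • p = p) :
    {l : L | (∀ g ∈ A, g • l = l) ∧ p ∈ l}.ncard =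
      {R : P | R ∈ O ∧ ∀ g ∈ A, g • R = R}.ncard := by
  obtain ⟨ψ, b, -, -, c⟩ := h.psi hp
  rw [← (b.injOn.mono (s₁ := {R : P | R ∈ O ∧ ∀ g ∈ A, g • R = R}) fun _ k => k.1).ncard_image]
  congr 1
  ext l
  constructor
  · rintro ⟨x, y⟩
    obtain ⟨R, hR, rfl⟩ := b.surjOn y
    exact ⟨R, ⟨hR, fun g k => (c R hR g (hA g k)).1 (x g k)⟩, rfl⟩
  · rintro ⟨R, ⟨hR, x⟩, rfl⟩
    exact ⟨fun g k => (c R hR g (hA g k)).2 (x g k), b.mapsTo hR⟩

omit [Finite L] in
/-- The parity condition in terms of fixed points. -/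
theorem par' {t : G} (e : t * t = 1) :
    (n + 1) % 4 = {p : P | p ∈ O ∧ t • p = p}.ncard % 4 := by
  have a := h.par t e
  have b : {p : P | p ∈ O ∧ t • p ≠ p} = O \ {p : P | p ∈ O ∧ t • p = p} := by
    ext p; simp only [Set.mem_ofPred_eq, Set.mem_sdiff]; tauto
  have c := Set.ncard_sdiff_add_ncard_of_subset
    (s := {p : P | p ∈ O ∧ t • p = p}) (t := O) fun _ k => k.1
  rw [← b, h.card] at c
  omega

end Pl

end H51.OV
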