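import Cfsg.Agent.H89.KSpec
import Cfsg.Prelude.Def_CaseTheorems
import Cfsg.Prelude.Def_Classical
import Cfsg.Prelude.Def_Sporadic

/-! Interface of the tower OV (`blueprints/OV.md`): collineation groups fixing an oval. -/

set_option autoImplicit false

namespace H51.OV

universe u v w

/-! ### The group side -/

/-- The properties of the set `H` of involutory homologies. -/
structure OH {G : Type u} [Group G] (H : Set G) : Prop where
  inv : ∀ a ∈ H, orderOf a = 2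
  conj : ∀ a ∈ H, ∀ b, IsConj a b → b ∈ H
  meet : ∀ s t : G, orderOf s = 2 → orderOf t = 2 → s ≠ t → Commute s t →
    s ∈ H ∨ t ∈ H ∨ s * t ∈ H
  mul : ∀ s ∈ H, ∀ t ∈ H, s ≠ t → Commute s t → s * t ∈ H
  quad : ∀ a ∈ H, ∀ b ∈ H, ∀ d ∈ H, a ≠ b → Commute a b → d ≠ a → d ≠ b → Commute d a →
    Commute d b → d = a * b
  root : ∀ x b : G, x * x ∈ H → b ∈ H → Commute x b → b = x * x
  odd : ∀ y s z z' : G, y ≠ 1 → Odd (orderOf y) → s ∈ H → z ∈ H → z' ∈ H →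
    s * y * s⁻¹ = y⁻¹ → Commute z s → Commute z y → Commute z' y → z = z'

/-- A subgroup `ℤ₄ × ℤ₂`. -/
def BadF (G : Type u) [Group G] : Prop :=
  ∃ x b : G, orderOf (x * x) = 2 ∧ orderOf b = 2 ∧ b ≠ x * x ∧ Commute x b

/-- An odd element inverted by an involution and centralised by two involutions. -/
def BadY (G : Type u) [Group G] : Prop :=
  ∃ y s z z' : G, y ≠ 1 ∧ Odd (orderOf y) ∧ orderOf s = 2 ∧ orderOf z = 2 ∧ orderOf z' = 2 ∧
    s * y * s⁻¹ = y⁻¹ ∧ Commute z s ∧ Commute z y ∧ Commute z' y ∧ z ≠ z'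

/-- A subgroup `ℤ₄ × ℤ₂` whose three involutions are conjugate. -/
def PF (G : Type u) [Group G] : Prop :=
  ∃ x b : G, orderOf (x * x) = 2 ∧ b ≠ x * x ∧ Commute x b ∧ IsConj (x * x) b ∧
    IsConj (x * x) (x * x * b)

/-- OV-R3. -/
def JobR3 : Prop :=
  ∀ (G : Type u) [Group G] [Finite G] (H : Set G), OH H → Cfsg.PRankLE 2 3 G

/-- OV-SPLIT. -/
def JobSplit : Prop :=
  ∀ (G : Type u) [Group G] [Finite G] [IsSimpleGroup G], ¬ IsMulCommutative G →
    Cfsg.PRankLE 2 3 G → ¬ Cfsg.PRankLE 2 2 G →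
    (∃ S : Sylow 2 G, IsMulCommutative (S : Subgroup G)) ∨ H89.K.One G ∨ PF G

/-- OV-AB. -/
def JobAb : Prop :=
  ∀ (G : Type u) [Group G] [Finite G] [IsSimpleGroup G] (H : Set G) (S : Sylow 2 G), OH H →
    ¬ IsMulCommutative G → IsMulCommutative (S : Subgroup G) → Cfsg.PRankLE 2 3 G →
    Cfsg.PRankLE 2 2 G

/-- OV-KL3. -/
def JobKL3 : Prop :=
  ∀ (F : Type) [Field F] [Fintype F], Odd (Fintype.card F) →
    BadY (Matrix.ProjectiveSpecialLinearGroup (Fin 3) F)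

/-- OV-KU3. -/
def JobKU3 : Prop :=
  ∀ (F : Type) [Field F] [Fintype F] (q : ℕ), Fintype.card F = q ^ 2 → Odd q →
    BadY (Cfsg.PSU 3 F q) ∨ BadF (Cfsg.PSU 3 F q)

/-- OV-KS, part 1. -/
def JobKU4 : Prop :=
  ∀ (F : Type) [Field F] [Fintype F], Fintype.card F = 16 → BadF (Cfsg.PSU 3 F 4)

/-- OV-KS, part 2. -/
def JobKA7 : Prop := BadY (alternatingGroup (Fin 7))

/-- OV-KS, part 3. -/
def JobKM11 : Prop := ∀ (G : Type u) [Group G] [Finite G], Cfsg.IsM11 G → BadY G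

/-! ### The plane side -/

section Plane

variable (G : Type u) (P : Type v) (L : Type w) [Group G] [MulAction G P] [MulAction G L]
  [Membership P L]

/-- A plane of odd order `n`, an oval `O`, a collineation group `G` fixing it whose involutions are
even permutations of `O`. -/
structure Pl (n : ℕ) (O : Set P) : Prop where
  uq : ∀ {p q : P} {l k : L}, p ∈ l → q ∈ l → p ∈ k → q ∈ k → p = q ∨ l = k
  join : ∀ p q : P, ∃ l : L, p ∈ l ∧ q ∈ l
  meet : ∀ l k : L, ∃ p : P, p ∈ l ∧ p ∈ k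
  pts : ∀ l : L, {p : P | p ∈ l}.ncard = n + 1
  lns : ∀ p : P, {l : L | p ∈ l}.ncard = n + 1
  odd : Odd n
  big : 3 ≤ n
  faith : ∀ g : G, (∀ p : P, g • p = p) → g = 1
  coll : ∀ (g : G) (p : P) (l : L), g • p ∈ g • l ↔ p ∈ l
  card : O.ncard = n + 1
  arc : ∀ l : L, ∀ p ∈ O, ∀ q ∈ O, ∀ r ∈ O, p ∈ l → q ∈ l → r ∈ l → p = q ∨ p = r ∨ q = r
  inv : ∀ g : G, ∀ p ∈ O, g • p ∈ O
  par : ∀ t : G, t * t = 1 → 4 ∣ {p : P | p ∈ O ∧ t • p ≠ p}.ncard

variable {G P L}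

/-- `a` is an involutory homology with centre `C` and axis `l`. -/
structure Hom (a : G) (C : P) (l : L) : Prop where
  ord : orderOf a = 2
  nm : C ∉ l
  fp : ∀ p : P, a • p = p ↔ p = C ∨ p ∈ l
  fl : ∀ k : L, a • k = k ↔ k = l ∨ C ∈ k

/-- A subplane of order `m`. -/
structure Sub (F : Set P) (Λ : Set L) (m : ℕ) : Prop where
  join : ∀ p ∈ F, ∀ q ∈ F, p ≠ q → ∀ l : L, p ∈ l → q ∈ l → l ∈ Λ
  meet : ∀ l ∈ Λ, ∀ k ∈ Λ, l ≠ k → ∀ p : P, p ∈ l → p ∈ k → p ∈ F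
  pts : ∀ l ∈ Λ, {p : P | p ∈ F ∧ p ∈ l}.ncard = m + 1
  lns : ∀ p ∈ F, {l : L | l ∈ Λ ∧ p ∈ l}.ncard = m + 1
  two : 2 ≤ m
  ne : F.Nonempty

variable (P L)

/-- `a` is a Baer involution. -/
structure Baer (n : ℕ) (a : G) (m : ℕ) : Prop where
  ord : orderOf a = 2
  sq : n = m ^ 2
  sub : Sub {p : P | a • p = p} {l : L | a • l = l} m
  tot : {l : L | a • l = l}.ncard = m ^ 2 + m + 1

/-- The set of involutory homologies. -/
def HH : Set G := {a | ∃ (C : P) (l : L), Hom a C l}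

/-- Basic facts on homologies. -/
structure HF (O : Set P) : Prop where
  nO : ∀ (a : G) (C : P) (l : L), Hom a C l → C ∉ O
  cen : ∀ (a b : G) (C : P) (l k : L), Hom a C l → Hom b C k → a = b
  ax : ∀ (a b : G) (C D : P) (l : L), Hom a C l → Hom b D l → a = b
  conj : ∀ (a g : G) (C : P) (l : L), Hom a C l → Hom (g * a * g⁻¹) (g • C) (g • l)
  fixC : ∀ (a g : G) (C : P) (l : L), Hom a C l → Commute g a → g • C = C
  fixl : ∀ (a g : G) (C : P) (l : L), Hom a C l → Commute g a → g • l = l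
  com : ∀ (a g : G) (C : P) (l : L), Hom a C l → g • C = C → Commute g a
  inc : ∀ (a b : G) (C D : P) (l k : L), Hom a C l → Hom b D k → a ≠ b → Commute a b → D ∈ l
  mul : ∀ (a b : G) (C D E : P) (l k h : L), Hom a C l → Hom b D k → a ≠ b → Commute a b →
    E ∈ l → E ∈ k → C ∈ h → D ∈ h → Hom (a * b) E h
  sec : ∀ (a : G) (C : P) (l : L), Hom a C l →
    {p : P | p ∈ O ∧ p ∈ l}.ncard = 0 ∨ {p : P | p ∈ O ∧ p ∈ l}.ncard = 2

end Plane

/-- A statement about all planes with an oval. -/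
def All (Φ : ∀ (G : Type u) (P : Type v) (L : Type w) [Group G] [MulAction G P] [MulAction G L]
    [Membership P L], ℕ → Set P → Prop) : Prop :=
  ∀ (G : Type u) (P : Type v) (L : Type w) [Group G] [Finite G] [Finite P] [Finite L]
    [MulAction G P] [MulAction G L] [Membership P L] (n : ℕ) (O : Set P), Pl G P L n O → Φ G P L n O

/-- OV-CORE: an involution of a subplane has a centre or is Baer on it. -/
def JobCore : Prop := All.{u, v, w} fun G P L _ _ _ _ _ _ =>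
  ∀ (F : Set P) (Λ : Set L) (m : ℕ) (τ : G), Sub F Λ m → τ * τ = 1 → (∀ p ∈ F, τ • p ∈ F) →
    (∃ Y ∈ F, τ • Y = Y ∧ ∀ l ∈ Λ, Y ∈ l → τ • l = l) ∨
    ∃ s, m = s ^ 2 ∧ {l : L | l ∈ Λ ∧ τ • l = l}.ncard = s ^ 2 + s + 1 ∧
      Sub {p : P | p ∈ F ∧ τ • p = p} {l : L | l ∈ Λ ∧ τ • l = l} s

/-- OV-DICH (may assume `JobCore`). -/
def JobDich : Prop := All.{u, v, w} fun G P L _ _ _ _ n _ =>
  ∀ a : G, orderOf a = 2 → a ∈ (HH P L : Set G) ∨ ∃ m, Baer P L n a m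

/-- OV-HOM (may assume `JobDich`). -/
def JobHom : Prop := All.{u, v, w} fun G P L _ _ _ _ _ O => HF (G := G) P L O

/-- OV-RO, part 1. -/
def JobRoot : Prop := All.{u, v, w} fun G P L _ _ _ _ _ O => HF (G := G) P L O →
  ∀ x b : G, x * x ∈ (HH P L : Set G) → b ∈ (HH P L : Set G) → Commute x b → b = x * x

/-- OV-RO, part 2. -/
def JobOdd : Prop := All.{u, v, w} fun G P L _ _ _ _ _ O => HF (G := G) P L O →
  ∀ y s z z' : G, y ≠ 1 → Odd (orderOf y) → s ∈ (HH P L : Set G) → z ∈ (HH P L : Set G) →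
    z' ∈ (HH P L : Set G) → s * y * s⁻¹ = y⁻¹ → Commute z s → Commute z y → Commute z' y → z = z'

/-- OV-B1: a Baer involution fixes `m + 1` points of the oval and its lines meet the oval. -/
def JobB1 : Prop := All.{u, v, w} fun G P L _ _ _ _ n O =>
  ∀ (a : G) (m : ℕ), Baer P L n a m →
    {p : P | p ∈ O ∧ a • p = p}.ncard = m + 1 ∧ ∀ l : L, a • l = l → ∃ p ∈ O, p ∈ l

/-- OV-B2: the number of lines fixed by a four-group all of whose fixed lines meet the oval. -/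
def JobB2 : Prop := All.{u, v, w} fun G P L _ _ _ _ _ O =>
  ∀ (σ τ : G) (f k : ℕ), σ * σ = 1 → τ * τ = 1 → Commute σ τ →
    {p : P | p ∈ O ∧ σ • p = p}.ncard = f → {p : P | p ∈ O ∧ τ • p = p}.ncard = f →
    {p : P | p ∈ O ∧ (σ * τ) • p = p}.ncard = f →
    {p : P | p ∈ O ∧ σ • p = p ∧ τ • p = p}.ncard = k →
    (∀ l : L, σ • l = l → ∃ p ∈ O, p ∈ l) →
    2 * {l : L | σ • l = l ∧ τ • l = l}.ncard + 2 * k = k ^ 2 + 3 * f ∧
      ∀ p ∈ O, σ • p = p → τ • p = p → {l : L | (σ • l = l ∧ τ • l = l) ∧ p ∈ l}.ncard = k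

/-- OV-B3 (may assume `JobCore`, `JobB1`, `JobB2`). -/
def JobB3 : Prop := All.{u, v, w} fun G P L _ _ _ _ n _ =>
  ∀ (σ τ : G) (m m' m'' : ℕ), Baer P L n σ m → Baer P L n τ m' → Baer P L n (σ * τ) m'' →
    Commute σ τ → False

end H51.OV
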