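import Cfsg.Agent.H51.RFSpec

/-! Tower R3F (S2207): assembly. -/

set_option autoImplicit false
set_option linter.unusedSectionVars false

namespace H51.R3F

open MulAction

universe u v

structure Jobs : Prop where
  g : JobG.{u, v}
  n1 : JobN1.{u, v}
  n2 : JobN2.{u, v}
  qm : JobQM.{u, v}
  q1 : JobQ1
  q2 : JobQ2
  sr : JobSR.{v}
  k2 : JobK2.{u, v}
  z : JobZ.{u, v}
  sh : JobSH.{u, v}
  cnt : JobCnt.{u, v}
  fix : JobFix.{u, v}
  l34 : JobL34.{u}
  fin : JobFin.{u, v}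

variable {G : Type u} {X : Type v} [Group G] [MulAction G X] {Γ : SimpleGraph X}
  {N : X → Subgroup G} {k lam mu h m e n u t : ℕ}

theorem Gr.nadj_smul (S : Gr G Γ k lam mu) (g : G) {x y : X} (H : Nadj Γ x y) :
    Nadj Γ (g • x) (g • y) :=
  ⟨fun e => H.1 (smul_left_cancel g e), fun e => H.2 (by simpa using S.inv g⁻¹ _ _ e)⟩

theorem Sr.ex_nbr [Finite X] (S : Sr Γ k lam mu) {a c : X} (H : Nadj Γ a c) :
    ∃ c', Γ.Adj c c' ∧ Nadj Γ a c' := by
  by_contra hc
  push Not at hc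
  have : {w | Γ.Adj c w} ⊆ {w | Γ.Adj a w ∧ Γ.Adj c w} := by
    intro w hw
    refine ⟨?_, hw⟩
    by_contra h'
    exact hc w hw ⟨fun e => H.2 (by rw [e]; exact hw.symm), h'⟩
  have h1 := Set.ncard_le_ncard this
  rw [S.deg, S.nadj a c H] at h1
  have := S.mu_lt
  omega

theorem St.no_fix (S : St Γ N k lam mu h m e n u t) {a y w : X} {x : G} (hx : x ∈ N a)
    (h1 : x ≠ 1) (hy : x • y = y) (hw : x • w = w) : ¬ Γ.Adj y w := fun H =>
  (((S.memN y x).1 (S.piN a y x hx hy)).2.resolve_left h1) w H hw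

theorem St.h_dvd (S : St Γ N k lam mu h m e n u t) : h ∣ k - 1 := by
  obtain ⟨s, hs⟩ := S.h_lam
  exact ⟨s + t, by have := S.k_t; rw [mul_add]; omega⟩

theorem St.nadj_orb (S : St Γ N k lam mu h m e n u t) {a c : X} (H : Nadj Γ a c) {g : G}
    (hg : g ∈ N a) : Nadj Γ a (g • c) := by
  have := S.toGr.nadj_smul g H
  rwa [((S.memN a g).1 hg).1] at this

/-- a non-trivial element of `N a` that commutes with `N a` and fixes `c` kills the diagonal -/
theorem diag_zero (S : St Γ N k lam mu h m e n u t) {a c : X} (H : Nadj Γ a c) {x : G}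
    (hx : x ∈ N a) (h1 : x ≠ 1) (hc : x • c = c) (hz : ∀ g ∈ N a, x * g = g * x)
    {o : X → Fin u} {b : Fin u → Fin u → ℕ} {ν : ℕ} (Q : QM k lam mu e n u ν b)
    (ho : ∀ y y', Nadj Γ a y → Nadj Γ a y' → (o y = o y' ↔ ∃ g ∈ N a, g • y = y'))
    (hb : ∀ y j, Nadj Γ a y → b (o y) j = {w | Γ.Adj y w ∧ Nadj Γ a w ∧ o w = j}.ncard) (i : Fin u) :
    b i i = 0 := by
  rw [Q.cst i (o c), hb c _ H]
  have : {w | Γ.Adj c w ∧ Nadj Γ a w ∧ o w = o c} = ∅ := by
    ext w
    simp only [Set.mem_ofPred_eq, Set.mem_empty_iff_false, iff_false]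
    rintro ⟨h2, h3, h4⟩
    obtain ⟨g, hg, rfl⟩ := (ho c w H h3).1 h4.symm
    exact S.no_fix hx h1 hc (by rw [← mul_smul, hz g hg, mul_smul, hc]) h2
  rw [this, Set.ncard_empty]

variable [Finite G] [Finite X]

theorem case_even (J : Jobs.{u, v}) (S : St Γ N k lam mu h m e n u t) (hp : IsPreprimitive G X)
    (hk : Even k) : False := by
  classical
  obtain ⟨a⟩ := S.ne
  obtain ⟨z, hz, h2, hzc, c, hca, hc⟩ := J.k2 G X Γ N k lam mu h m e n u t S hp hk a
  have h1 : z ≠ 1 := by rintro rfl; simp at h2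
  have H : Nadj Γ a c := ⟨hca.symm, S.no_fix hz h1 ((S.memN a z).1 hz).1 hc⟩
  obtain ⟨o, b, ν, Q, ho, -, hb⟩ := J.qm G X Γ N k lam mu h m e n u t S a
  refine (J.q1 k lam mu e n u ν b Q S.k_eq S.mu_pos S.mu_lt
    (diag_zero S H hz h1 hc hzc Q ho hb)).1 ?_ ?_ ?_
  · rw [← S.cardE a c H, even_iff_two_dvd, ← h2]
    exact Subgroup.orderOf_dvd_natCard _ ⟨hz, hc⟩
  · by_contra hn
    have key : ∀ y, Nadj Γ a y → z • y = y := by
      intro y hy
      let O : Set X := {w | ∃ g ∈ N a, g • y = w}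
      have hO : ∀ w ∈ O, z • w ∈ O := by
        rintro _ ⟨g, hg, rfl⟩
        exact ⟨z * g, mul_mem hz hg, mul_smul _ _ _⟩
      have hzz : z * z = 1 := by rw [← sq, ← h2, pow_orderOf_eq_one]
      let f : O → O := fun w => ⟨z • w.1, hO _ w.2⟩
      have hf : Function.Involutive f := fun w => Subtype.ext (by
        show z • z • w.1 = w.1
        rw [← mul_smul, hzz, one_smul])
      have := Fintype.ofFinite O
      have : Fact (Nat.Prime 2) := ⟨Nat.prime_two⟩
      obtain ⟨⟨_, g, hg, rfl⟩, hw⟩ := Equiv.Perm.exists_fixed_point_of_prime (p := 2) (n := 1)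
        (α := O) (σ := hf.toPerm) (by
          rw [← Nat.card_eq_fintype_card, Nat.card_coe_set_eq, S.cardO a y hy]
          exact fun h => hn (even_iff_two_dvd.2 h)) (by
          ext w
          simp [sq, hf w])
      have hw' : z • g • y = g • y := congrArg Subtype.val hw
      rw [← mul_smul, hzc g hg, mul_smul] at hw'
      exact smul_left_cancel g hw'
    obtain ⟨c', h3, h4⟩ := S.toSr.ex_nbr H
    exact S.no_fix hz h1 hc (key c' h4) h3
  · have : Odd (k - 1) := by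
      have := S.mu_lt
      rcases hk with ⟨r, hr⟩
      exact ⟨r - 1, by omega⟩
    exact this.of_dvd_nat (S.u_dvd.trans S.h_dvd)

theorem case_E (J : Jobs.{u, v}) (S : St Γ N k lam mu h m e n u t) (Z : Zf Γ N) (hk : Odd k)
    (he : 1 < e) : Nat.card X = 16 ∧ k = 9 := by
  have ex : ∀ a c, Nadj Γ a c → ∃ x ∈ N a, x ≠ 1 ∧ x • c = c := by
    intro a c H
    have := S.cardE a c H
    have hne : N a ⊓ stabilizer G c ≠ ⊥ := by
      intro h0
      rw [h0, Subgroup.card_bot] at this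
      omega
    obtain ⟨x, h1⟩ := (Subgroup.ne_bot_iff_exists_ne_one.1 hne)
    exact ⟨x, x.2.1, fun h => h1 (Subtype.ext h), x.2.2⟩
  have hen : e ∣ n := by
    obtain ⟨a⟩ := S.ne
    obtain ⟨c, H⟩ := S.ex a
    obtain ⟨c', h3, h4⟩ := S.toSr.ex_nbr H
    let f : ↥(N a ⊓ stabilizer G c) × ↥(N a ⊓ stabilizer G c') →* N a :=
      { toFun := fun p => ⟨p.1.1 * p.2.1, mul_mem p.1.2.1 p.2.2.1⟩
        map_one' := by simp
        map_mul' := fun p q => Subtype.ext (by
          have := Z.comm a _ p.2.2.1 _ q.1.2.1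
          simp only [Prod.fst_mul, Subgroup.coe_mul, Prod.snd_mul]
          rw [mul_assoc, mul_assoc, ← mul_assoc p.2.1, this]
          simp only [mul_assoc]) }
    have hf : Function.Injective f := by
      rw [injective_iff_map_eq_one]
      intro p hp
      have h5 : p.1.1 * p.2.1 = 1 := congrArg Subtype.val hp
      have h6 : p.1.1 = p.2.1⁻¹ := eq_inv_of_mul_eq_one_left h5
      have h7 : p.1.1 = 1 := by
        by_contra h1
        refine S.no_fix p.1.2.1 h1 p.1.2.2 ?_ h3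
        rw [h6]
        exact (inv_mem p.2.2.2 : p.2.1⁻¹ ∈ stabilizer G c')
      rw [h7, one_mul] at h5
      exact Prod.ext (Subtype.ext h7) (Subtype.ext h5)
    have := Subgroup.card_dvd_of_injective f hf
    rw [Nat.card_prod, S.cardE a c H, S.cardE a c' h4, S.cardN, S.k_eq] at this
    exact Nat.dvd_of_mul_dvd_mul_left (by omega) this
  have hn : n ≤ 3 := by
    refine J.sh G X Γ N k lam mu h m e n u t S Z hk he fun a c y H hy => ?_
    obtain ⟨x, hx, h1, hc⟩ := ex a c H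
    obtain ⟨o, b, ν, Q, ho, -, hb⟩ := J.qm G X Γ N k lam mu h m e n u t S a
    have hz := fun g hg => Z.comm a x hx g hg
    have hpos := (J.q1 k lam mu e n u ν b Q S.k_eq S.mu_pos S.mu_lt
      (diag_zero S H hx h1 hc hz Q ho hb)).2.1 he hen
    by_cases hya : y = a
    · exact Or.inl hya
    have hxy := hy x hx hc
    have Hy : Nadj Γ a y := ⟨Ne.symm hya, S.no_fix hx h1 ((S.memN a x).1 hx).1 hxy⟩
    refine Or.inr ((ho c y H Hy).1 ?_)
    by_contra hne
    have := hpos (o y) (o c) (Ne.symm hne)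
    rw [hb y _ Hy, Set.ncard_pos] at this
    obtain ⟨w, h2, h3, h4⟩ := this
    obtain ⟨g, hg, rfl⟩ := (ho c w H h3).1 h4.symm
    exact S.no_fix hx h1 hxy (by rw [← mul_smul, hz g hg, mul_smul, hc]) h2
  obtain ⟨a⟩ := S.ne
  obtain ⟨c, H⟩ := S.ex a
  obtain ⟨x, hx, h1, hc⟩ := ex a c H
  obtain ⟨o, b, ν, Q, ho, -, hb⟩ := J.qm G X Γ N k lam mu h m e n u t S a
  obtain ⟨h9, h3, h2⟩ := (J.q1 k lam mu e n u ν b Q S.k_eq S.mu_pos S.mu_lt
    (diag_zero S H hx h1 hc (fun g hg => Z.comm a x hx g hg) Q ho hb)).2.2 he hen hn hk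
    (Fin.pos (o c)) (S.u_dvd.trans S.h_dvd)
  exact ⟨by rw [S.cardX, h9, h3, h2], h9⟩

theorem ar_odd {k h m u s t i j : ℕ} (hm : Odd m) (he : Even h) (hh : u * m = h) (h1 : 1 < h)
    (hk : k = 1 + h * s + h * t) (ht : 0 < t) (hv : 1 + k + u * k = 2 * (1 + i + u * j))
    (hi : i ≤ h) (hj : j ≤ m) : u = 2 ∧ s = 0 ∧ t = 1 := by
  have hu : Even u := by
    rw [← hh] at he
    exact (Nat.even_mul.1 he).resolve_right (Nat.not_even_iff_odd.2 hm)
  have h2 : u * j ≤ h := hh ▸ Nat.mul_le_mul_left u hj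
  have hu0 : u ≠ 0 := by rintro rfl; omega
  obtain ⟨r, rfl⟩ := hu
  obtain ⟨w, hw⟩ : ∃ w, s + t = w + 1 := ⟨s + t - 1, by omega⟩
  have hk' : k = 1 + h * (w + 1) := by rw [hk, ← hw]; ring
  obtain ⟨r, rfl⟩ : ∃ r', r = r' + 1 := ⟨r - 1, by omega⟩
  have h3 : h * (3 * w + 2 * r + 2 * r * w) < h * 1 := by nlinarith
  have h4 := lt_of_mul_lt_mul_left h3 (Nat.zero_le h)
  have h5 : w = 0 := by omega
  have h6 : r = 0 := by omega
  omega

theorem ar_even {k h m u s t i j : ℕ} (hu : 2 ≤ u) (hh : u * m = h) (h1 : 1 < h)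
    (hk : k = 1 + h * s + h * t) (hv : 1 + k + u * k = (u + 2) * (1 + i + u * j))
    (hi : i ≤ h) (hj : j ≤ m) : s + t ≤ 2 := by
  have h2 : u * j ≤ h := hh ▸ Nat.mul_le_mul_left u hj
  by_contra hc
  have h3 : h * 3 ≤ h * (s + t) := Nat.mul_le_mul_left h (by omega)
  have h4 : (u + 2) * (1 + i + u * j) ≤ (u + 2) * (1 + h + h) :=
    Nat.mul_le_mul_left _ (by omega)
  have h5 : 1 + h * 3 ≤ k := by rw [hk, add_assoc, ← mul_add]; omega
  nlinarith [Nat.mul_le_mul_left u h5, Nat.mul_le_mul_left h hu]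

theorem coset (J : Jobs.{u, v}) (S : St Γ N k lam mu h m 1 k u t) (Z : Zf Γ N) (hm : Even m)
    {a c : X} (H : Nadj Γ a c) (h1 : m < 2 * (Sw G a c).ncard)
    (h2 : m = 4 ∨ 3 * m < 4 * (Sw G a c).ncard) : (Sw G a c).ncard = m := by
  have hD := S.cardD a c H
  have : Fact (Nat.Prime 2) := ⟨Nat.prime_two⟩
  have sq : ∀ s : G, orderOf s = 2 → s * s = 1 := fun s hs => by
    rw [← sq, ← hs, pow_orderOf_eq_one]
  have back : ∀ s ∈ Sw G a c, s • c = a := fun s hs => by
    rw [← hs.2.2, ← mul_smul, sq s hs.1, one_smul]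
  rw [← hD] at h1 h2 ⊢
  refine J.l34 G _ _ ?_ (fun s hs => sq s hs.1) (fun s hs d hd => ⟨⟨?_, ?_⟩, ?_, ?_, ?_⟩)
    (fun s hs s' hs' => ⟨?_, ?_⟩) h1 (h2.imp_left fun h4 x hx y hy => ?_)
  · obtain ⟨z, hz⟩ := exists_prime_orderOf_dvd_card' (G := ↥(stabilizer G a ⊓ stabilizer G c)) 2
      (by rw [hD]; exact even_iff_two_dvd.1 hm)
    refine ⟨z, ⟨z.2, by rw [Subgroup.orderOf_coe, hz]⟩, fun y hy => ?_⟩
    have hz' : orderOf (z : G) = 2 := by rw [Subgroup.orderOf_coe, hz]
    have h5 : y * z ∈ N a ⊓ stabilizer G c :=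
      ⟨Z.mul a y z hy.2 hz' hy.1.1 z.2.1, mul_mem hy.1.2 z.2.2⟩
    rw [Subgroup.card_eq_one.1 (S.cardE a c H), Subgroup.mem_bot] at h5
    rw [eq_inv_of_mul_eq_one_left h5, inv_eq_of_mul_eq_one_left (sq _ hz')]
  · show (s * d * s⁻¹) • a = a
    rw [inv_eq_of_mul_eq_one_left (sq s hs.1), mul_smul, mul_smul, hs.2.2, hd.2, back s hs]
  · show (s * d * s⁻¹) • c = c
    rw [inv_eq_of_mul_eq_one_left (sq s hs.1), mul_smul, mul_smul, back s hs, hd.1, hs.2.2]
  · rw [← hs.1]
    exact (MulAut.conj d).orderOf_eq s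
  · obtain ⟨x, hx⟩ := hs.2.1
    exact ⟨d • x, by rw [mul_smul, mul_smul, inv_smul_smul, hx]⟩
  · rw [mul_smul, mul_smul, (inv_mem hd.1 : d⁻¹ ∈ stabilizer G a), hs.2.2, hd.2]
  · show (s * s') • a = a
    rw [mul_smul, hs'.2.2, back s hs]
  · show (s * s') • c = c
    rw [mul_smul, back s' hs', hs.2.2]
  · have := (IsPGroup.isMulCommutative_of_card_eq_prime_sq (p := 2)
      (G := ↥(stabilizer G a ⊓ stabilizer G c)) (by rw [h4]; norm_num)).is_comm.comm ⟨x, hx⟩ ⟨y, hy⟩
    exact congrArg Subtype.val this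

set_option maxHeartbeats 1600000 in
theorem case_one (J : Jobs.{u, v}) (S : St Γ N k lam mu h m 1 k u t) (Z : Zf Γ N) (hk : Odd k)
    (hh : Even h) : (Nat.card X = 10 ∧ Nat.card G = 60) ∨ (Nat.card X = 16 ∧ Nat.card G = 320) := by
  obtain ⟨a⟩ := S.ne
  obtain ⟨c, H⟩ := S.ex a
  obtain ⟨b, hb⟩ : ∃ b, Γ.Adj a b := by
    have := S.deg a
    have h1 := S.mu_lt
    exact (Set.ncard_pos (s := {w | Γ.Adj a w})).1 (by omega)
  obtain ⟨z, hz, hza, -⟩ := Z.ex a b hb
  obtain ⟨c1, c2, c3, c4⟩ := J.cnt G X Γ N k lam mu h m u t S Z a b c z hb H hz hza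
  obtain ⟨f1, f2⟩ := J.fix G X Γ N k lam mu h m u t S Z hk a c z H hz hza
  obtain ⟨s, hs⟩ := S.h_lam
  have hum : u * m = h := by rw [S.um, one_mul]
  have hkt := S.k_t
  have hmu := S.mu_eq
  have hX := S.cardX
  have hG := S.cardG
  have ht : 0 < t := by
    have := S.mu_pos
    rw [hmu] at this
    exact Nat.pos_of_mul_pos_right this |>.trans_le le_rfl
  have hSR := fun mu' (e : mu = mu') => J.sr X Γ k lam mu' (e ▸ S.toSr)
  rw [hs] at hkt
  rcases Nat.even_or_odd m with hm | hm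
  · obtain ⟨g1, g2, g3, g4⟩ := f2 hm
    right
    rw [g1] at c1 c2
    rw [g3] at c1
    have hu : 2 ≤ u := by
      have := S.h_lt
      obtain ⟨r, rfl⟩ := g2
      rcases r with _ | r
      · omega
      · omega
    have hm2 : 2 ≤ m := by
      have := S.h_lt
      obtain ⟨r, rfl⟩ := hm
      rcases r with _ | r
      · omega
      · omega
    have hw := ar_even hu hum S.h_lt hkt (hX.symm.trans c2) c3 c4
    obtain ⟨o, B, ν, Q, ho, -, hB⟩ := J.qm G X Γ N k lam mu h m 1 k u t S a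
    have hr : B (o c) (o c) = {w | Γ.Adj c w ∧ ∃ g ∈ N a, g • c = w}.ncard := by
      rw [hB c _ H]
      congr 1
      ext w
      constructor
      · rintro ⟨h1, h2, h3⟩
        exact ⟨h1, (ho c w H h2).1 h3.symm⟩
      · rintro ⟨h1, g, hg, rfl⟩
        exact ⟨h1, S.nadj_orb H hg, ((ho c _ H (S.nadj_orb H hg)).2 ⟨g, hg, rfl⟩).symm⟩
    rw [← hr] at c1 g4
    have L := coset J S Z hm H
    generalize (Sw G a c).ncard = j at *
    generalize (Sw G a b).ncard = i at *
    have hst : (s = 0 ∧ t = 1) ∨ (s = 0 ∧ t = 2) ∨ (s = 1 ∧ t = 1) := by omega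
    rcases hst with ⟨rfl, rfl⟩ | ⟨rfl, rfl⟩ | ⟨rfl, rfl⟩
    · have hl : lam = 0 := by omega
      have hmu' : mu = m := by omega
      subst hl
      have hk1 : k = u * m + 1 := by omega
      have e1 : (u + 2) * j + B (o c) (o c) = (u + 1) * m := by
        apply Nat.eq_of_mul_eq_mul_left (show 0 < u by omega)
        rw [hX, hk1] at c2
        nlinarith
      have e2 : u + 2 ≤ 2 * m := by
        refine Nat.le_of_dvd (by omega) ?_
        rw [hX, hk1] at c2
        refine (Int.natCast_dvd_natCast).1 ⟨(1 + i + u * j : ℤ) - 1 - (u - 1) * m, ?_⟩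
        have : ((1 + (u * m + 1) + u * (u * m + 1) : ℕ) : ℤ) =
            ((u + 2) * (1 + i + u * j) : ℕ) := by rw [c2]
        push_cast at this ⊢
        linear_combination this
      obtain ⟨q1, q2⟩ := (J.q2 k mu m u ν B Q hm2 hu (o c)).2 hmu' g4 e2
      obtain ⟨s1, -, s3, s4⟩ := hSR m hmu'
      generalize B (o c) (o c) = r at *
      by_cases hu2 : u = 2
      · subst hu2
        have h12 := s1 (by omega) rfl (by omega)
        have hm10 : m ≤ 10 := by have := Nat.le_of_dvd (by norm_num) h12; omega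
        have : m = 2 := by
          interval_cases m <;> omega
        subst this
        have hk5 : k = 5 := by omega
        subst hk5
        have hX' : Nat.card X = 16 := by omega
        exact ⟨hX', by rw [hG, hX', ← hum]⟩
      · exfalso
        obtain ⟨w, rfl⟩ := g2
        have hlo : (w + w) * m ≤ (w + w + 2) * j := by rcases q1 with rfl | rfl <;> nlinarith
        have hhi : j < m := by
          by_contra hc
          nlinarith
        have hw2 : 2 ≤ w := by omega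
        have h2j : m < 2 * j := by
          by_contra hc
          nlinarith
        have h34 : m = 4 ∨ 3 * m < 4 * j := by
          by_cases h2 : w = 2
          · subst h2
            exact (s3 hm (by omega) rfl).elim
          by_cases h3 : w = 3
          · subst h3
            exact Or.inl (s4 hm (by omega) rfl)
          right
          have : 4 ≤ w := by omega
          by_contra hc
          nlinarith
        have := L h2j h34
        omega
    · exfalso
      have hl : lam = 0 := by omega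
      subst hl
      have hk1 : k = 2 * u * m + 1 := by rw [mul_assoc]; omega
      refine (J.q2 k mu m u ν B Q hm2 hu (o c)).1 (by omega) ?_
      have e1 : (u + 2) * j + B (o c) (o c) = 2 * (u + 1) * m := by
        apply Nat.eq_of_mul_eq_mul_left (show 0 < u by omega)
        rw [hX, hk1] at c2
        nlinarith
      nlinarith
    · exact ((hSR m (by omega)).2.1 u hu hm (by rw [mul_assoc]; omega) (by omega)).elim
  · left
    rw [f1 hm] at c2
    obtain ⟨rfl, rfl, rfl⟩ := ar_odd hm hh hum S.h_lt hkt ht (hX.symm.trans c2) c3 c4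
    have h12 := (hSR m (by omega)).1 (by omega) (by omega) (by omega)
    have hm10 : m ≤ 10 := by have := Nat.le_of_dvd (by norm_num) h12; omega
    have : m = 1 := by
      obtain ⟨r, hr⟩ := hm
      interval_cases m <;> omega
    subst this
    have hk3 : k = 3 := by omega
    subst hk3
    have hX' : Nat.card X = 10 := by omega
    exact ⟨hX', by rw [hG, hX', ← hum]⟩

theorem main (J : Jobs.{u, v}) {G : Type u} {X : Type v} [Group G] [Finite G] [Fintype X]
    [MulAction G X] [FaithfulSMul G X] (heven : Even (Nat.card G)) (hprim : IsPreprimitive G X)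
    (A : X) (h3 : Nat.card (orbitRel.Quotient ↥(stabilizer G A) X) = 3) (B : X) (hBA : B ≠ A)
    (hfaith : ∀ g ∈ stabilizer G A, (∀ h ∈ stabilizer G A, g • (h • B) = h • B) → g = 1)
    (hfix : ∃ g ∈ stabilizer G A, g ≠ 1 ∧ g • B = B)
    (hfrob : ∀ g ∈ stabilizer G A, ∀ h ∈ stabilizer G A, g • B = B → g • (h • B) = h • B →
      h • B ≠ B → g = 1) :
    (Nonempty (G ≃* ↥(alternatingGroup (Fin 5))) ∧ Fintype.card X = 10) ∨
    (Group.IsSolvable G ∧ ∃ N : Subgroup G, N.Normal ∧ Nat.card N = 16 ∧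
      ∀ x y : X, ∃! n : ↥N, (n : G) • x = y) := by
  obtain ⟨Γ, k, lam, mu, S0⟩ := J.g G X heven hprim A h3 B hBA hfaith hfix hfrob
  obtain ⟨N, S1⟩ := J.n1 G X Γ k lam mu S0
  obtain ⟨h, m, e, n, u, t, S⟩ := J.n2 G X Γ N k lam mu S1
  obtain ⟨F1, F2⟩ := J.fin G X hprim
  rcases Nat.even_or_odd k with hk | hk
  · exact (case_even J S hprim hk).elim
  obtain ⟨hh, Z⟩ := J.z G X Γ N k lam mu h m e n u t S heven hk
  have hk' := S.k_eq
  have he0 : e ≠ 0 := by
    rintro rfl
    have := S.mu_lt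
    omega
  by_cases he : e = 1
  · subst he
    obtain rfl : k = n := by omega
    rcases case_one J S Z hk hh with ⟨h1, h2⟩ | ⟨h1, h2⟩
    · exact Or.inl ⟨F1 h1 h2, by rw [← Nat.card_eq_fintype_card, h1]⟩
    · exact Or.inr (F2 h1 ⟨5, 6, 1, by norm_num, by rw [h2]; norm_num⟩)
  · obtain ⟨h1, rfl⟩ := case_E J S Z hk (by omega)
    obtain ⟨i, -, hi⟩ := (Nat.dvd_prime_pow Nat.prime_two (m := 3)).1 S.h_dvd
    exact Or.inr (F2 h1 ⟨3, 4 + i, 2, by norm_num, by rw [S.cardG, h1, hi]; ring⟩)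

end H51.R3F
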