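import Cfsg.Agent.H11.FBSpec

/-! Counting the points of the projective plane over the field with 2 or 4 elements. -/

set_option autoImplicit false

namespace H51.FbONd

open H11.FB

universe u v

theorem jobONd : JobONd.{u, v} := by
  intro G Ω _ _ _ _ a b p F _ _ ρ ab pm h3
  classical
  let f : {x : Ω // x ≠ a ∧ x ≠ b} × Fˣ → {w : Fin 3 → F // w ≠ 0} := fun y =>
    ⟨(y.2 : F) • ρ y.1, smul_ne_zero y.2.ne_zero (pm.ne0 _ y.1.2.1 y.1.2.2)⟩
  have hf : Function.Bijective f := by
    constructor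
    · rintro ⟨⟨x, xa, xb⟩, c⟩ ⟨⟨y, ya, yb⟩, d⟩ e
      have e1 : (c : F) • ρ x = (d : F) • ρ y := congrArg Subtype.val e
      obtain rfl : x = y := pm.inj x y xa xb ya yb ((d : F)⁻¹ * c) (by
        rw [mul_smul, e1, inv_smul_smul₀ d.ne_zero])
      have : (c : F) = d := smul_left_injective F (pm.ne0 x xa xb) e1
      rw [Units.ext this]
    · rintro ⟨w, hw⟩
      obtain ⟨x, xa, xb, c, rfl⟩ := pm.surj w hw
      exact ⟨⟨⟨x, xa, xb⟩, Units.mk0 c (left_ne_zero_of_smul hw)⟩, rfl⟩
  have hc := Fintype.card_of_bijective hf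
  have c1 : Fintype.card {x : Ω // x ≠ a ∧ x ≠ b} + 2 = Fintype.card Ω := by
    rw [Fintype.card_subtype, ← Finset.card_pair ab, ← Finset.card_univ,
      ← Finset.card_filter_add_card_filter_not (s := Finset.univ) (fun x : Ω => x ≠ a ∧ x ≠ b)]
    congr 2
    ext x
    simp only [Finset.mem_insert, Finset.mem_singleton, Finset.mem_filter, Finset.mem_univ, true_and]
    tauto
  have c2 : Fintype.card {w : Fin 3 → F // w ≠ 0} = Fintype.card F ^ 3 - 1 := by
    rw [Fintype.card_subtype_compl, Fintype.card_subtype_eq, Fintype.card_fun, Fintype.card_fin]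
  obtain ⟨g, hg⟩ := IsCyclic.exists_ofOrder_eq_natCard (α := Fˣ)
  have d3 : Fintype.card F - 1 ∣ 3 := by
    rw [← Fintype.card_units, ← Nat.card_eq_fintype_card, ← hg]
    exact orderOf_dvd_of_pow_eq_one (Units.ext (by simpa using h3 g g.ne_zero))
  rw [Fintype.card_prod, c2, Fintype.card_units] at hc
  have h1 : 1 < Fintype.card F := Fintype.one_lt_card
  rcases (Nat.dvd_prime Nat.prime_three).1 d3 with e | e
  · rw [show Fintype.card F = 2 by omega] at hc
    omega
  · rw [show Fintype.card F = 4 by omega] at hc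
    omega

end H51.FbONd
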