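import Cfsg.Agent.H51.KLSpec

/-! KL-AR: arithmetic. -/

set_option autoImplicit false

namespace H51.KL

theorem ar_a {t u c j : ℤ} (hc : 1 ≤ c) (hct : c + 1 ≤ t) (hu : 1 ≤ u) (hj : 2 ≤ j)
    (key : j * t * (t * u - 1) = u * c * (t + c) + c) : u = 1 ∧ c = t - 1 := by
  have tu : 0 ≤ t * (t * u - 1) := mul_nonneg (by omega) (by nlinarith)
  have e1 : 2 * (t * (t * u - 1)) ≤ j * (t * (t * u - 1)) := mul_le_mul_of_nonneg_right hj tu
  have e3 : c * (t + c) ≤ (t - 1) * (t + (t - 1)) :=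
    mul_le_mul (by omega) (by omega) (by omega) (by omega)
  have e2 : u * (c * (t + c)) ≤ u * ((t - 1) * (t + (t - 1))) :=
    mul_le_mul_of_nonneg_left e3 (by omega)
  have e4 : (3 * t - 1) * (u - 1) ≤ 0 := by linarith
  have u1 : u = 1 := by
    by_contra h
    have : 0 < (3 * t - 1) * (u - 1) := mul_pos (by omega) (by omega)
    omega
  subst u1
  refine ⟨rfl, ?_⟩
  by_contra h
  have : c * (t + c) ≤ (t - 2) * (t + (t - 2)) :=
    mul_le_mul (by omega) (by omega) (by omega) (by omega)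
  linarith

theorem ar_b {t u c : ℤ} (hc : 1 ≤ c) (hu : 1 ≤ u)
    (k2 : u * (t ^ 2 - c * t - c ^ 2) = t + c) (h : t = c + 1 ∨ 2 * c + 1 ≤ t) :
    c = 1 ∧ t = 2 ∧ u = 3 := by
  have pos : 0 < t ^ 2 - c * t - c ^ 2 := by
    by_contra h'
    have : u * (t ^ 2 - c * t - c ^ 2) ≤ 0 := mul_nonpos_of_nonneg_of_nonpos (by omega) (by omega)
    omega
  have le : 1 * (t ^ 2 - c * t - c ^ 2) ≤ u * (t ^ 2 - c * t - c ^ 2) :=
    mul_le_mul_of_nonneg_right hu pos.le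
  rcases h with rfl | h
  · have c1 : c = 1 := by
      by_contra h'
      have : 2 * c ≤ c * c := mul_le_mul_of_nonneg_right (by omega) (by omega)
      linarith
    subst c1
    exact ⟨rfl, rfl, by linarith⟩
  · exfalso
    obtain ⟨r, rfl⟩ : ∃ r, t = 2 * c + 1 + r := ⟨t - (2 * c + 1), by ring⟩
    have r0 : 0 ≤ r := by omega
    have := mul_nonneg r0 r0
    have := mul_nonneg r0 (by omega : 0 ≤ c)
    have := mul_pos (by omega : 0 < c) (by omega : 0 < c)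
    linarith

theorem ar_c {q k i : ℤ} (hq : 2 ≤ q) (hk : k = 1 ∨ k = 2) (h1 : 1 ≤ i) (h2 : i ≤ q ^ 2 - 1) :
    ¬ q ^ 3 ∣ k * q ^ 2 - q - k + i := fun h => by
  obtain ⟨r, rfl⟩ : ∃ r, q = r + 2 := ⟨q - 2, by ring⟩
  have r0 : 0 ≤ r := by omega
  have r2 := mul_nonneg r0 r0
  have r3 := mul_nonneg r0 r2
  have h9 := Int.le_of_dvd (by rcases hk with rfl | rfl <;> linarith) h
  rcases hk with rfl | rfl
  · linarith
  · rcases (by omega : r = 0 ∨ 1 ≤ r) with h0 | h0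
    · subst h0
      omega
    · have := mul_le_mul_of_nonneg_right h0 r0
      have := mul_le_mul_of_nonneg_right h0 r2
      linarith

theorem ar_d {q : ℤ} (hq : 2 ≤ q) (m : ℕ) : 2 * (q ^ 2 - 1) ≤ q ^ (m + 4) - 1 := by
  have h1 : q ^ 4 ≤ q ^ (m + 4) := pow_le_pow_right₀ (by omega) (by omega)
  have := sq_nonneg (q ^ 2 - 1)
  linarith

theorem ar1 {p e q : ℕ} (hp : p.Prime) (he : 1 ≤ e) (hq : q = p ^ e) {a t c i : ℕ} (h1 : a * t = q)
    (h2 : t ≠ 1) (h3 : c ∣ t - 1) (h4 : c ∣ q - 1) (h5 : i * (a * c) = q * (q - 1))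
    (h6 : i - 1 ∣ (q + 1) * (a * c)) :
    (a = 1 ∧ c = q - 1 ∧ i = q) ∨ (q = 4 ∧ a = 2 ∧ c = 1 ∧ i = 6) := by
  have q2 : 2 ≤ q := hq ▸ hp.two_le.trans (Nat.le_self_pow (by omega) p)
  obtain ⟨u, hu⟩ := h4
  have a0 : 0 < a := Nat.pos_of_ne_zero (by rintro rfl; omega)
  have t2 : 2 ≤ t := by
    rcases t with _ | _ | t <;> omega
  have c0 : 0 < c := Nat.pos_of_ne_zero (by rintro rfl; omega)
  have u0 : 0 < u := Nat.pos_of_ne_zero (by rintro rfl; omega)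
  have hi : i = t * u := by
    rw [hu, ← h1] at h5
    exact Nat.eq_of_mul_eq_mul_right (Nat.mul_pos a0 c0) (by rw [h5]; ring)
  obtain ⟨b, -, hb⟩ := (Nat.dvd_prime_pow hp).1 (hq ▸ Dvd.intro _ h1 : a ∣ p ^ e)
  obtain ⟨d, -, hd⟩ := (Nat.dvd_prime_pow hp).1 (hq ▸ Dvd.intro_left _ h1 : t ∣ p ^ e)
  have pt : p ∣ t := hd ▸ dvd_pow_self p (by rintro rfl; rw [pow_zero] at hd; omega)
  have i1 : 1 ≤ i := hi ▸ Nat.mul_pos (by omega) u0
  have co : (i - 1).Coprime a := hb ▸ Nat.Coprime.pow_right b (Nat.Coprime.symm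
    ((Nat.Prime.coprime_iff_not_dvd hp).2 fun h => hp.one_lt.ne'
      (Nat.dvd_one.1 ((Nat.dvd_sub_iff_right i1 (hi ▸ pt.mul_right u)).1 h))))
  obtain ⟨w, hw⟩ : i - 1 ∣ (q + 1) * c :=
    co.dvd_of_dvd_mul_left (by rw [← mul_left_comm]; exact h6)
  have ct : c + 1 ≤ t := by have := Nat.le_of_dvd (by omega) h3; omega
  have hq1 : (q : ℤ) = c * u + 1 := by
    have : q = c * u + 1 := by omega
    exact_mod_cast this
  have hw' : ((q : ℤ) + 1) * c = (t * u - 1) * w := by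
    have := congrArg (Nat.cast : ℕ → ℤ) hw
    rw [Nat.cast_mul, Nat.cast_mul, Nat.cast_sub i1, hi] at this
    exact_mod_cast this
  have h1' : (a : ℤ) * t = q := by exact_mod_cast h1
  obtain ⟨j, hj⟩ : ∃ j : ℤ, (w : ℤ) + c = j * t := ⟨u * w - a * c, by linear_combination hw' + c * h1'⟩
  have key : j * t * (t * u - 1) = u * c * (t + c) + c := by
    rw [← hj]
    linear_combination -hw' + c * hq1
  have ct' : (c : ℤ) + 1 ≤ t := by exact_mod_cast ct
  have c0' : (1 : ℤ) ≤ c := by exact_mod_cast c0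
  have u0' : (1 : ℤ) ≤ u := by exact_mod_cast u0
  have j1 : 1 ≤ j := by
    by_contra h
    have : j * t ≤ 0 := mul_nonpos_of_nonpos_of_nonneg (by omega) (by positivity)
    have : (0 : ℤ) ≤ w := by positivity
    omega
  by_cases j2 : 2 ≤ j
  · obtain ⟨u1, ct1⟩ := ar_a c0' ct' u0' j2 key
    rw [u1] at hq1
    have u1' : u = 1 := by exact_mod_cast u1
    have tq : t = q := by omega
    refine .inl ⟨?_, by rw [hu, u1', mul_one], by rw [hi, u1', mul_one, tq]⟩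
    rw [tq] at h1
    exact Nat.eq_of_mul_eq_mul_right (by omega : 0 < q) (by omega)
  · have j1' : j = 1 := by omega
    rw [j1'] at key
    obtain ⟨s, hs⟩ := h3
    have hs' : t = c * s + 1 := by omega
    obtain ⟨c1, t2', u3⟩ := ar_b c0' u0' (t := t) (by linear_combination key) (by
      rcases s with _ | _ | s
      · omega
      · omega
      · right
        have : 2 * c + 1 ≤ t := by rw [hs']; nlinarith [Nat.zero_le (c * s)]
        omega)
    have c1' : c = 1 := by omega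
    have t2'' : t = 2 := by omega
    have u3' : u = 3 := by omega
    subst c1' t2'' u3'
    exact .inr ⟨by omega, by omega, rfl, by omega⟩

theorem jobAr : JobAr := fun p e q hp he hq => by
  refine ⟨fun a t c i => ar1 hp he hq, fun n N P L hn hP hL => ?_⟩
  have q2 : 2 ≤ q := hq ▸ hp.two_le.trans (Nat.le_self_pow (by omega) p)
  have pq : p ∣ q := hq ▸ dvd_pow_self p (by omega)
  obtain ⟨m, rfl⟩ : ∃ m, n = m + 5 := ⟨n - 5, by omega⟩
  have g1 : ∀ k, 1 ≤ q ^ k := fun k => Nat.one_le_pow _ _ (by omega)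
  have hP' : (P : ℤ) * (q - 1) = q ^ (m + 5) - 1 := by
    zify [g1, (by omega : 1 ≤ q)] at hP
    exact hP
  have hL' : (L : ℤ) * ((q ^ 2 - 1) * (q - 1)) = (q ^ (m + 5) - 1) * (q ^ (m + 4) - 1) := by
    zify [g1, (by omega : 1 ≤ q)] at hL
    exact hL
  obtain ⟨A, hA⟩ : ∃ A : ℤ, (L : ℤ) * ((q ^ 2 - 1) * (q - 1)) = 1 + q ^ 4 * A :=
    ⟨q ^ (2 * m + 5) - q ^ (m + 1) - q ^ m, by rw [hL']; ring⟩
  obtain ⟨B, hB⟩ : ∃ B : ℤ, (P : ℤ) * ((q ^ 2 - 1) * (q - 1)) = -(q ^ 2 - 1) + q ^ 4 * B :=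
    ⟨q ^ (m + 1) * (q ^ 2 - 1), by linear_combination (q ^ 2 - 1) * hP'⟩
  have pq' : (p : ℤ) ∣ q := Int.natCast_dvd_natCast.2 pq
  have np : ∀ x : ℤ, ¬ (p : ℤ) ∣ 1 + q * x := fun x h =>
    hp.one_lt.ne' (Nat.dvd_one.1 (Int.natCast_dvd_natCast.1 ((dvd_add_left (pq'.mul_right x)).1 h)))
  have q2' : (2 : ℤ) ≤ q := by exact_mod_cast q2
  refine ⟨fun i hi h hj hN => ?_, fun h h4 => ?_, fun q4 h h4 => ?_, fun h hN => ?_,
    fun h hN => ?_, ?_, fun M hM h hN => ?_⟩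
  · obtain ⟨k, C, hk, hC⟩ : ∃ k C : ℤ, (k = 1 ∨ k = 2) ∧
        (N : ℤ) * ((q ^ 2 - 1) * (q - 1)) = k * q ^ 3 - q ^ 2 - k * q + i + q ^ 4 * C := by
      rcases h with h | h <;> zify at h
      · exact ⟨1, (i - 1) * A, .inl rfl,
          by linear_combination ((q ^ 2 - 1) * (q - 1)) * h + (i - 1) * hA⟩
      · exact ⟨2, (i - 1) * A - B, .inr rfl,
          by linear_combination ((q ^ 2 - 1) * (q - 1)) * h + (i - 1) * hA - hB⟩
    have up : ∀ j, j < e → p ^ j ∣ i → p ^ (j + 1) ∣ i := fun j hje h1 => by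
      have h2 : p ^ (j + 1) ∣ N := by
        rcases j with _ | j
        · simpa using hN
        · exact (pow_dvd_pow p (by omega)).trans (hj _ h1)
      have h3 : ((p ^ (j + 1) : ℕ) : ℤ) ∣ q :=
        Int.natCast_dvd_natCast.2 (hq ▸ pow_dvd_pow p hje)
      have h4 : ((p ^ (j + 1) : ℕ) : ℤ) ∣ N := Int.natCast_dvd_natCast.2 h2
      refine Int.natCast_dvd_natCast.1 ?_
      rw [show (i : ℤ) = N * ((q ^ 2 - 1) * (q - 1)) - q * (k * q ^ 2 - q - k + q ^ 3 * C) by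
        linear_combination -hC]
      exact dvd_sub (h4.mul_right _) (h3.mul_right _)
    have all : ∀ j, j ≤ e → p ^ j ∣ i := fun j => by
      induction j with
      | zero => simp
      | succ j ih => exact fun h => up j h (ih (by omega))
    obtain ⟨i', rfl⟩ : q ∣ i := hq ▸ all e le_rfl
    have h1 := hj e (hq ▸ Dvd.intro _ rfl)
    rw [mul_comm, pow_mul, ← hq] at h1
    obtain ⟨N', rfl⟩ := h1
    have h2 := Nat.dvd_of_mul_dvd_mul_left (by omega) hi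
    have h3 : 2 ^ 2 ≤ q ^ 2 := Nat.pow_le_pow_left q2 2
    have h4 := Nat.le_of_dvd (by omega) h2
    have h5 : 0 < i' := Nat.pos_of_dvd_of_pos h2 (by omega)
    have h6 : (i' : ℤ) ≤ q ^ 2 - 1 := by
      zify [g1] at h4
      exact h4
    have h7 : (1 : ℤ) ≤ i' := by exact_mod_cast h5
    have h8 : (q : ℤ) ^ 3 ∣ k * q ^ 2 - q - k + i' := ⟨N' * ((q ^ 2 - 1) * (q - 1)) - C,
      mul_left_cancel₀ (by omega : (q : ℤ) ≠ 0) (by push_cast at hC; linear_combination -hC)⟩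
    exact ar_c q2' hk h7 h6 h8
  · obtain ⟨N', rfl⟩ := h4
    zify at h
    have h8 : (q : ℤ) ∣ 1 := ⟨N' * ((q ^ 2 - 1) * (q - 1)) - (q * A - B),
      mul_left_cancel₀ (pow_ne_zero 3 (by omega : (q : ℤ) ≠ 0)) (by
        linear_combination -((q ^ 2 - 1) * (q - 1)) * h - q * hA + hB)⟩
    have := Int.le_of_dvd one_pos h8
    omega
  · subst q4
    obtain ⟨N', rfl⟩ := h4
    zify at h
    push_cast at hA hB
    omega
  · zify at h
    refine np (2 * q ^ 2 - (1 : ℤ) + q ^ 3 * ((q + 1) * A - 2 * B)) ?_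
    rw [show 1 + q * (2 * q ^ 2 - (1 : ℤ) + q ^ 3 * ((q + 1) * A - 2 * B)) =
      N * ((q ^ 2 - 1) * (q - 1)) by
        linear_combination -((q ^ 2 - 1) * (q - 1)) * h - (q + 1) * hA + 2 * hB]
    exact (Int.natCast_dvd_natCast.2 hN).mul_right _
  · zify at h
    exact np L (h ▸ Int.natCast_dvd_natCast.2 hN)
  · have d0 : (0 : ℤ) < (q ^ 2 - 1) * (q - 1) := mul_pos (by have := mul_le_mul q2' q2' (by omega) (by omega); linarith) (by omega)
    have h1 : (1 : ℤ) ≤ q ^ m := one_le_pow₀ (by omega)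
    have h2 : (0 : ℤ) ≤ q ^ (m + 5) - 1 := sub_nonneg.2 (one_le_pow₀ (by omega))
    have h3 := ar_d q2' m
    have : 2 * (P : ℤ) ≤ L := le_of_mul_le_mul_right (by
      rw [hL', show 2 * (P : ℤ) * ((q ^ 2 - 1) * (q - 1)) = (q ^ (m + 5) - 1) * (2 * (q ^ 2 - 1)) by
        rw [← hP']; ring]
      exact mul_le_mul_of_nonneg_left h3 h2) d0
    exact_mod_cast this
  · obtain ⟨s, hs⟩ := hM.dvd
    zify at h
    refine np (-(s + P - q ^ (m + 4))) ?_
    rw [show 1 + q * -(s + P - (q : ℤ) ^ (m + 4)) = N by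
      push_cast at hs; linear_combination -h + hs - hP']
    exact Int.natCast_dvd_natCast.2 hN

end H51.KL
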