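import Cfsg.Agent.H51.KLGeo

/-! Assembly of the tower KL, part 1. -/

set_option autoImplicit false

namespace H51.KL

open Module Submodule H53.CK

universe u v

variable {F : Type u} [Field F] [Finite F] {V : Type v} [AddCommGroup V] [Module F V]
  [FiniteDimensional F V] {S K : Subgroup (V ≃ₗ[F] V)}

local instance : Finite (V ≃ₗ[F] V) := finGL F V

omit [Finite F] [FiniteDimensional F V] in
theorem Hyp.scS (h : Hyp S K) : Sc S := fun c hc =>
  (h.sc c hc).imp fun _ hg => ⟨h.le hg.1, hg.2⟩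

theorem Hyp.map2 (J : Jobs.{u, v}) (h : Hyp S K) {x y a b : V} (h1 : Ind F x y) (h2 : Ind F a b) :
    ∃ g ∈ S, g x = a ∧ g y = b := by
  have h5 := h.five
  obtain ⟨z, hz⟩ := exists_ind3 (by omega) h1
  obtain ⟨c, hc⟩ := exists_ind3 (by omega) h2
  obtain ⟨g, hg, e1, e2, -⟩ := (J.idx F V S h.scS h.tv (by omega) x y z hz).1 a b c hc
  exact ⟨g, hg, e1, e2⟩

theorem Hyp.map1 (J : Jobs.{u, v}) (h : Hyp S K) {x a : V} (h1 : x ≠ 0) (h2 : a ≠ 0) :
    ∃ g ∈ S, g x = a := by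
  have h5 := h.five
  obtain ⟨y, hy⟩ := exists_ind (F := F) (by omega) h1
  obtain ⟨b, hb⟩ := exists_ind (F := F) (by omega) h2
  exact (h.map2 J hy hb).imp fun _ hg => ⟨hg.1, hg.2.1⟩

theorem Hyp.not_fix (J : Jobs.{u, v}) (h : Hyp S K) : ¬ Fix K := by
  have h5 := h.five
  have key : ∀ U : Submodule F V, K ≤ stabSub S U → dc S (stabSub S U) (stabSub S U) = 2 → False :=
    fun U hU h2 => by
      rcases h.max _ hU (stabSub_le S U) with e | e
      · have := h.rk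
        rw [e] at h2
        omega
      · rw [e, dc_self_left] at h2
        omega
  rintro (⟨x, hx, hK⟩ | ⟨φ, hφ, hK⟩)
  · obtain ⟨y, hy⟩ := exists_ind (F := F) (by omega) hx
    exact key _ (fun g hg => mem_Pt.2 ⟨h.le hg, hK g hg⟩)
      ((J.dcj F V S h.scS h.tv h5).2 x y hy).1
  · exact key _ (fun g hg => mem_stabSub.2 ⟨h.le hg, hK g hg⟩)
      ((J.dcj F V S h.scS h.tv h5).1 φ hφ)

theorem Hyp.not_four (h : Hyp S K) : ¬ Four K := by
  rintro ⟨ι, hι, g, hg, hi⟩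
  have := le_dc (S := S) (A := K) (B := K) g (fun i => H62.mem_of_det_eq_one h.tv _ (hg i))
    fun i j ⟨a, ha, b, hb, e⟩ => hi i j (by rw [e, (hι _ b hb).2, (hι _ a ha).1])
  rw [h.rk] at this
  omega

theorem Hyp.not_t2 (h : Hyp S K) : ¬ T2 K := fun ht => by
  have h5 := h.five
  rcases cameronKantor F V K ht with h4 | h4
  · omega
  · exact h.ntv h4

theorem exists_pe (F : Type u) [Field F] [Finite F] :
    ∃ p e : ℕ, p.Prime ∧ 1 ≤ e ∧ Nat.card F = p ^ e := by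
  have := Fintype.ofFinite F
  obtain ⟨p, _, e, hp, he⟩ := FiniteField.card' F
  exact ⟨p, e, hp, e.2, by rw [Nat.card_eq_fintype_card, he]⟩

theorem Hyp.tvx (J : Jobs.{u, v}) (h : Hyp S K) {p e : ℕ} (hp : p.Prime) (hq : Nat.card F = p ^ e)
    (hN : ¬ p ∣ K.relIndex S) : ∃ x : V, x ≠ 0 ∧ ∀ φ : Dual F V, φ x = 0 → H62.HasTv K φ x := by
  have h5 := h.five
  refine (J.div F V S K h.le h.tv (by omega)).1 ?_
  rw [hq]
  exact ((Nat.Prime.coprime_iff_not_dvd hp).2 hN).symm.pow_right e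

theorem Hyp.pdvd (J : Jobs.{u, v}) (h : Hyp S K) (hT : PT K) {p e : ℕ} (hp : p.Prime)
    (hq : Nat.card F = p ^ e) : p ∣ K.relIndex S := by
  by_contra hN
  obtain ⟨x, hx, hφ⟩ := h.tvx J hp hq hN
  refine h.ntv fun φ u hu => ?_
  by_cases h0 : u = 0
  · exact h0 ▸ H62.HasTv.zero_right K φ
  obtain ⟨g, hg, rfl⟩ := hT x u hx h0
  exact (hφ (φ ∘ₗ (g : V →ₗ[F] V)) hu).conj' hg fun _ => rfl

/-- inner products and degrees -/
structure Gm (S : Subgroup (V ≃ₗ[F] V)) (x y : V) : Prop where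
  p0 : ∀ A ≤ S, ip S (pc S A) (pc S S) = 1
  p0' : ∀ A ≤ S, ip S (pc S S) (pc S A) = 1
  p11 : ip S (pc S (Pt S x)) (pc S (Pt S x)) = 2
  pH1 : ∀ H, Rl S x y ≤ H → H ≤ Ln S x y →
    ip S (pc S H) (pc S (Pt S x)) = dc (Ln S x y) H (Fl S x y) + 1
  p1H : ∀ H, Rl S x y ≤ H → H ≤ Ln S x y →
    ip S (pc S (Pt S x)) (pc S H) = dc (Ln S x y) H (Fl S x y) + 1
  pHH : ∀ H H', Rl S x y ≤ H → H ≤ Ln S x y → Rl S x y ≤ H' → H' ≤ Ln S x y →
    ip S (pc S H) (pc S H') = dc (Ln S x y) H H' +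
      dc (Ln S x y) H (Fl S x y) * dc (Ln S x y) H' (Fl S x y) + 1
  bb : dc (Ln S x y) (Fl S x y) (Fl S x y) = 2
  dH : ∀ H ≤ Ln S x y, pc S H 1 = H.relIndex (Ln S x y) * (Ln S x y).relIndex S
  dB : (Fl S x y).relIndex (Ln S x y) = Nat.card F + 1
  nP : (Pt S x).relIndex S * (Nat.card F - 1) = Nat.card F ^ finrank F V - 1
  nL : (Ln S x y).relIndex S * ((Nat.card F ^ 2 - 1) * (Nat.card F - 1)) =
    (Nat.card F ^ finrank F V - 1) * (Nat.card F ^ (finrank F V - 1) - 1)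

theorem Hyp.gm (J : Jobs.{u, v}) (h : Hyp S K) {x y : V} (hxy : Ind F x y) : Gm S x y := by
  have h5 := h.five
  obtain ⟨z, hz⟩ := exists_ind3 (by omega) hxy
  obtain ⟨-, i1, i2, i3, -⟩ := J.idx F V S h.scS h.tv (by omega) x y z hz
  obtain ⟨d1, d2, d3, d4, -⟩ := (J.dcj F V S h.scS h.tv h5).2 x y hxy
  have hL : Ln S x y ≤ S := stabSub_le _ _
  have hP : Pt S x ≤ S := stabSub_le _ _
  refine ⟨fun A hA => ?_, fun A hA => ?_, ?_, fun H h1 h2 => ?_, fun H h1 h2 => ?_,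
    fun H H' h1 h2 h3 h4 => ?_, d2, fun H h1 => ?_, i3, i1, i2⟩
  · rw [ip_pc hA le_rfl, dc_self_right, Nat.cast_one]
  · rw [ip_pc le_rfl hA, dc_self_left, Nat.cast_one]
  · rw [ip_pc hP hP, d1, Nat.cast_ofNat]
  · rw [ip_pc (h2.trans hL) hP, d3 H h1 h2, Nat.cast_add, Nat.cast_one]
  · rw [ip_comm, ip_pc (h2.trans hL) hP, d3 H h1 h2, Nat.cast_add, Nat.cast_one]
  · rw [ip_pc (h2.trans hL) (h4.trans hL), d4 H H' h1 h2 h3 h4]
    push_cast
    ring
  · rw [pc_one (h1.trans hL), ← Subgroup.relIndex_mul_relIndex H _ S h1 hL, Nat.cast_mul]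

theorem Hyp.pt_iff (J : Jobs.{u, v}) (h : Hyp S K) {x : V} (hx : x ≠ 0) :
    dc S K (Pt S x) = 1 ↔ PT K := by
  constructor
  · intro h1
    have : ∀ a : V, a ≠ 0 → ∃ k ∈ K, k x = a := fun a ha => by
      obtain ⟨g, hg, rfl⟩ := h.map1 J hx ha
      obtain ⟨k, hk, b, hb, rfl⟩ := dc_eq_one.1 h1 g hg
      obtain ⟨c, hc⟩ := mem_span_singleton.1 (mem_Pt.1 hb).2
      obtain ⟨s, hs, hv⟩ := h.sc c (by
        rintro rfl
        exact hx (by simpa using hc.symm))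
      exact ⟨k * s, K.mul_mem hk hs, by simp [hv, hc]⟩
    intro a b ha hb
    obtain ⟨k, hk, rfl⟩ := this a ha
    obtain ⟨k', hk', rfl⟩ := this b hb
    exact ⟨k' * k⁻¹, K.mul_mem hk' (K.inv_mem hk), congrArg k' (k.symm_apply_apply x)⟩
  · intro hT
    refine le_antisymm (dc_le (fun _ : Fin 1 => 1) fun g hg => ⟨0, ?_⟩) (one_le_dc _ _ _)
    obtain ⟨k, hk, e⟩ := hT x (g x) hx (by simpa using hx)
    exact (DC_Pt h.le S.one_mem hg).2 ⟨k, hk, e ▸ mem_span_singleton_self _⟩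

theorem Hyp.lnEq_symm (J : Jobs.{u, v}) (h : Hyp S K) {x y a b : V} (h1 : Ind F x y)
    (h2 : Ind F a b) (e : LnEq K x y a b) : LnEq K a b x y := by
  obtain ⟨g, hg, rfl, rfl⟩ := h.map2 J h1 h2
  exact (DC_Ln h.le hg S.one_mem).1 ((DC_Ln h.le S.one_mem hg).2 e).symm

theorem Hyp.lnEq_trans (J : Jobs.{u, v}) (h : Hyp S K) {x y a b c d : V} (h1 : Ind F x y)
    (h2 : Ind F a b) (h3 : Ind F c d) (e : LnEq K x y a b) (e' : LnEq K a b c d) :
    LnEq K x y c d := by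
  obtain ⟨g, hg, rfl, rfl⟩ := h.map2 J h1 h2
  obtain ⟨g', hg', rfl, rfl⟩ := h.map2 J h1 h3
  exact (DC_Ln h.le S.one_mem hg').1
    (((DC_Ln h.le S.one_mem hg).2 e).trans ((DC_Ln h.le hg hg').2 e'))

/-- the case of two orbits on points -/
theorem Hyp.two (J : Jobs.{u, v}) (h : Hyp S K) (hT : ¬ PT K) {x y : V} (hxy : Ind F x y) :
    K.relIndex S = (Ln S x y).relIndex S := by
  have h5 := h.five
  have G := h.gm J hxy
  have hL : Ln S x y ≤ S := stabSub_le _ _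
  have hP : Pt S x ≤ S := stabSub_le _ _
  have hB : Fl S x y ≤ S := inf_le_left.trans hP
  have hBL : Fl S x y ≤ Ln S x y := inf_le_right
  obtain ⟨p, e, hp, he, hq⟩ := exists_pe F
  obtain ⟨-, -, -, -, a5, a6, -⟩ := (J.ar p e _ hp he hq).2 _ (K.relIndex S) _ _ h5 G.nP G.nL
  have e1 := ip_pc hP h.le
  have e2 := ip_pc hL h.le
  have e3 := ip_pc hB h.le
  rw [dc_comm] at e1 e2 e3
  have R := Rl_le_Ln (S := S) x y
  have R' := Rl_le_Fl (S := S) x y
  have g11 := G.p11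
  have g21 := G.pH1 _ R le_rfl
  have g12 := G.p1H _ R le_rfl
  have g22 := G.pHH _ _ R le_rfl R le_rfl
  have gB2 := G.pHH _ _ R' hBL R le_rfl
  have g2B := G.pHH _ _ R le_rfl R' hBL
  have gBB := G.pHH _ _ R' hBL R' hBL
  simp only [dc_self_left, dc_self_right, G.bb] at g21 g12 g22 gB2 g2B gBB
  have ha : dc S K (Pt S x) = 2 := by
    have := cs_rk h.le h.rk (pc S (Pt S x) - pc S S) (by simp [ip_sub, G.p0 _ hP, G.p0 _ le_rfl])
    simp only [ip_sub, ip_sub', g11, G.p0 _ hP, G.p0' _ hP, G.p0' _ h.le, G.p0 _ le_rfl, e1] at this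
    have h1 := one_le_dc S K (Pt S x)
    have h2 := (h.pt_iff J hxy.1).not.2 hT
    by_contra h3
    have : (3 : ℚ) ≤ dc S K (Pt S x) := by exact_mod_cast (by omega : 3 ≤ dc S K (Pt S x))
    nlinarith
  rcases (by have := one_le_dc S K (Ln S x y); omega :
    dc S K (Ln S x y) = 1 ∨ dc S K (Ln S x y) = 2 ∨ 3 ≤ dc S K (Ln S x y)) with hs | hs | hs
  · have := index_eq h.le h.rk (pc S (Pt S x) + pc S (Pt S x) - pc S S - pc S (Ln S x y))
      (by simp [ip_sub, ip_add, G.p0 _ hP, G.p0 _ hL, G.p0 _ le_rfl])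
      (by
        simp only [ip_sub, ip_sub', ip_add, ip_add', g11, g12, g21, g22, G.p0 _ hP, G.p0' _ hP,
          G.p0 _ hL, G.p0' _ hL, G.p0 _ le_rfl]
        norm_num)
      (by simp only [ip_sub, ip_add, e1, e2, ha, hs, G.p0' _ h.le]; norm_num)
    simp only [Pi.sub_apply, Pi.add_apply, pc_one hP, pc_one hL, pc_one le_rfl,
      Subgroup.relIndex_self] at this
    have h1 : K.relIndex S + (Ln S x y).relIndex S = 2 * (Pt S x).relIndex S := by
      exact_mod_cast (by push_cast at this; linarith :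
        (K.relIndex S : ℚ) + (Ln S x y).relIndex S = 2 * (Pt S x).relIndex S)
    have h2 : K.relIndex S ≠ 0 := Subgroup.index_ne_zero_of_finite
    omega
  · exfalso
    obtain ⟨g, hg, n1, c1⟩ := dc_two ha
    obtain ⟨g', hg', n2, c2⟩ := dc_two hs
    have hsc : ∀ {a b : V}, b ≠ 0 → (∃ k ∈ K, k a ∈ F ∙ b) → a ≠ 0 → ∃ k ∈ K, k a = b := by
      rintro a b hb ⟨k, hk, hm⟩ ha
      obtain ⟨c, hc⟩ := mem_span_singleton.1 hm
      have c0 : c ≠ 0 := by
        rintro rfl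
        exact ha (by simpa using hc.symm)
      obtain ⟨s, hs, hv⟩ := h.sc c⁻¹ (inv_ne_zero c0)
      exact ⟨s * k, K.mul_mem hs hk, by simp [hv, ← hc, smul_smul, c0]⟩
    refine h.not_fix J (J.a F V K h.sc (by omega) x (g x) hxy.1 (by simpa using hxy.1)
      (fun k hk e => n1 ((DC_Pt h.le S.one_mem hg).2 ⟨k, hk, e ▸ mem_span_singleton_self _⟩))
      (fun a ha => ?_) x y (g' x) (g' y) hxy (hxy.map g')
      (fun e => n2 ((DC_Ln h.le S.one_mem hg').2 e)) (fun a b hab => ?_) ?_)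
    · obtain ⟨s, hs, rfl⟩ := h.map1 J hxy.1 ha
      exact (c1 s hs).imp (fun d => hsc ha ((DC_Pt h.le S.one_mem hs).1 d) hxy.1)
        fun d => hsc ha ((DC_Pt h.le hg hs).1 d) (by simpa using hxy.1)
    · obtain ⟨s, hs, rfl, rfl⟩ := h.map2 J hxy hab
      exact (c2 s hs).imp (fun d => (DC_Ln h.le hs S.one_mem).1 d.symm)
        fun d => (DC_Ln h.le hs hg').1 d.symm
    by_cases hf : dc S K (Fl S x y) < 4
    · refine .inl fun a b hab => ?_
      choose s hs h1 h2 using fun i => h.map2 J hxy (hab i)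
      obtain ⟨i, j, hij, d⟩ := exists_DC hf s hs
      exact ⟨i, j, hij, by simpa [h1, h2] using (DC_Fl h.le (hs i) (hs j)).1 d⟩
    · have hf' : (4 : ℚ) ≤ dc S K (Fl S x y) := by exact_mod_cast not_lt.1 hf
      have := index_eq h.le h.rk (pc S (Fl S x y) - pc S (Ln S x y))
        (by simp [ip_sub, G.p0 _ hB, G.p0 _ hL])
        (by simp only [ip_sub, ip_sub', g22, gB2, g2B, gBB]; norm_num)
        (by simp only [ip_sub, e2, e3, hs]; push_cast; linarith)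
      simp only [Pi.sub_apply, G.dH _ hBL, pc_one hL, G.dB] at this
      exact .inr (h.tvx J hp hq (a5 (by exact_mod_cast (by push_cast at this; linarith :
        (K.relIndex S : ℚ) = 1 + Nat.card F * (Ln S x y).relIndex S))))
  · have hs' : (3 : ℚ) ≤ dc S K (Ln S x y) := by exact_mod_cast hs
    have := index_eq h.le h.rk (pc S (Ln S x y) - pc S S)
      (by simp [ip_sub, G.p0 _ hL, G.p0 _ le_rfl])
      (by simp only [ip_sub, ip_sub', g22, G.p0 _ hL, G.p0' _ hL, G.p0 _ le_rfl]; norm_num)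
      (by simp only [ip_sub, e2, G.p0' _ h.le]; linarith)
    simp only [Pi.sub_apply, pc_one hL, pc_one le_rfl, Subgroup.relIndex_self] at this
    exact_mod_cast (by push_cast at this; linarith : (K.relIndex S : ℚ) = (Ln S x y).relIndex S)

/-- three orbits on planes -/
theorem Hyp.not_pl3 (J : Jobs.{u, v}) (h : Hyp S K) (hT : PT K) : ¬ Pl3 K := by
  rintro ⟨a, b, c, hi, hn⟩
  have h5 := h.five
  have G := h.gm J (hi 0).1
  obtain ⟨t, -, -, -, -, i5⟩ := J.idx F V S h.scS h.tv (by omega) _ _ _ (hi 0)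
  obtain ⟨d1, d2⟩ := ((J.dcj F V S h.scS h.tv h5).2 _ _ (hi 0).1).2.2.2.2 _ (hi 0)
  obtain ⟨p, e, hp, he, hq⟩ := exists_pe F
  obtain ⟨-, -, -, -, -, -, a7⟩ := (J.ar p e _ hp he hq).2 _ (K.relIndex S) _ _ h5 G.nP G.nL
  have hE : Pl S (a 0) (b 0) (c 0) ≤ S := stabSub_le _ _
  have hP : Pt S (a 0) ≤ S := stabSub_le _ _
  choose s hs h1 h2 h3 using fun i => t _ _ _ (hi i)
  have h3' : 3 ≤ dc S K (Pl S (a 0) (b 0) (c 0)) := le_dc s hs fun i j d => by
    obtain ⟨k, hk, hm⟩ := DC_iff.1 d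
    refine hn i j k hk fun v hv => ?_
    rw [← h1 i, ← h2 i, ← h3 i, ← Set.image_pair, ← Set.image_insert_eq, ← symm_mem_span] at hv
    rw [← h1 j, ← h2 j, ← h3 j, ← Set.image_pair, ← Set.image_insert_eq, ← symm_mem_span]
    have := (hm.2 _).2 hv
    change (s j).symm (k (s i ((s i).symm v))) ∈ _ at this
    rwa [(s i).apply_symm_apply] at this
  have q1 : (3 : ℚ) ≤ dc S K (Pl S (a 0) (b 0) (c 0)) := by exact_mod_cast h3'
  have q2 : (dc S (Pl S (a 0) (b 0) (c 0)) (Pl S (a 0) (b 0) (c 0)) : ℚ) ≤ 4 := by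
    exact_mod_cast d1
  have q3 : (2 : ℚ) ≤ dc S (Pl S (a 0) (b 0) (c 0)) (Pt S (a 0)) := by exact_mod_cast d2
  have := index_eq h.le h.rk (pc S (Pl S (a 0) (b 0) (c 0)) - pc S (Pt S (a 0)))
    (by simp [ip_sub, G.p0 _ hE, G.p0 _ hP])
    (by
      simp only [ip_sub, ip_sub', G.p11, ip_pc hE hE, ip_pc hE hP, ip_pc hP hE,
        dc_comm S (Pt S (a 0))]
      linarith)
    (by
      simp only [ip_sub, ip_pc hE h.le, ip_pc hP h.le, dc_comm S _ K,
        (h.pt_iff J (hi 0).1.1).2 hT]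
      push_cast
      linarith)
  simp only [Pi.sub_apply, pc_one hE, pc_one hP] at this
  exact a7 _ i5 (by exact_mod_cast (by linarith : (K.relIndex S : ℚ) + (Pt S (a 0)).relIndex S =
    1 + (Pl S (a 0) (b 0) (c 0)).relIndex S)) (h.pdvd J hT hp hq)

end H51.KL
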