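import Cfsg.Agent.H51.KLAsm

/-! Assembly of the tower KL, part 2: the point transitive case. -/

set_option autoImplicit false

namespace H51.KL

open Module Submodule H53.CK

universe u v

variable {F : Type u} [Field F] [Finite F] {V : Type v} [AddCommGroup V] [Module F V]
  [FiniteDimensional F V] {S K : Subgroup (V ≃ₗ[F] V)}

local instance finGL' : Finite (V ≃ₗ[F] V) := finGL F V

/-- the new part of the permutation character on the cosets of `H` -/
noncomputable def th (S : Subgroup (V ≃ₗ[F] V)) (x y : V) (H : Subgroup (V ≃ₗ[F] V)) :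
    (V ≃ₗ[F] V) → ℚ :=
  pc S H - pc S S - (dc (Ln S x y) H (Fl S x y) : ℚ) • (pc S (Pt S x) - pc S S) -
    (pc S (Ln S x y) - pc S (Pt S x))

theorem Gm.th_th {x y : V} (G : Gm S x y) {H H' : Subgroup (V ≃ₗ[F] V)} (h1 : Rl S x y ≤ H)
    (h2 : H ≤ Ln S x y) (h3 : Rl S x y ≤ H') (h4 : H' ≤ Ln S x y) :
    ip S (th S x y H) (th S x y H') = dc (Ln S x y) H H' - 1 := by
  have hL : Ln S x y ≤ S := stabSub_le _ _
  have hP : Pt S x ≤ S := stabSub_le _ _
  have R := Rl_le_Ln (S := S) x y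
  simp only [th, ip_sub, ip_sub', ip_smul, ip_smul', G.p0 _ hL, G.p0' _ hL, G.p0 _ hP, G.p0' _ hP,
    G.p0 _ (h2.trans hL), G.p0' _ (h4.trans hL), G.p0 _ le_rfl, G.p11, G.pH1 _ h1 h2,
    G.p1H _ h3 h4, G.pH1 _ R le_rfl, G.p1H _ R le_rfl, G.pHH _ _ h1 h2 h3 h4,
    G.pHH _ _ h1 h2 R le_rfl, G.pHH _ _ R le_rfl h3 h4, G.pHH _ _ R le_rfl R le_rfl,
    dc_self_left, dc_self_right]
  push_cast
  ring

theorem Gm.th_zero {x y : V} (G : Gm S x y) {H : Subgroup (V ≃ₗ[F] V)} (h2 : H ≤ Ln S x y) :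
    ip S (th S x y H) (pc S S) = 0 := by
  have hL : Ln S x y ≤ S := stabSub_le _ _
  have hP : Pt S x ≤ S := stabSub_le _ _
  simp [th, ip_sub, ip_smul, G.p0 _ hL, G.p0 _ hP, G.p0 _ (h2.trans hL), G.p0 _ le_rfl]

theorem Gm.th_two {x y : V} (G : Gm S x y) {H : Subgroup (V ≃ₗ[F] V)} (h1 : Rl S x y ≤ H)
    (h2 : H ≤ Ln S x y) : ip S (th S x y H) (pc S (Ln S x y) - pc S (Pt S x)) = 0 := by
  have hL : Ln S x y ≤ S := stabSub_le _ _
  have hP : Pt S x ≤ S := stabSub_le _ _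
  have R := Rl_le_Ln (S := S) x y
  simp only [th, ip_sub, ip_sub', ip_smul, G.p0' _ hL, G.p0' _ hP, G.p11, G.pH1 _ h1 h2,
    G.pH1 _ R le_rfl, G.p1H _ R le_rfl, G.pHH _ _ h1 h2 R le_rfl, G.pHH _ _ R le_rfl R le_rfl,
    dc_self_left, dc_self_right]
  push_cast
  ring

theorem th_pi {x y : V} (hK : K ≤ S) {H : Subgroup (V ≃ₗ[F] V)} (h2 : H ≤ Ln S x y)
    (h : dc S K (Pt S x) = 1) : ip S (th S x y H) (pc S K) = dc S K H - dc S K (Ln S x y) := by
  have hL : Ln S x y ≤ S := stabSub_le _ _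
  have hP : Pt S x ≤ S := stabSub_le _ _
  simp only [th, ip_sub, ip_smul, ip_pc hL hK, ip_pc hP hK, ip_pc (h2.trans hL) hK,
    ip_pc le_rfl hK, dc_comm S _ K, h, dc_self_right]
  push_cast
  ring

theorem Gm.th_one {x y : V} (G : Gm S x y) {H : Subgroup (V ≃ₗ[F] V)} (h2 : H ≤ Ln S x y) :
    th S x y H 1 = (H.relIndex (Ln S x y) - 1) * (Ln S x y).relIndex S -
      (dc (Ln S x y) H (Fl S x y) - 1) * ((Pt S x).relIndex S - 1) := by
  have hL : Ln S x y ≤ S := stabSub_le _ _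
  have hP : Pt S x ≤ S := stabSub_le _ _
  simp only [th, Pi.sub_apply, Pi.smul_apply, G.dH _ h2, pc_one hL, pc_one hP, pc_one le_rfl,
    Subgroup.relIndex_self, smul_eq_mul]
  push_cast
  ring

/-- rank two and two orbits on the points of the line: the index is `q + 1` -/
theorem Gm.borel {x y : V} (G : Gm S x y) {H : Subgroup (V ≃ₗ[F] V)} (h1 : Rl S x y ≤ H)
    (h2 : H ≤ Ln S x y) :
    (dc (Ln S x y) H H ≤ 3 → dc (Ln S x y) H (Fl S x y) ≤ 2) ∧
    (dc (Ln S x y) H (Fl S x y) = 2 → 2 ≤ dc (Ln S x y) H H ∧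
      (dc (Ln S x y) H H = 2 → H.relIndex (Ln S x y) = Nat.card F + 1)) := by
  have hB : Fl S x y ≤ Ln S x y := inf_le_right
  have R' := Rl_le_Fl (S := S) x y
  have a1 := G.th_th h1 h2 h1 h2
  have a2 := G.th_th h1 h2 R' hB
  have a3 := G.th_th R' hB h1 h2
  have a4 := G.th_th R' hB R' hB
  rw [G.bb] at a4
  rw [dc_comm] at a3
  have c := cs (th S x y H) _ one_pos (a4.trans (by norm_num))
  rw [a1, a2] at c
  refine ⟨fun h => ?_, fun h => ⟨?_, fun h' => ?_⟩⟩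
  · by_contra h3
    have h3' : (3 : ℚ) ≤ dc (Ln S x y) H (Fl S x y) := by exact_mod_cast not_le.1 h3
    have h4 : (dc (Ln S x y) H H : ℚ) ≤ 3 := by exact_mod_cast h
    nlinarith
  · rw [h] at c
    exact_mod_cast (by push_cast at c; linarith : (2 : ℚ) ≤ dc (Ln S x y) H H)
  · have : (th S x y H - th S x y (Fl S x y)) 1 = 0 := eq_zero_of_ip (S := S) (by
      simp only [ip_sub, ip_sub', a1, a2, a3, a4, h, h']
      norm_num)
    rw [Pi.sub_apply, G.th_one h2, G.th_one hB, h, G.bb, G.dB] at this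
    have h0 : ((Ln S x y).relIndex S : ℚ) ≠ 0 :=
      Nat.cast_ne_zero.2 Subgroup.index_ne_zero_of_finite
    have : ((H.relIndex (Ln S x y) : ℚ) - (Nat.card F + 1)) * (Ln S x y).relIndex S = 0 := by
      push_cast at this
      linarith
    exact_mod_cast sub_eq_zero.1 ((mul_eq_zero.1 this).resolve_right h0)

omit [FiniteDimensional F V] in
theorem card_tl_eq {x y : V} (h : Nat.card (Tl K x y) = Nat.card F) : Tl K x y = ⊤ :=
  AddSubgroup.eq_top_of_card_eq _ h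

omit [Finite F] [FiniteDimensional F V] in
theorem card_cl_dvd (x y : V) : Nat.card (Cl K x y) ∣ Nat.card F - 1 := by
  rw [← Nat.card_units]
  exact Subgroup.card_subgroup_dvd_card _

theorem Hyp.dc_hl (h : Hyp S K) {x y : V} (hs : dc S K (Ln S x y) = 1)
    {H : Subgroup (V ≃ₗ[F] V)} (h1 : Rl S x y ≤ H) (h2 : H ≤ Ln S x y) :
    dc S K H = dc (Ln S x y) (Hl S K x y) H := by
  rw [mackey_one (P := Ln S x y) (stabSub_le _ _) h.le h2 hs, Hl,
    dc_sup inf_le_right (Rl_normal x y) h1]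

/-- the line transitive case: local analysis -/
theorem Hyp.loc1 (J : Jobs.{u, v}) (h : Hyp S K) (hT : PT K)
    (hL : ∀ x y x' y', Ind F x y → Ind F x' y' → LnEq K x y x' y') {x y : V} (hxy : Ind F x y) :
    (∀ a b, Ind F a b → FlEq K a b x y) ∧ ((Tl K x y = ⊥ ∧ Cl K x y = ⊤) ∨
      (Nat.card F = 4 ∧ Nat.card (Tl K x y) = 2 ∧ Cl K x y = ⊥)) := by
  have h5 := h.five
  have G := h.gm J hxy
  obtain ⟨p, e, hp, he, hq⟩ := exists_pe F
  obtain ⟨ar1, ar2⟩ := J.ar p e _ hp he hq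
  have ar3 := (ar2 _ (K.relIndex S) _ _ h5 G.nP G.nL).1
  have hs : dc S K (Ln S x y) = 1 :=
    le_antisymm (dc_le (fun _ : Fin 1 => 1) fun g hg =>
      ⟨0, (DC_Ln h.le S.one_mem hg).2 (hL _ _ _ _ hxy (hxy.map g))⟩) (one_le_dc _ _ _)
  have h1 : Rl S x y ≤ Hl S K x y := le_sup_right
  have h2 : Hl S K x y ≤ Ln S x y := Hl_le x y
  have a1 := G.th_th h1 h2 h1 h2
  have a2 := th_pi h.le h2 ((h.pt_iff J hxy.1).2 hT)
  rw [h.dc_hl hs h1 h2, hs] at a2
  have c := cs_rk h.le h.rk _ (G.th_zero h2)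
  rw [a1, a2] at c
  obtain ⟨l1, ⟨t, l2, l3⟩, l4, l5⟩ := J.line J.idx F V S K h.le h.sc h.tv (by omega) x y _ hxy rfl
  obtain ⟨b1, b2⟩ := G.borel h1 h2
  have r3 : dc (Ln S x y) (Hl S K x y) (Hl S K x y) ≤ 3 := by
    by_contra h3
    have : (4 : ℚ) ≤ dc (Ln S x y) (Hl S K x y) (Hl S K x y) := by exact_mod_cast not_le.1 h3
    push_cast at c
    nlinarith
  have o2 := b1 r3
  have o1 := one_le_dc (Ln S x y) (Hl S K x y) (Fl S x y)
  have r2 : dc (Ln S x y) (Hl S K x y) (Hl S K x y) ≠ 3 := fun r => by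
    have hN := index_eq h.le h.rk _ (G.th_zero h2) (by rw [a1, r]; norm_num)
      (by rw [a2, r]; norm_num)
    rw [G.th_one h2] at hN
    refine ar3 _ (Dvd.dvd.trans (Dvd.intro_left _ rfl) l1) ?_ (fun j hj => ?_) (h.pdvd J hT hp hq)
    · rcases (by omega : dc (Ln S x y) (Hl S K x y) (Fl S x y) = 1 ∨
        dc (Ln S x y) (Hl S K x y) (Fl S x y) = 2) with o | o <;> rw [o] at hN
      · exact .inl (by exact_mod_cast (by push_cast at hN; linarith :
          (K.relIndex S : ℚ) + (Ln S x y).relIndex S =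
            1 + (Hl S K x y).relIndex (Ln S x y) * (Ln S x y).relIndex S))
      · exact .inr (by exact_mod_cast (by push_cast at hN; linarith :
          (K.relIndex S : ℚ) + (Ln S x y).relIndex S + (Pt S x).relIndex S =
            2 + (Hl S K x y).relIndex (Ln S x y) * (Ln S x y).relIndex S))
    · obtain ⟨d1, d2⟩ := (J.div F V S K h.le h.tv (by omega)).2 x hxy.1
      obtain ⟨d, d3, d4⟩ := d1 hT
      have := d2 (p ^ j) fun y' hy' => by
        obtain ⟨k, hk, k1, k2⟩ := hL _ _ _ _ hy' hxy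
        obtain ⟨e1, e2⟩ := Hl_congr (S := S) (K := K) (span_eq_of_ind (hy'.map k) k1 k2)
        obtain ⟨m1, ⟨t', m2, -⟩, -⟩ :=
          J.line J.idx F V S K h.le h.sc h.tv (by omega) _ _ _ (hy'.map k) rfl
        rw [e1, e2, tl_map hk] at m1
        rw [tl_map hk] at m2
        obtain ⟨b, -, hb⟩ := (Nat.dvd_prime_pow hp).1 (hq ▸ Dvd.intro _ m2)
        have m3 : p ^ b * p ^ j ∣ Nat.card F * (Nat.card F ^ 2 - 1) :=
          hb ▸ (Nat.mul_dvd_mul_left _ hj).trans m1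
        rw [hb, ← pow_add] at *
        refine Nat.le_of_dvd Nat.card_pos (Nat.Coprime.dvd_of_dvd_mul_right ?_ m3)
        refine Nat.Coprime.pow_left _ ((Nat.Prime.coprime_iff_not_dvd hp).2 fun hd => ?_)
        have h0 : p ∣ Nat.card F ^ 2 := by
          rw [hq, ← pow_mul]
          exact dvd_pow_self p (by omega)
        have h1 : 1 ≤ Nat.card F ^ 2 := Nat.one_le_pow _ _ Nat.card_pos
        exact hp.one_lt.ne' (Nat.dvd_one.1 ((Nat.dvd_sub_iff_right h1 h0).1 hd))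
      rw [← d3] at this
      obtain ⟨m, -, rfl⟩ := (Nat.dvd_prime_pow hp).1
        (show d ∣ p ^ (e * (finrank F V - 1)) by rw [pow_mul, ← hq]; exact Dvd.intro_left _ d3)
      have : Finite (Dual F V) := finV F _
      have := Nat.le_of_mul_le_mul_left ‹_ * _ ≤ _ * _› Nat.card_pos
      rw [← pow_mul, Nat.pow_le_pow_iff_right hp.one_lt] at this
      exact (pow_dvd_pow p (le_trans (by nlinarith [show 4 ≤ finrank F V - 1 by omega]) this)).trans d4
  rcases (by omega : dc (Ln S x y) (Hl S K x y) (Fl S x y) = 1 ∨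
    dc (Ln S x y) (Hl S K x y) (Fl S x y) = 2) with o | o
  · obtain ⟨m1, m2, m3, m4⟩ := l4 o
    have ht : t ≠ 1 := by
      rintro rfl
      refine h.not_t2 fun a b c d hab hcd => ?_
      obtain ⟨k, hk, k1, k2⟩ := prEq_of (m4 (card_tl_eq (by simpa using l2))) hab hcd
        (hL _ _ _ _ hab hxy) (hL _ _ _ _ hcd hxy)
      obtain ⟨s, hs⟩ := mem_span_singleton.1 k1
      obtain ⟨t, ht⟩ := mem_span_singleton.1 k2
      exact ⟨k, hk, s, t, hs.symm, ht.symm⟩
    have r1 : dc (Ln S x y) (Hl S K x y) (Hl S K x y) ≠ 1 := fun r => by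
      have : (Hl S K x y).relIndex (Ln S x y) = 1 := Subgroup.relIndex_eq_one.2 fun g hg => by
        obtain ⟨a, ha, b, hb, rfl⟩ := dc_eq_one.1 r g hg
        exact Subgroup.mul_mem _ ha hb
      rw [this, one_mul] at m1
      have h1 : 1 < Nat.card F := Finite.one_lt_card
      have h2 := Nat.le_of_dvd (by omega) (card_cl_dvd (K := K) x y)
      have h3 : 2 ≤ t := by
        rcases t with _ | _ | t <;> omega
      have h4 : 0 < Nat.card (Tl K x y) := Nat.card_pos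
      have h5 : Nat.card F * (Nat.card F - 1) ≤ Nat.card (Tl K x y) * (Nat.card F - 1) :=
        m1 ▸ Nat.mul_le_mul_left _ h2
      have := Nat.le_of_mul_le_mul_right h5 (by omega)
      nlinarith
    have r0 := one_le_dc (Ln S x y) (Hl S K x y) (Hl S K x y)
    refine ⟨fun a b hab => ?_, ?_⟩
    · obtain ⟨k, hk, k1, k2⟩ := hL _ _ _ _ hab hxy
      obtain ⟨k', hk', e⟩ := m3 _ _ (hab.map k) k1 k2
      exact ⟨k' * k, K.mul_mem hk' hk, e⟩
    rcases ar1 _ _ _ _ l2 ht l3 (card_cl_dvd x y) m1 (m2 (by omega)) with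
      ⟨e1, e2, -⟩ | ⟨e1, e2, e3, -⟩
    · exact .inl ⟨AddSubgroup.card_eq_one.1 e1,
        Subgroup.eq_top_of_card_eq _ (by rw [e2, Nat.card_units])⟩
    · exact .inr ⟨e1, e2, Subgroup.card_eq_one.1 e3⟩
  · obtain ⟨b3, b4⟩ := b2 o
    obtain ⟨x₀, y₀, i0, i1, i2, i3⟩ := l5 o (b4 (by omega))
    exact (J.bor J.mom F V K h.sc hT (by omega) hL x₀ y₀ i0 i1 i2 i3).elim

theorem Hyp.not_lt (J : Jobs.{u, v}) (h : Hyp S K) (hT : PT K) :
    ¬ ∀ x y x' y', Ind F x y → Ind F x' y' → LnEq K x y x' y' := fun hL => by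
  have h5 := h.five
  have hF := fun x y x' y' h1 h2 => (h.loc1 J hT hL (x := x') (y := y') h2).1 x y h1
  by_cases hb : ∃ x y, Ind F x y ∧ Tl K x y = ⊥
  · obtain ⟨x, y, hxy, h0⟩ := hb
    refine J.pol F V K h.sc (by omega) hF fun a b hab => ?_
    refine (h.loc1 J hT hL hab).2.resolve_right fun h2 => ?_
    rw [tl_bot hab (hF _ _ _ _ hab hxy) h0] at h2
    simpa using h2.2.1
  · push Not at hb
    have := fun x y hxy => (h.loc1 J hT hL (x := x) (y := y) hxy).2.resolve_left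
      fun h0 => hb x y hxy h0.1
    obtain ⟨x, hx⟩ := (finrank_pos_iff_exists_ne_zero (R := F) (M := V)).1 (by omega)
    obtain ⟨y, hy⟩ := exists_ind (F := F) (by omega) hx
    exact J.d10 J.mom F V K h.sc (by omega) (this x y hy).1 hF fun a b hab => (this a b hab).2

end H51.KL
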