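import Cfsg.Agent.H51.KLAsm2

/-! Assembly of the tower KL, part 3: two orbits on lines, and the theorem. -/

set_option autoImplicit false

namespace H51.KL

open Module Submodule H53.CK

universe u v

variable {F : Type u} [Field F] [Finite F] {V : Type v} [AddCommGroup V] [Module F V]
  [FiniteDimensional F V] {S K : Subgroup (V ≃ₗ[F] V)}

local instance finGL'' : Finite (V ≃ₗ[F] V) := finGL F V

theorem Hyp.s_two (J : Jobs.{u, v}) (h : Hyp S K) (hT : PT K) {x y : V} (hxy : Ind F x y) :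
    dc S K (Ln S x y) = 2 ∧
    ip S (pc S K - pc S S - (pc S (Ln S x y) - pc S (Pt S x)))
      (pc S K - pc S S - (pc S (Ln S x y) - pc S (Pt S x))) = 1 := by
  have G := h.gm J hxy
  have hL : Ln S x y ≤ S := stabSub_le _ _
  have hP : Pt S x ≤ S := stabSub_le _ _
  have R := Rl_le_Ln (S := S) x y
  have a := (h.pt_iff J hxy.1).2 hT
  have n1 : ip S (pc S (Ln S x y) - pc S (Pt S x)) (pc S (Ln S x y) - pc S (Pt S x)) = 1 := by
    simp only [ip_sub, ip_sub', G.p11, G.pH1 _ R le_rfl, G.p1H _ R le_rfl,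
      G.pHH _ _ R le_rfl R le_rfl, dc_self_left]
    norm_num
  have n2 : ip S (pc S (Ln S x y) - pc S (Pt S x)) (pc S S) = 0 := by
    simp [ip_sub, G.p0 _ hL, G.p0 _ hP]
  have n3 : ip S (pc S (Ln S x y) - pc S (Pt S x)) (pc S K) = dc S K (Ln S x y) - 1 := by
    simp only [ip_sub, ip_pc hL h.le, ip_pc hP h.le, dc_comm S _ K, a, Nat.cast_one]
  have hs : dc S K (Ln S x y) = 2 := by
    have c := cs_rk h.le h.rk _ n2
    rw [n1, n3] at c
    have h1 := one_le_dc S K (Ln S x y)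
    have h2 : dc S K (Ln S x y) ≠ 1 := fun h2 => h.not_lt J hT fun a b c d hab hcd => by
      obtain ⟨g, hg, rfl, rfl⟩ := h.map2 J hxy hab
      obtain ⟨g', hg', rfl, rfl⟩ := h.map2 J hxy hcd
      have : ∀ g ∈ S, DC K (Ln S x y) 1 g := fun g hg => by simpa [DC] using dc_eq_one.1 h2 g hg
      exact (DC_Ln h.le hg hg').1 ((this g hg).symm.trans (this g' hg'))
    by_contra h3
    have : (3 : ℚ) ≤ dc S K (Ln S x y) := by exact_mod_cast (by omega : 3 ≤ dc S K (Ln S x y))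
    nlinarith
  refine ⟨hs, ?_⟩
  have n4 := ip_sub' S (pc S K) (pc S S) (pc S (Ln S x y) - pc S (Pt S x))
  rw [ip_sub, ip_sub', ip_sub' S (pc S K - pc S S) _ (pc S (Ln S x y) - _), ip_rk h.le h.rk,
    ip_comm S (pc S K - _), n4, n1, n2, n3, hs]
  norm_num

theorem Hyp.dc_hl2 (h : Hyp S K) {x y : V} {g : V ≃ₗ[F] V} (hg : g ∈ S)
    (n : ¬ DC K (Ln S x y) 1 g) (c : ∀ z ∈ S, DC K (Ln S x y) 1 z ∨ DC K (Ln S x y) g z)
    {H : Subgroup (V ≃ₗ[F] V)} (h1 : Rl S x y ≤ H) (h2 : H ≤ Ln S x y) :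
    dc S K H = dc (Ln S x y) (Hl S K x y) H + dc (Ln S x y) (Hl S (cj K g) x y) H := by
  rw [mackey_two (P := Ln S x y) (stabSub_le _ _) h.le h2 hg n c, Hl, Hl,
    dc_sup inf_le_right (Rl_normal x y) h1, dc_sup inf_le_right (Rl_normal x y) h1]

theorem Hyp.th_pi' (J : Jobs.{u, v}) (h : Hyp S K) (hT : PT K) {x y : V} (hxy : Ind F x y)
    {H : Subgroup (V ≃ₗ[F] V)} (h1 : Rl S x y ≤ H) (h2 : H ≤ Ln S x y) :
    ip S (th S x y H) (pc S K - pc S S - (pc S (Ln S x y) - pc S (Pt S x))) = dc S K H - 2 := by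
  have G := h.gm J hxy
  rw [ip_sub', ip_sub', G.th_two h1 h2, G.th_zero h2, th_pi h.le h2 ((h.pt_iff J hxy.1).2 hT),
    (h.s_two J hT hxy).1]
  norm_num

theorem Hyp.fullL (J : Jobs.{u, v}) (h : Hyp S K) {K' : Subgroup (V ≃ₗ[F] V)} (hs : Sc K')
    {x y : V} (hxy : Ind F x y) (r : dc (Ln S x y) (Hl S K' x y) (Hl S K' x y) = 1) :
    FullL K' x y := fun a b hab ha hb => by
  obtain ⟨g, hg, rfl, rfl⟩ := h.map2 J hxy hab
  obtain ⟨s, hs', t, ht, e⟩ := dc_eq_one.1 r g (mem_Ln.2 ⟨hg, ha, hb⟩)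
  obtain ⟨k, hk, r, ⟨-, c, r1, r2⟩, e'⟩ :=
    mem_sup_normal inf_le_right (Rl_normal x y) g (e ▸ Subgroup.mul_mem _ hs' ht)
  obtain ⟨z, hz, hv⟩ := hs c c.ne_zero
  exact ⟨k * z, K'.mul_mem hk.1 hz, by simp [e', hv, r1], by simp [e', hv, r2]⟩

theorem Hyp.exists_full (J : Jobs.{u, v}) (h : Hyp S K) (hT : PT K) :
    ∃ x y, Ind F x y ∧ FullL K x y := by
  have h5 := h.five
  obtain ⟨x, hx⟩ := (finrank_pos_iff_exists_ne_zero (R := F) (M := V)).1 (by omega)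
  obtain ⟨y, hxy⟩ := exists_ind (F := F) (by omega) hx
  have G := h.gm J hxy
  obtain ⟨hs, n0⟩ := h.s_two J hT hxy
  obtain ⟨g, hg, n, c⟩ := dc_two hs
  by_cases r1 : dc (Ln S x y) (Hl S K x y) (Hl S K x y) = 1
  · exact ⟨x, y, hxy, h.fullL J h.sc hxy r1⟩
  refine ⟨g x, g y, hxy.map g, FullL.cj.1 (h.fullL J (fun c hc => ?_) hxy ?_)⟩
  · obtain ⟨s, hs, hv⟩ := h.sc c hc
    refine ⟨s, mem_cj.2 ?_, hv⟩
    convert hs using 1
    ext v
    change g (s (g.symm v)) = s v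
    rw [hv, hv, map_smul, g.apply_symm_apply]
  by_contra r2
  have a1 : Rl S x y ≤ Hl S K x y := le_sup_right
  have a2 : Hl S K x y ≤ Ln S x y := Hl_le x y
  have b1 : Rl S x y ≤ Hl S (cj K g) x y := le_sup_right
  have b2 : Hl S (cj K g) x y ≤ Ln S x y := Hl_le x y
  have t1 := h.th_pi' J hT hxy a1 a2
  have t2 := h.th_pi' J hT hxy b1 b2
  rw [h.dc_hl2 hg n c a1 a2, dc_comm _ (Hl S (cj K g) x y)] at t1
  rw [h.dc_hl2 hg n c b1 b2] at t2
  have u1 := G.th_th a1 a2 a1 a2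
  have u2 := G.th_th b1 b2 b1 b2
  have u3 := G.th_th a1 a2 b1 b2
  have c1 := cs (th S x y (Hl S K x y)) _ one_pos n0
  have c2 := cs (th S x y (Hl S (cj K g) x y)) _ one_pos n0
  have c3 := cs (th S x y (Hl S K x y) + th S x y (Hl S (cj K g) x y)) _ one_pos n0
  rw [ip_add, ip_add, ip_add', ip_add', ip_comm S (th S x y (Hl S (cj K g) x y)) (th S x y _),
    t1, t2, u1, u2, u3] at c3
  rw [t1, u1] at c1
  rw [t2, u2] at c2
  have d0 := one_le_dc (Ln S x y) (Hl S K x y) (Hl S (cj K g) x y)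
  have d1 := one_le_dc (Ln S x y) (Hl S K x y) (Hl S K x y)
  have d2 := one_le_dc (Ln S x y) (Hl S (cj K g) x y) (Hl S (cj K g) x y)
  have e0 : (1 : ℚ) ≤ dc (Ln S x y) (Hl S K x y) (Hl S (cj K g) x y) := by exact_mod_cast d0
  have e1 : (2 : ℚ) ≤ dc (Ln S x y) (Hl S K x y) (Hl S K x y) := by
    exact_mod_cast (by omega : 2 ≤ dc (Ln S x y) (Hl S K x y) (Hl S K x y))
  have e2 : (2 : ℚ) ≤ dc (Ln S x y) (Hl S (cj K g) x y) (Hl S (cj K g) x y) := by
    exact_mod_cast (by omega : 2 ≤ dc (Ln S x y) (Hl S (cj K g) x y) (Hl S (cj K g) x y))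
  push_cast at c1 c2 c3
  nlinarith

theorem Hyp.loc2 (J : Jobs.{u, v}) (h : Hyp S K) (hT : PT K) {x₀ y₀ : V} (h0 : Ind F x₀ y₀)
    (hf : FullL K x₀ y₀) {x y : V} (hxy : Ind F x y) (hn : ¬ LnEq K x y x₀ y₀) :
    (∀ a b, Ind F a b → a ∈ span F {x, y} → b ∈ span F {x, y} → PrEq K a b x y) ∨
      (Tl K x y = ⊥ ∧ ¬ Nat.card F ^ 4 ∣ K.relIndex S) ∨
      (Nat.card F = 4 ∧ Nat.card (Tl K x y) = 2 ∧ ¬ 4 ∣ K.relIndex S) := by
  have h5 := h.five
  have G := h.gm J hxy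
  obtain ⟨p, e, hp, he, hq⟩ := exists_pe F
  obtain ⟨ar1, ar2⟩ := J.ar p e _ hp he hq
  obtain ⟨-, ar3, ar4, ar5, -⟩ := ar2 _ (K.relIndex S) _ _ h5 G.nP G.nL
  obtain ⟨hs, n0⟩ := h.s_two J hT hxy
  obtain ⟨g, hg, rfl, rfl⟩ := h.map2 J hxy h0
  have n : ¬ DC K (Ln S x y) 1 g := fun d => hn ((DC_Ln h.le S.one_mem hg).1 d)
  have c : ∀ z ∈ S, DC K (Ln S x y) 1 z ∨ DC K (Ln S x y) g z := fun z hz => by
    obtain ⟨g', -, -, c⟩ := dc_two hs
    exact (c z hz).imp_right ((c g hg).resolve_left n).symm.trans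
  have a1 : Rl S x y ≤ Hl S K x y := le_sup_right
  have a2 : Hl S K x y ≤ Ln S x y := Hl_le x y
  have t1 := h.th_pi' J hT hxy a1 a2
  rw [h.dc_hl2 hg n c a1 a2, (FullL.cj.2 hf).hl (cj_le h.le hg) hxy, dc_self_left] at t1
  have u1 := G.th_th a1 a2 a1 a2
  have c1 := cs (th S x y (Hl S K x y)) _ one_pos n0
  rw [t1, u1] at c1
  have r3 : dc (Ln S x y) (Hl S K x y) (Hl S K x y) ≤ 2 := by
    by_contra h3
    have : (3 : ℚ) ≤ dc (Ln S x y) (Hl S K x y) (Hl S K x y) := by exact_mod_cast not_le.1 h3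
    push_cast at c1
    nlinarith
  have hN : dc (Ln S x y) (Hl S K x y) (Hl S K x y) = 2 → (K.relIndex S : ℚ) =
      1 + ((Ln S x y).relIndex S - (Pt S x).relIndex S) + th S x y (Hl S K x y) 1 := fun r => by
    have : (th S x y (Hl S K x y) -
        (pc S K - pc S S - (pc S (Ln S x y) - pc S (Pt S x)))) 1 = 0 := eq_zero_of_ip (S := S) (by
      rw [ip_sub, ip_sub' S (th S x y _) (pc S K - _ - _) (th S x y _), u1, t1,
        ip_sub' S (th S x y _) (pc S K - _ - _) (pc S K - _ - _), n0, ip_comm, t1, r]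
      norm_num)
    have hL : Ln S x y ≤ S := stabSub_le _ _
    have hP : Pt S x ≤ S := stabSub_le _ _
    simp only [Pi.sub_apply, pc_one h.le, pc_one le_rfl, pc_one hL, pc_one hP,
      Subgroup.relIndex_self, Nat.cast_one] at this
    linarith
  rw [G.th_one a2] at hN
  obtain ⟨l1, ⟨t, l2, l3⟩, l4, -⟩ := J.line J.idx F V S K h.le h.sc h.tv (by omega) x y _ hxy rfl
  obtain ⟨b1, b2⟩ := G.borel a1 a2
  have o2 := b1 (by omega)
  have o1 := one_le_dc (Ln S x y) (Hl S K x y) (Fl S x y)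
  rcases (by omega : dc (Ln S x y) (Hl S K x y) (Fl S x y) = 1 ∨
    dc (Ln S x y) (Hl S K x y) (Fl S x y) = 2) with o | o
  · obtain ⟨m1, m2, -, m4⟩ := l4 o
    by_cases ht : t = 1
    · subst ht
      exact .inl (m4 (card_tl_eq (by simpa using l2)))
    have r1 : dc (Ln S x y) (Hl S K x y) (Hl S K x y) ≠ 1 := fun r => by
      have : (Hl S K x y).relIndex (Ln S x y) = 1 := Subgroup.relIndex_eq_one.2 fun g hg => by
        obtain ⟨a, ha, b, hb, rfl⟩ := dc_eq_one.1 r g hg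
        exact Subgroup.mul_mem _ ha hb
      rw [this, one_mul] at m1
      have h1 : 1 < Nat.card F := Finite.one_lt_card
      have h2 := Nat.le_of_dvd (by omega) (card_cl_dvd (K := K) x y)
      have h3 : 2 ≤ t := by
        rcases t with _ | _ | t <;> omega
      have h4 : 0 < Nat.card (Tl K x y) := Nat.card_pos
      have h5 : Nat.card F * (Nat.card F - 1) ≤ Nat.card (Tl K x y) * (Nat.card F - 1) :=
        m1 ▸ Nat.mul_le_mul_left _ h2
      have := Nat.le_of_mul_le_mul_right h5 (by omega)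
      nlinarith
    have r0 := one_le_dc (Ln S x y) (Hl S K x y) (Hl S K x y)
    have hN := hN (by omega)
    rw [o] at hN
    rcases ar1 _ _ _ _ l2 ht l3 (card_cl_dvd x y) m1 (m2 (by omega)) with
      ⟨e1, -, e2⟩ | ⟨e1, e2, -, e3⟩
    · rw [e2] at hN
      exact .inr (.inl ⟨AddSubgroup.card_eq_one.1 e1, ar3 (by
        exact_mod_cast (by push_cast at hN; linarith : (K.relIndex S : ℚ) + (Pt S x).relIndex S =
          1 + Nat.card F * (Ln S x y).relIndex S))⟩)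
    · rw [e3] at hN
      exact .inr (.inr ⟨e1, e2, ar4 e1 (by
        exact_mod_cast (by push_cast at hN; linarith : (K.relIndex S : ℚ) + (Pt S x).relIndex S =
          1 + 6 * (Ln S x y).relIndex S))⟩)
  · obtain ⟨b3, b4⟩ := b2 o
    have hN := hN (by omega)
    rw [o, b4 (by omega)] at hN
    exact absurd (h.pdvd J hT hp hq) (ar5 (by
      exact_mod_cast (by push_cast at hN; linarith : (K.relIndex S : ℚ) + 2 * (Pt S x).relIndex S =
        2 + (Nat.card F + 1) * (Ln S x y).relIndex S)))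

theorem Hyp.not_pt (J : Jobs.{u, v}) (h : Hyp S K) : ¬ PT K := fun hT => by
  have h5 := h.five
  obtain ⟨x₀, y₀, h0, hf⟩ := h.exists_full J hT
  have hr : ∀ {a b c d : V}, a ∈ span F {c, d} → b ∈ span F {c, d} → LnEq K a b c d :=
    fun ha hb => ⟨1, K.one_mem, ha, hb⟩
  have hm : ∀ k ∈ K, ∀ a b : V, LnEq K a b (k a) (k b) := fun k hk a b =>
    ⟨k, hk, subset_span (by simp), subset_span (by simp)⟩
  have lc : LC K fun x y => Ind F x y ∧ ¬ LnEq K x y x₀ y₀ := by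
    refine ⟨fun _ _ d => d.1, fun x y a b d hab ha hb => ⟨hab, fun e => d.2 ?_⟩,
      fun k hk x y d => ⟨d.1.map k, fun e => d.2 ?_⟩, ?_,
      ⟨x₀, y₀, h0, fun d => d.2 (hr (subset_span (by simp)) (subset_span (by simp)))⟩,
      fun x y a b h1 h2 h3 h4 => prEq_of (fun c d hcd hc hd => ?_) h1 h3
        (by_contra fun e => h2 ⟨h1, e⟩) (by_contra fun e => h4 ⟨h3, e⟩)⟩
    · exact h.lnEq_trans J d.1 hab h0 (h.lnEq_symm J hab d.1 (hr ha hb)) e
    · exact h.lnEq_trans J d.1 (d.1.map k) h0 (hm k hk x y) e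
    · by_contra hn
      push Not at hn
      exact h.not_lt J hT fun a b c d hab hcd =>
        h.lnEq_trans J hab h0 hcd (hn a b hab) (h.lnEq_symm J hcd h0 (hn c d hcd))
    · obtain ⟨k, hk, rfl, rfl⟩ := hf c d hcd hc hd
      exact PrEq.symm h0.1 h0.symm.1
        ⟨k, hk, mem_span_singleton_self _, mem_span_singleton_self _⟩
  have np : ¬ NullPol K := fun hp => h.not_four (J.sp F V K h5 hp)
  have dv := fun x hx => ((J.div F V S K h.le h.tv (by omega)).2 x hx).1 hT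
  by_cases c1 : ∃ x y, (Ind F x y ∧ ¬ LnEq K x y x₀ y₀) ∧
      ∀ a b, Ind F a b → a ∈ span F {x, y} → b ∈ span F {x, y} → PrEq K a b x y
  · obtain ⟨x, y, ⟨hxy, hn⟩, hp⟩ := c1
    have hl : ∀ a b, Ind F a b ∧ ¬ LnEq K a b x₀ y₀ → LnEq K a b x y := fun a b d => by
      obtain ⟨g', -, -, c⟩ := dc_two (h.s_two J hT h0).1
      obtain ⟨g, hg, rfl, rfl⟩ := h.map2 J h0 hxy
      obtain ⟨k, hk, rfl, rfl⟩ := h.map2 J h0 d.1
      exact (DC_Ln h.le hk hg).1
        (((c k hk).resolve_left fun e => d.2 ((DC_Ln h.le hk S.one_mem).1 e.symm)).symm.trans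
          ((c g hg).resolve_left fun e => hn ((DC_Ln h.le hg S.one_mem).1 e.symm)))
    rcases J.af J.mom F V K _ h.sc hT h5 lc (fun a b c d h1 h2 =>
      prEq_of hp h1.1 h2.1 (hl a b h1) (hl c d h2)) with e | e | e
    · exact np e
    · exact h.not_four (J.f4 F V K h5 e)
    · exact h.not_pl3 J hT e
  have l2 := fun x y (d : Ind F x y ∧ ¬ LnEq K x y x₀ y₀) =>
    (h.loc2 J hT h0 hf d.1 d.2).resolve_left fun e => c1 ⟨x, y, d, e⟩
  refine np (J.ic F V K _ h.sc hT (by omega) lc ?_)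
  by_cases c2 : Nat.card F = 4 ∧ ¬ 4 ∣ K.relIndex S
  · refine .inr ⟨c2.1, fun x y d => ?_, fun x hx => ?_⟩
    · rcases l2 x y d with e | e
      · simp [e.1]
      · exact e.2.1.le
    · obtain ⟨d, d1, d2⟩ := dv x hx
      rw [c2.1] at d1
      obtain ⟨m, -, rfl⟩ := (Nat.dvd_prime_pow Nat.prime_two).1
        (show d ∣ 2 ^ (2 * (finrank F V - 1)) by rw [pow_mul]; exact Dvd.intro_left _ d1)
      have : m ≤ 1 := by
        by_contra hm
        exact c2.2 ((pow_dvd_pow 2 (not_le.1 hm)).trans d2)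
      rw [← d1, mul_comm]
      exact Nat.mul_le_mul_right _ (Nat.pow_le_pow_right two_pos this)
  · have l3 := fun x y d => (l2 x y d).resolve_right fun e => c2 ⟨e.1, e.2.2⟩
    refine .inl ⟨fun x y d => (l3 x y d).1, fun x hx e => ?_⟩
    obtain ⟨a, b, d⟩ := lc.ex
    obtain ⟨d, d1, d2⟩ := dv x hx
    rw [e, AddSubgroup.card_bot, one_mul] at d1
    exact (l3 a b ‹_›).2 ((pow_dvd_pow _ (by omega)).trans (d1 ▸ d2))

theorem main (J : Jobs.{u, v}) : Main.{u, v} := fun F _ _ V _ _ _ S K h => by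
  have h5 := h.five
  obtain ⟨x, hx⟩ := (finrank_pos_iff_exists_ne_zero (R := F) (M := V)).1 (by omega)
  obtain ⟨y, hxy⟩ := exists_ind (F := F) (by omega) hx
  rw [h.two J (h.not_pt J) hxy]
  exact (h.gm J hxy).nL

end H51.KL
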