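import Cfsg.Agent.H51.KLKit

/-! KL-D10: every line is a pentagon. -/

set_option autoImplicit false

namespace H51.KL

open Module Submodule H53.CK

universe u v

theorem d10_ar {m : ℕ} {n₁ n₂ α₁ α₂ κ : ℤ}
    (hκ : 3 * κ + 1 = 4 ^ (m + 2)) (h0 : n₁ + n₂ = 4 ^ (m + 2))
    (h1 : n₁ * α₁ + n₂ * α₂ = 2 * κ * 4 ^ (m + 1))
    (h2 : n₁ * α₁ ^ 2 + n₂ * α₂ ^ 2 + 2 * κ * 2 * 4 ^ m =
      2 * κ * 4 ^ (m + 1) + (2 * κ) ^ 2 * 4 ^ m) : False := by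
  obtain ⟨Q, hQ⟩ : ∃ Q : ℤ, Q = 4 ^ m := ⟨_, rfl⟩
  have Q0 : 0 < Q := hQ ▸ by positivity
  rw [pow_add, ← hQ] at hκ h0 h1 h2
  have e1 : n₁ * (2 * α₁ - κ) + n₂ * (2 * α₂ - κ) = 0 := by linear_combination 2 * h1 - κ * h0
  have e2 : (2 * α₁ - κ) * (2 * α₂ - κ) = -κ := by
    refine mul_left_cancel₀ (by omega : 16 * Q ≠ 0) ?_
    linear_combination -4 * h2 + 4 * κ * h1 - κ ^ 2 * h0 + (2 * α₁ - κ + (2 * α₂ - κ)) * e1 -
      (2 * α₁ - κ) * (2 * α₂ - κ) * h0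
  obtain ⟨j, rfl⟩ : ∃ j, κ = 8 * j + 5 := ⟨κ / 8, by omega⟩
  obtain ⟨δ, rfl⟩ : ∃ δ, α₁ = α₂ + δ := ⟨α₁ - α₂, by ring⟩
  have odd : ∃ d, δ = 2 * d + 1 := by
    rcases Int.even_or_odd' δ with ⟨d, rfl | rfl⟩
    · exfalso
      obtain ⟨a, ha⟩ : ∃ a, α₂ - 4 * j - 3 = a := ⟨_, rfl⟩
      obtain rfl : α₂ = a + 4 * j + 3 := by omega
      have : 4 * (a * a + a + 2 * (a * d) + d + 2 * j + 1) + 2 = 0 := by linear_combination e2
      omega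
    · exact ⟨d, rfl⟩
  obtain ⟨d, hd⟩ := odd
  have co : IsCoprime δ (16 * Q) := by
    rw [hQ, show (16 : ℤ) * 4 ^ m = 2 ^ (2 * m + 4) by rw [pow_add, pow_mul]; ring]
    exact IsCoprime.pow_right ⟨1, -d, by rw [hd]; ring⟩
  obtain ⟨b, hb⟩ : δ ∣ 2 * α₂ - (8 * j + 5) := co.dvd_of_dvd_mul_left
    ⟨-2 * n₁, by linear_combination e1 - (2 * α₂ - (8 * j + 5)) * h0⟩
  have e3 : δ ^ 2 * (b * (b + 2)) = -(8 * j + 5) := by
    rw [← e2, show 2 * (α₂ + δ) - (8 * j + 5) = δ * b + 2 * δ by linear_combination hb, hb]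
    ring
  have j0 : 0 ≤ j := by omega
  have b1 : b = -1 := by
    by_contra h
    have : 0 ≤ b * (b + 2) := by
      rcases (by omega : 0 ≤ b ∨ b ≤ -2) with h | h
      · exact mul_nonneg h (by omega)
      · exact mul_nonneg_of_nonpos_of_nonpos (by omega) (by omega)
    have := mul_nonneg (sq_nonneg δ) this
    omega
  subst b1 hd
  obtain ⟨r, hr⟩ := Int.even_mul_succ_self d
  have : 8 * r + 1 = 8 * j + 5 := by linear_combination -e3 - 4 * hr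
  omega

theorem jobD10 : JobD10.{u, v} := by
  intro hM F _ _ V _ _ _ K hs hn h4 hfl hT
  have := finV F V
  obtain ⟨x, hx⟩ := exists_ne_zero' (F := F) (V := V) (by omega)
  obtain ⟨y₀, hy₀⟩ := exists_ind (F := F) (by omega) hx
  obtain ⟨m, hm⟩ : ∃ m, finrank F V = m + 3 := ⟨finrank F V - 3, by omega⟩
  obtain ⟨s, hs2⟩ : ∃ s : F, ∀ t, t ∈ Tl K x y₀ ∨ t - s ∈ Tl K x y₀ := by
    have h1 := (Tl K x y₀).index_mul_card
    rw [(hT x y₀ hy₀).1, h4] at h1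
    obtain ⟨a, ha⟩ := AddSubgroup.index_eq_two_iff.1 (by omega : (Tl K x y₀).index = 2)
    exact ⟨-a, fun t => by rw [sub_neg_eq_add]; exact (ha t).or.symm⟩
  have orb : ∀ y, y ∉ F ∙ x → ∃ i : Fin 2, ∃ g ∈ stab K x, g (![y₀, y₀ + s • x] i) = y := by
    intro y hy
    obtain ⟨k, hk, t, h1, h2⟩ := (hfl x y x y₀ ⟨hx, hy⟩ hy₀).right hs ⟨hx, hy⟩
    have hk' := (stab K x).inv_mem (mem_stab.2 ⟨hk, h1⟩)
    rcases hs2 t with ⟨g, hg, h3, h5⟩ | ⟨g, hg, h3, h5⟩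
    · exact ⟨0, k⁻¹ * g, mul_mem hk' (mem_stab.2 ⟨hg, h3.symm ▸ mem_span_singleton_self x⟩),
        k.injective (by simp [h5, h2])⟩
    · exact ⟨1, k⁻¹ * g, mul_mem hk' (mem_stab.2 ⟨hg, h3.symm ▸ mem_span_singleton_self x⟩),
        k.injective (by simp [h5, h2, h3, sub_smul, add_assoc])⟩
  obtain ⟨M1, M2⟩ := hM F V x hx
  obtain ⟨f, -, hf⟩ := M1 (stab K x) 1 2 2 (hs.stab x) (fun g hg => (mem_stab.1 hg).2) rfl
    ⟨fun _ => y₀, fun _ => hy₀.2, fun _ _ _ _ _ => Subsingleton.elim _ _⟩ ⟨_, orb⟩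
  let B : Set V := {y | ∃ g ∈ stab K x, g y₀ = y}
  have Bm : ∀ g ∈ stab K x, ∀ y ∈ B, g y ∈ B := by
    rintro g hg _ ⟨k, hk, rfl⟩
    exact ⟨g * k, mul_mem hg hk, rfl⟩
  have Bn : ∀ y ∈ B, y ∉ F ∙ x := by
    rintro _ ⟨g, hg, rfl⟩
    exact notMem_of_map hy₀ (mem_stab.1 hg).2
  have Bt : ∀ y ∈ B, {t : F | y + t • x ∈ B}.ncard = 2 := by
    intro y hy
    obtain ⟨h1, h2⟩ := hT x y ⟨hx, Bn y hy⟩
    rw [← h1]
    change _ = (Tl K x y : Set F).ncard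
    congr 1
    ext t
    constructor
    · rintro ⟨g, hg, h3⟩
      obtain ⟨k, hk, rfl⟩ := hy
      have h5 := mem_stab.1 (mul_mem hg (inv_mem hk))
      obtain ⟨l, hl, c, hc, h6, h7⟩ := norm_left hs h5.1 hx h5.2
      have h8 : l (k y₀) = c • k y₀ + (c * t) • x := by simp [h7, h3, mul_smul]
      have h9 : Units.mk0 c hc ∈ Cl K x (k y₀) := ⟨l, hl, c * t, h6, h8⟩
      rw [h2, Subgroup.mem_bot] at h9
      obtain rfl : c = 1 := congrArg Units.val h9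
      exact ⟨l, hl, h6, by simpa using h8⟩
    · rintro ⟨g, hg, h3, h5⟩
      exact show y + t • x ∈ B from
        h5 ▸ Bm g (mem_stab.2 ⟨hg, h3.symm ▸ mem_span_singleton_self x⟩) y hy
  have Bt' : ∀ y, y ∉ F ∙ x → {t : F | y + t • x ∈ B}.ncard = 2 := by
    intro y hy
    obtain ⟨t₀, h0⟩ : ∃ t₀ : F, y + t₀ • x ∈ B := by
      obtain ⟨i, g, hg, h⟩ := orb y hy
      fin_cases i
      · exact ⟨0, g, hg, by simpa using h⟩
      · obtain ⟨c, -, hc⟩ := exists_coef hx (mem_stab.1 hg).2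
        exact ⟨-(s * c), g, hg, by rw [← h]; simp [hc, mul_smul]⟩
    rw [← Bt _ h0]
    exact Set.ncard_congr (fun t _ => t - t₀) (fun t ht => by simpa [sub_smul] using ht)
      (fun _ _ _ _ e => sub_left_injective e)
      fun t ht => ⟨t₀ + t, by simpa [add_smul, add_assoc] using ht, by simp⟩
  have c1 := dcount {y | y ∉ F ∙ x} B (fun y z => z - y ∈ F ∙ x) (m := 2) (n := 4)
    (fun y hy => (ncard_line hx y (· ∈ B)).trans (Bt' y hy)) fun z hz => by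
      rw [← h4, ← Set.ncard_univ F, ← Set.eq_univ_of_forall
        (s := {t : F | z + t • x ∉ F ∙ x}) (add_smul_notMem (Bn z hz)),
        ← ncard_line hx z (· ∉ F ∙ x)]
      congr 1
      ext a
      exact and_congr_right fun _ => sub_mem_comm_iff
  have c2 := ncard_compl (F ∙ x)
  rw [finrank_span_singleton hx, h4, hm, pow_succ 4 (m + 2)] at c2
  have c3 : 4 ^ (m + 2) % 3 = 1 := by simp [Nat.pow_mod]
  obtain ⟨κ, hκ⟩ : ∃ κ, 3 * κ + 1 = 4 ^ (m + 2) := ⟨4 ^ (m + 2) / 3, by omega⟩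
  obtain ⟨n₁, n₂, α₁, α₂, e0, e1, e2⟩ := M2 B 2 (2 * κ) m (f 0) (f 1) hm Bn (fun y hy c hc => by
      obtain ⟨g, hg, h⟩ := hs.stab x c hc
      exact h y ▸ Bm g hg y hy) Bt (by rw [h4]; omega) fun φ hφ => by
    obtain ⟨i, g, hg, -, h⟩ := hf φ hφ
    have := ncard_ker_eq (iff_of_map Bm hg) h
    fin_cases i
    · exact .inl this
    · exact .inr this
  rw [h4] at e0 e1 e2
  exact d10_ar (m := m) (n₁ := n₁) (n₂ := n₂) (α₁ := α₁) (α₂ := α₂) (κ := κ)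
    (by exact_mod_cast hκ) (by exact_mod_cast e0) (by exact_mod_cast e1) (by exact_mod_cast e2)

end H51.KL
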