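import Cfsg.Agent.H51.KLKit
import Cfsg.Agent.H38.KLTr

/-! KL-POL: flag transitive groups of order prime to the characteristic. -/

set_option autoImplicit false

namespace H51.KL

open Module Submodule H53.CK

universe u v

variable {F : Type u} [Field F] [Finite F] {V : Type v} [AddCommGroup V] [Module F V]
  [FiniteDimensional F V] {K : Subgroup (V ≃ₗ[F] V)}

theorem pol_card (hT : ∀ x y, Ind F x y → Tl K x y = ⊥) (H : Subgroup (V ≃ₗ[F] V)) (hH : H ≤ K) :
    (Nat.card H : F) ≠ 0 := fun h0 => by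
  have := finGL F V
  obtain ⟨p, hp⟩ := CharP.exists F
  have : Fact p.Prime := ⟨CharP.char_is_prime F p⟩
  obtain ⟨g, hg⟩ := exists_prime_orderOf_dvd_card' p ((CharP.cast_eq_zero_iff F p _).1 h0)
  have h1 : ∃ v, g.1 v ≠ v := by
    by_contra h
    push Not at h
    rw [show g = 1 from Subtype.ext (LinearEquiv.ext h), orderOf_one] at hg
    exact (Fact.out : p.Prime).one_lt.ne hg
  obtain ⟨v₀, hv₀⟩ := h1
  have : Nontrivial V := ⟨_, _, hv₀⟩
  have : CharP (Module.End F V) p := charP_of_injective_algebraMap' F p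
  obtain ⟨u, hu⟩ : ∃ u : Module.End F V, u = (g.1 : V →ₗ[F] V) - 1 := ⟨_, rfl⟩
  have hu' : ∀ v, g.1 v = v + u v := fun v => by simp [hu]
  have h2 : u ^ p = 0 := by
    have e : (g.1 : Module.End F V) ^ p = 1 := by
      have := congrArg (fun k : H => LinearEquiv.automorphismGroup.toLinearMapMonoidHom k.1)
        (pow_orderOf_eq_one g)
      simp only [hg, Subgroup.coe_pow, map_pow, Subgroup.coe_one, map_one] at this
      exact this
    rw [hu, sub_pow_char_of_commute _ (Commute.one_right _), e, one_pow, sub_self]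
  have h3 : ∀ v, u (u v) = 0 → u v = 0 := fun v hv => by
    by_contra h
    have h4 : (1 : F) ∈ Tl K (u v) v := ⟨g.1, hH g.2, by rw [hu', hv, add_zero], by simp [hu']⟩
    rw [hT (u v) v ⟨h, fun h5 => ?_⟩] at h4
    · simp at h4
    · obtain ⟨c, hc⟩ := mem_span_singleton.1 h5
      exact h (by rw [← hc, map_smul, hv, smul_zero])
  have h4 : ∀ k v, (u ^ k) v = 0 → u v = 0 := fun k => by
    induction k with
    | zero => intro v hv; simp at hv; simp [hv]
    | succ k ih => exact fun v hv => h3 v (ih (u v) (by rwa [pow_succ] at hv))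
  exact hv₀ (by rw [hu', h4 p v₀ (by simp [h2]), add_zero])

theorem pol_fix (hT : ∀ x y, Ind F x y → Tl K x y = ⊥) {x : V} (hx : x ≠ 0) :
    ∃ φ : Dual F V, φ x = 1 ∧ ∀ g ∈ K, g x = x → ∀ v, φ (g v) = φ v := by
  have := finGL F V
  let H : Subgroup (V ≃ₗ[F] V) := K ⊓ MulAction.stabilizer _ x
  have := Fintype.ofFinite H
  have h0 := pol_card hT H inf_le_left
  obtain ⟨ψ, hψ⟩ := H62.exists_dual_of_ne_zero (F := F) hx
  refine ⟨(Nat.card H : F)⁻¹ • ∑ g : H, ψ ∘ₗ (g.1 : V →ₗ[F] V), ?_, fun k hk h v => ?_⟩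
  · have : ∀ g : H, ψ (g.1 x) = 1 := fun g => by rw [show g.1 x = x from g.2.2, hψ]
    rw [Nat.card_eq_fintype_card] at h0 ⊢
    simp [this, h0]
  · simp only [LinearMap.smul_apply, LinearMap.sum_apply]
    congr 1
    exact Equiv.sum_comp (Equiv.mulRight (⟨k, hk, h⟩ : H)) fun g : H => ψ (g.1 v)

theorem pol_Phi (hT : ∀ x y, Ind F x y → Tl K x y = ⊥) (hP : PT K) {x₀ : V} (hx : x₀ ≠ 0) :
    ∃ Φ : V → Dual F V, (∀ x, x ≠ 0 → Φ x x = 1) ∧
      ∀ g ∈ K, ∀ x, x ≠ 0 → ∀ y, Φ (g x) (g y) = Φ x y := by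
  obtain ⟨φ, h1, h2⟩ := pol_fix hT hx
  choose! γ hγ hγ' using hP x₀
  refine ⟨fun x => φ ∘ₗ ((γ x)⁻¹ : V ≃ₗ[F] V), fun x h => ?_, fun g hg x h y => ?_⟩
  · rw [← h1]
    exact congrArg φ ((γ x).injective (by simp [hγ' x hx h]))
  · have h' : g x ≠ 0 := by simpa using h
    have := h2 ((γ (g x))⁻¹ * g * γ x)
      (mul_mem (mul_mem (inv_mem (hγ _ hx h')) hg) (hγ _ hx h))
      ((γ (g x)).injective (by simp [hγ' _ hx h, hγ' _ hx h'])) ((γ x)⁻¹ y)
    simpa using this

theorem pol_trace (hn : 3 ≤ finrank F V) (Φ : V → Dual F V) (h1 : ∀ x, x ≠ 0 → Φ x x = 1)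
    (h2 : ∀ x y, x ≠ 0 → y ≠ 0 → Φ x y = 0 → Φ y x = 0) : False := by
  classical
  have := finV F V
  have := Fintype.ofFinite V
  have := Fintype.ofFinite F
  have sumU : ∀ U : Submodule F V, 1 ≤ finrank F U →
      ∑ z : {x : V // x ≠ 0}, (if z.1 ∈ U then 1 else 0 : F) = -1 := fun U hU => by
    have h := congrArg (Nat.cast : ℕ → F) (ncard_ne_zero U)
    rw [Nat.cast_pow, Nat.card_eq_fintype_card, FiniteField.cast_card_eq_zero,
      zero_pow (by omega), Nat.cast_add_one, add_eq_zero_iff_eq_neg] at h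
    rw [← h, Finset.sum_boole, ← Set.ncard_coe_finset]
    congr 1
    exact Set.ncard_congr (fun z _ => z.1) (fun z hz => ⟨by simpa using hz, z.2⟩)
      (fun _ _ _ _ e => Subtype.ext e) fun z hz => ⟨⟨z, hz.2⟩, by simpa using hz.1, rfl⟩
  let A : Matrix {x : V // x ≠ 0} {x : V // x ≠ 0} F :=
    Matrix.of fun x y => if y.1 ∈ LinearMap.ker (Φ x.1) then 1 else 0
  have k1 : ∀ φ : Dual F V, finrank F V ≤ finrank F ↥(LinearMap.ker φ) + 1 := fun φ => by
    have := H62.finrank_le_finrank_inf_ker_add_one ⊤ φ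
    rwa [top_inf_eq, finrank_top] at this
  have A2 : A * A = Matrix.of fun _ _ => -1 := by
    ext x y
    have := k1 (Φ x.1)
    have := H62.finrank_le_finrank_inf_ker_add_one (LinearMap.ker (Φ x.1)) (Φ y.1)
    rw [Matrix.of_apply, ← sumU (LinearMap.ker (Φ x.1) ⊓ LinearMap.ker (Φ y.1)) (by omega),
      Matrix.mul_apply]
    refine Finset.sum_congr rfl fun z _ => ?_
    have e : Φ z.1 y.1 = 0 ↔ Φ y.1 z.1 = 0 := ⟨h2 _ _ z.2 y.2, h2 _ _ y.2 z.2⟩
    by_cases a : Φ x.1 z.1 = 0 <;> by_cases b : Φ y.1 z.1 = 0 <;> simp [A, a, b, e]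
  have A3 : A * (A * A) = -(A * A) := by
    ext x y
    have := k1 (Φ x.1)
    rw [A2, Matrix.mul_apply]
    simp only [Matrix.of_apply, mul_neg, mul_one, Finset.sum_neg_distrib, Matrix.neg_apply, A]
    rw [sumU _ (by omega)]
  have A4 : ∀ k, A ^ (k + 2) = (-1 : F) ^ k • (A * A) := fun k => by
    induction k with
    | zero => simp [pow_two]
    | succ k ih => rw [add_right_comm, pow_succ', ih, Matrix.mul_smul, A3, pow_succ]; simp
  have t1 : A.trace = 0 := Finset.sum_eq_zero fun x _ => by simp [A, h1 x.1 x.2]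
  have t2 : (A * A).trace = 1 := by
    have := sumU ⊤ (by simp; omega)
    simp only [mem_top, if_true] at this
    rw [A2]
    simp only [Matrix.trace, Matrix.diag, Matrix.of_apply, Finset.sum_neg_distrib, this, neg_neg]
  obtain ⟨k, hk⟩ : ∃ k, Fintype.card F = k + 2 := ⟨Fintype.card F - 2, by
    have := Fintype.one_lt_card (α := F); omega⟩
  have := FiniteField.trace_pow_card A
  rw [hk, A4, Matrix.trace_smul, t1, t2] at this
  simp at this

theorem jobPol : JobPol.{u, v} := by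
  intro F _ _ V _ _ _ K hs hn hfl hT
  obtain ⟨x₀, hx₀⟩ := exists_ne_zero' (F := F) (V := V) (by omega)
  obtain ⟨Φ, h1, h2⟩ := pol_Phi (fun x y h => (hT x y h).1) (pt_of_fl hs (by omega) hfl) hx₀
  by_cases hc : ∃ c : F, c ≠ 0 ∧ c ≠ 1
  · obtain ⟨c, c0, c1⟩ := hc
    refine pol_trace (by omega) Φ h1 fun x y hx hy h => ?_
    have hxy : Ind F x y := ⟨hx, fun h3 => by
      obtain ⟨a, rfl⟩ := mem_span_singleton.1 h3
      simp [h1 x hx] at h
      simp [h] at hy⟩
    obtain ⟨g, hg, s, h3, h4⟩ : Units.mk0 c c0 ∈ Cl K x y := (hT x y hxy).2 ▸ Subgroup.mem_top _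
    have h5 := h2 g hg x hx y
    rw [h3, h4, h] at h5
    simp [h, h1 x hx] at h5
    obtain ⟨k, hk, h6⟩ := sc_mul hs hg (inv_ne_zero c0)
    have h7 := h2 k hk y hy x
    rw [h6, h6, h3, h4, h5] at h7
    simp only [Units.val_mk0, zero_smul, add_zero, smul_smul, inv_mul_cancel₀ c0, one_smul,
      map_smul, smul_eq_mul] at h7
    by_contra h8
    exact c1 (inv_eq_one.1 (mul_right_cancel₀ h8 (h7.trans (one_mul _).symm)))
  · push Not at hc
    have two : (2 : F) = 0 := by linear_combination -hc (-1) (by simp)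
    have key : ∀ x y, Ind F x y → Φ y x = Φ x y + 1 := fun x y hxy => by
      obtain ⟨k, hk, c, t, c0, h3, h4⟩ := (hfl x y y x hxy hxy.symm).left hs hxy
      obtain rfl := hc c c0
      by_cases t0 : t = 0
      · exfalso
        have h5 : Ind F (x + y) x := Ind.symm ⟨hxy.1, by
          simpa [add_comm] using add_smul_notMem hxy.2 1⟩
        have h6 : (1 : F) ∈ Tl K (x + y) x := ⟨k, hk, by simp [h3, h4, t0, add_comm], by
          rw [h3, one_smul, ← add_assoc, ← two_smul F x, two, zero_smul, zero_add]⟩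
        rw [(hT _ _ h5).1] at h6
        simp at h6
      · obtain rfl := hc t t0
        have h5 := h2 k hk x hxy.1 y
        rw [h3, h4, map_add, one_smul, one_smul, h1 y hxy.symm.1] at h5
        linear_combination h5 - two
    obtain ⟨x₁, hx₁⟩ := exists_ind (F := F) (by omega) hx₀
    have h3 : ∀ w, w ∉ span F {x₀, x₁} → (Φ (x₀ + x₁) + Φ x₀ + Φ x₁) w = 1 := fun w hw => by
      have a0 : x₀ ∈ span F {x₀, x₁} := subset_span (by simp)
      have a1 : x₁ ∈ span F {x₀, x₁} := subset_span (by simp)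
      have : ∀ a ∈ span F {x₀, x₁}, a ≠ 0 → Φ a w = Φ w a + 1 := fun a ha a0 =>
        key w a (Ind.symm ⟨a0, fun h => hw ((span_singleton_le_iff_mem _ _).2 ha h)⟩)
      rw [LinearMap.add_apply, LinearMap.add_apply, this _ a0 hx₀, this _ a1 hx₁.symm.1,
        this _ (add_mem a0 a1) fun h => add_smul_notMem hx₁.2 1 (by
          rw [one_smul, add_comm, h]; exact zero_mem _), map_add]
      linear_combination (Φ w x₀ + Φ w x₁ + 1) * two
    obtain ⟨w, -, hw⟩ := exists_ind3 (by omega) hx₁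
    obtain ⟨w', -, hw'⟩ := H62.exists_mem_notMem (W := ⊤) (Z := span F {x₀, x₁} ⊔ F ∙ w) (by
      have := finrank_add_le_finrank_add_finrank (span F {x₀, x₁}) (F ∙ w)
      have h4 := (finrank_span_le_card ({w} : Set V) (R := F)).trans_eq (by simp : _ = 1)
      rw [H38.KL.rk2 hx₁] at this
      rw [finrank_top]
      omega)
    have h4 := h3 (w + w') fun h => hw' (by
      simpa using sub_mem (mem_sup_left h) (mem_sup_right (mem_span_singleton_self w)))
    rw [map_add, h3 w hw, h3 w' fun h => hw' (mem_sup_left h)] at h4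
    simp at h4

end H51.KL
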