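import Cfsg.Agent.H51.KLSpec

/-! KL-ROW: from linear groups to actions of `PSL_n(q)`. -/

set_option autoImplicit false

namespace H51.KL

open Module Submodule H53.CK MulAction

universe u

section

variable {A B G X : Type*} [Group A] [Group B] [Group G] [MulAction G X] (π : A →* B) (ρ : A →* G)
  (hρ : Function.Surjective ρ) (hk : π.ker ≤ ρ.ker) (x : X)

include hk in
theorem row_mem (a : A) : π a ∈ ((stabilizer G x).comap ρ).map π ↔ ρ a • x = x := by
  rw [← Subgroup.mem_comap, Subgroup.comap_map_eq_self (hk.trans (Subgroup.ker_le_comap _ _))]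
  rfl

include hρ in
theorem row_max (h : IsCoatom (stabilizer G x)) (M : Subgroup B)
    (h1 : ((stabilizer G x).comap ρ).map π ≤ M) (h2 : M ≤ π.range) :
    M = ((stabilizer G x).comap ρ).map π ∨ M = π.range := by
  have h3 : (stabilizer G x).comap ρ ≤ M.comap π := Subgroup.map_le_iff_le_comap.1 h1
  have h4 := Subgroup.comap_map_eq_self ((Subgroup.ker_le_comap ρ _).trans h3)
  have h5 : stabilizer G x ≤ (M.comap π).map ρ :=
    (Subgroup.map_comap_eq_self_of_surjective hρ _).ge.trans (Subgroup.map_mono h3)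
  rw [← Subgroup.map_comap_eq_self h2, ← h4]
  rcases h.le_iff.1 h5 with h6 | h6 <;> rw [h6]
  · exact .inr (by rw [Subgroup.comap_top, MonoidHom.range_eq_map])
  · exact .inl rfl

include hρ hk in
theorem row_dc [IsPretransitive G X] :
    dc π.range (((stabilizer G x).comap ρ).map π) (((stabilizer G x).comap ρ).map π) =
      Nat.card (orbitRel.Quotient (stabilizer G x) X) := by
  have hi : ∀ a, ρ (Function.invFun π (π a)) = ρ a := fun a =>
    (MonoidHom.eq_iff ρ).2 (hk ((MonoidHom.eq_iff π).1 (Function.invFun_eq ⟨a, rfl⟩)))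
  rw [dc_eq (fun g => (Quotient.mk'' (ρ (Function.invFun π g) • x) :
    orbitRel.Quotient (stabilizer G x) X)), ← Set.ncard_univ]
  · congr 1
    refine Set.eq_univ_of_forall fun o => ?_
    induction o using Quotient.inductionOn' with
    | h y =>
      obtain ⟨g, rfl⟩ := exists_smul_eq G x y
      obtain ⟨a, rfl⟩ := hρ g
      exact ⟨π a, ⟨a, rfl⟩, by simp only [hi]⟩
  · rintro _ ⟨a, rfl⟩ _ ⟨a', rfl⟩
    rw [hi, hi, eq_comm, Quotient.eq'', orbitRel_apply]
    constructor
    · rintro ⟨⟨h, hh⟩, e⟩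
      obtain ⟨b, rfl⟩ := hρ h
      refine ⟨π b, ⟨b, hh, rfl⟩, π ((b * a)⁻¹ * a'), (row_mem π ρ hk x _).2 ?_, by simp; group⟩
      rw [map_mul, map_inv, mul_smul, inv_smul_eq_iff, map_mul, mul_smul]
      exact e.symm
    · rintro ⟨_, ⟨b, hb, rfl⟩, _, ⟨c, hc, rfl⟩, e⟩
      have : ρ a' = ρ (b * a * c) := by rw [← hi a', e, ← map_mul, ← map_mul, hi]
      refine ⟨⟨ρ b, hb⟩, ?_⟩
      change ρ b • ρ a • x = _
      rw [this, map_mul, map_mul, mul_smul, mul_smul, show ρ c • x = x from hc]

include hρ hk in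
theorem row_idx [IsPretransitive G X] :
    (((stabilizer G x).comap ρ).map π).relIndex π.range = Nat.card X := by
  rw [MonoidHom.range_eq_map, Subgroup.relIndex_map_map, top_sup_eq, Subgroup.relIndex_top_right,
    sup_eq_left.2 (hk.trans (Subgroup.ker_le_comap _ _)), Subgroup.index_comap_of_surjective _ hρ,
    index_stabilizer_of_transitive]

end

/-- special linear maps times scalars -/
def rowHom (n : ℕ) (F : Type u) [Field F] :
    Matrix.SpecialLinearGroup (Fin n) F × Fˣ →* ((Fin n → F) ≃ₗ[F] (Fin n → F)) :=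
  MonoidHom.mk' (fun p => Matrix.SpecialLinearGroup.toLin' p.1 * LinearEquiv.smulOfUnit p.2)
    fun a b => LinearEquiv.ext fun v => by
      simp [LinearEquiv.smulOfUnit, Units.smul_def, smul_smul, mul_comm]

theorem rowHom_apply {n : ℕ} {F : Type u} [Field F] (p : Matrix.SpecialLinearGroup (Fin n) F × Fˣ)
    (v : Fin n → F) : rowHom n F p v = (p.2 : F) • Matrix.mulVec p.1.1 v := by
  simp [rowHom, LinearEquiv.smulOfUnit, Units.smul_def, Matrix.SpecialLinearGroup.toLin'_apply]

theorem s2194 {G X : Type*} [Group G] [MulAction G X] [Fintype X] {F : Type u} [Field F]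
    [Fintype F] (h : Main.{u, u}) (n : ℕ) (hn : 5 ≤ n)
    (e : G ≃* Matrix.ProjectiveSpecialLinearGroup (Fin n) F) (hprim : IsPreprimitive G X) (x : X)
    (h3 : Nat.card (orbitRel.Quotient ↥(stabilizer G x) X) = 3) :
    Fintype.card X * ((Fintype.card F ^ 2 - 1) * (Fintype.card F - 1)) =
      (Fintype.card F ^ n - 1) * (Fintype.card F ^ (n - 1) - 1) := by
  let ρ : Matrix.SpecialLinearGroup (Fin n) F × Fˣ →* G :=
    (e.symm.toMonoidHom.comp (QuotientGroup.mk' _)).comp (MonoidHom.fst _ _)
  have hρ : Function.Surjective ρ :=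
    (e.symm.surjective.comp (QuotientGroup.mk'_surjective _)).comp Prod.fst_surjective
  have hk : (rowHom n F).ker ≤ ρ.ker := fun p hp => by
    have h1 : ∀ v, Matrix.mulVec p.1.1 v = (p.2 : F)⁻¹ • v := fun v => by
      have := rowHom_apply p v
      rw [hp] at this
      rw [eq_inv_smul_iff₀ p.2.ne_zero, ← this]
      rfl
    have h2 : p.1 ∈ Subgroup.center _ := Subgroup.mem_center_iff.2 fun g =>
      Subtype.ext (Matrix.toLin'.injective (LinearMap.ext fun v => by
        simp [-Matrix.mulVec_mulVec, h1]))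
    change e.symm (QuotientGroup.mk p.1) = 1
    rw [(QuotientGroup.eq_one_iff _).2 h2, map_one]
  have nt : Nontrivial X := by
    by_contra h0
    rw [not_nontrivial_iff_subsingleton] at h0
    have : Subsingleton (orbitRel.Quotient ↥(stabilizer G x) X) := Quotient.instSubsingletonQuotient _
    have := Finite.card_le_one_iff_subsingleton.2 this
    omega
  have co := (isCoatom_stabilizer_iff_preprimitive G x).2 hprim
  have fr : finrank F (Fin n → F) = n := by simp
  have := h F (Fin n → F) (rowHom n F).range (((stabilizer G x).comap ρ).map (rowHom n F))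
    ⟨by omega, Subgroup.map_le_range _ _, fun c hc => ⟨rowHom n F (1, Units.mk0 c hc),
      (row_mem _ ρ hk x _).2 (by simp [ρ]), fun v => by simp [rowHom_apply]⟩,
     fun φ u hu => H62.hasTv_of_forall hu fun g hg => ⟨(⟨LinearMap.toMatrix' (g : _ →ₗ[F] _), by
      rw [LinearMap.det_toMatrix', H62.det_of_tv hg, hu, add_zero]⟩, 1),
      LinearEquiv.ext fun v => by simp [rowHom_apply]⟩,
     fun ht => co.1 (top_unique fun g _ => by
      obtain ⟨p, rfl⟩ := hρ g
      refine (row_mem _ ρ hk x (p.1, 1)).1 (H62.mem_of_det_eq_one ht _ ?_)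
      rw [show (rowHom n F (p.1, 1) : (Fin n → F) →ₗ[F] _) = Matrix.toLin' p.1.1 from
        LinearMap.ext fun v => by simp [rowHom_apply], LinearMap.det_toLin', p.1.2]),
     row_max _ ρ hρ x co, (row_dc _ ρ hρ hk x).trans h3⟩
  rwa [row_idx _ ρ hρ hk, fr, Nat.card_eq_fintype_card, Nat.card_eq_fintype_card] at this

end H51.KL
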