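import Cfsg.Agent.H51.KSHs
import Cfsg.Agent.H26.MinS2

/-! Assembly of the tower KS. -/

set_option autoImplicit false

namespace H51.KS

open Module Submodule H53.CK H51.KL H54 H26.MS

universe u v

structure Jobs : Prop where
  e : JobE.{u, v}
  il : JobIL.{u, v}
  d2a : JobD2a.{u, v}
  d2b : JobD2b.{u, v}
  d2c : JobD2c.{u, v}
  h : JobH.{u, v}
  t1a : JobT1a.{u, v}
  t1b : JobT1b.{u, v}
  ix0 : JobIX0.{u, v}
  ix1 : JobIX1.{u, v}
  int : JobInt.{u, v}
  mom : JobMom.{u, v}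
  srg : JobSRG.{v}
  pt : JobPt.{u, v}

theorem dc_three {G : Type*} [Group G] [Finite G] {S K : Subgroup G} (h : dc S K K = 3) {a b : G}
    (ha : a ∈ S) (hb : b ∈ S) (ha' : a ∉ K) (hb' : b ∉ K) (hab : ¬ DC K K a b) {g : G}
    (hg : g ∈ S) : g ∈ K ∨ DC K K a g ∨ DC K K b g := by
  have one : ∀ {x}, DC K K 1 x → x ∈ K := by
    rintro _ ⟨k, hk, l, hl, rfl⟩
    exact mul_mem (by simpa using hk) hl
  obtain ⟨i, j, hij, hd⟩ := exists_DC (S := S) (A := K) (B := K) (m := 4) (by omega) ![1, a, b, g]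
    (fun i => by fin_cases i <;> simp [ha, hb, hg])
  fin_cases i <;> fin_cases j
  all_goals first
    | exact absurd rfl hij | exact absurd (one hd) ha' | exact absurd (one hd) hb'
    | exact absurd (one hd.symm) ha' | exact absurd (one hd.symm) hb' | exact absurd hd hab
    | exact absurd hd.symm hab | exact .inl (one hd) | exact .inl (one hd.symm)
    | exact .inr (.inl hd) | exact .inr (.inl hd.symm) | exact .inr (.inr hd)
    | exact .inr (.inr hd.symm)

variable {F : Type u} [Field F] {V : Type v} [AddCommGroup V] [Module F V]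
  {B : LinearMap.BilinForm F V} {K : Subgroup (V ≃ₗ[F] V)}

/-- all transvections outside `K` lie in one double coset -/
def OneDC (hA : B.IsAlt) (K : Subgroup (V ≃ₗ[F] V)) : Prop :=
  ∃ t g₂, (∀ z a, ee hA z 0 a ∉ K → DC K K t (ee hA z 0 a)) ∧
    ∀ g ∈ Isom B, g ∈ K ∨ DC K K t g ∨ DC K K g₂ g

theorem image_eq {O : Set V} (h : ∀ g ∈ K, ∀ x ∈ O, g x ∈ O) {g : V ≃ₗ[F] V} (hg : g ∈ K) :
    g '' O = O :=
  Set.ext fun x => ⟨by rintro ⟨y, hy, rfl⟩; exact h g hg y hy,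
    fun hx => ⟨g⁻¹ x, h _ (inv_mem hg) x hx, H38.KL.app_inv g x⟩⟩

theorem gam_map (n : ℕ) (O A A' : Set V) (g : V ≃ₗ[F] V) :
    gam F n O (g '' A) (g '' A') = gam F n O A A' := by
  rw [gam, gam, ← Set.image_inter g.injective, Set.ncard_image_of_injective _ g.injective]

theorem image_mul (g h : V ≃ₗ[F] V) (A : Set V) : (g * h) '' A = g '' (h '' A) :=
  (Set.image_image g h A).symm

variable [FiniteDimensional F V]

theorem exists_one (S : Sy B) {z : V} (hz : z ≠ 0) : ∃ v, B z v = 1 :=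
  (exists_partner S.alt S.nd (W := ⊥) (by simpa using hz)).imp fun _ h => h.1

theorem sm_tv (S : Sy B) {g : V ≃ₗ[F] V} (hg : g ∈ Isom B) {z : V} (h : Sm g (F ∙ z)) :
    ∃ a, g = ee S.alt z 0 a := by
  by_cases hz : z = 0
  · exact ⟨0, LinearEquiv.ext fun v => by simpa [hz, sub_eq_zero, ee_zero] using h v⟩
  obtain ⟨w, hw⟩ := exists_one S hz
  obtain ⟨a, ha⟩ := mem_span_singleton.1 (h w)
  refine ⟨a, LinearEquiv.ext fun v => ?_⟩
  have := h.fix S hg (w := v - B z v • w) fun u hu => by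
    obtain ⟨c, rfl⟩ := mem_span_singleton.1 hu
    simp [hw]
  rw [map_sub, map_smul] at this
  rw [tv_apply]
  linear_combination (norm := module) this - B z v • ha

omit [FiniteDimensional F V] in
theorem sm_two (hA : B.IsAlt) (z z' : V) (a a' : F) :
    Sm (ee hA z 0 a * ee hA z' 0 a') (span F {z, z'}) :=
  ((sm_ee hA z a).mono (span_mono (by simp))).mul ((sm_ee hA z' a').mono (span_mono (by simp)))

omit [FiniteDimensional F V] in
theorem NoH.noTv (h : NoH K) : NoTv K := fun z g hg h1 => h z z g hg (by simpa using h1)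

theorem fin (S : Sy B) [Finite F] (hn : 1 ≤ finrank F V) (hK : K ≤ Isom B) (h : NoH K)
    (h1 : P1 S.alt K ∨ OneDC S.alt K) : False := by
  obtain ⟨x, hx⟩ := exists_ne_zero' (F := F) hn
  obtain ⟨x', hx'⟩ := exists_one S hx
  rcases h1 with h1 | ⟨t, -, h1, -⟩
  · obtain ⟨j, hj, h2⟩ := exists_hs S.alt S.nd hx' (t := -1) (by simp)
    have jx : j x = -x := by
      rw [h2, ← S.alt.neg_eq, hx', S.alt.self_eq_zero]
      module
    have sj : Sm j (span F {x, x'}) := fun v => mem_span_pair.2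
      ⟨-((-1 - 1) * B x' v), ((-1)⁻¹ - 1) * B x v, by rw [h2]; module⟩
    have jj : ∀ v, j (j v) = v := fun v => by
      rw [h2 v, map_add, map_sub, map_smul, map_smul, jx, h2 x', h2 v, hx', S.alt.self_eq_zero,
        inv_neg_one]
      module
    obtain ⟨w, a, k, hk, e⟩ := h1 j hj
    have h3 : ee S.alt w 0 (-a) * ee S.alt (j w) 0 (-a) = k * k := by
      have h4 := conj_ee S.alt hj w 0 (-a)
      have h5 := ee_inv S.alt (z := w) (u := 0) (map_zero _) a
      rw [map_zero, show j⁻¹ = j from inv_eq_of_mul_eq_one_right (LinearEquiv.ext jj)] at h4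
      rw [neg_zero] at h5
      rw [← h4, ← h5, e]
      group
    have h4 := h _ _ _ (h3 ▸ mul_mem hk hk) (sm_two S.alt w (j w) (-a) (-a))
    by_cases h5 : ee S.alt w 0 a = 1
    · rw [h5, one_mul] at e
      rw [h _ _ j (e ▸ hk) sj] at jx
      replace jx : x = -x := jx
      exact hx ((smul_eq_zero.1 (show (2 : F) • x = 0 by
        linear_combination (norm := module) jx)).resolve_left S.two)
    have a0 : a ≠ 0 := fun h0 => h5 (h0 ▸ ee_zero S.alt w)
    have w0 : w ≠ 0 := fun h0 => h5 (LinearEquiv.ext fun v => by simp [tv_apply, h0])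
    obtain ⟨v, hv⟩ := exists_one S w0
    have h6 : ee S.alt (j w) 0 (-a) = ee S.alt w 0 a := by
      rw [eq_inv_of_mul_eq_one_right h4, ee_inv S.alt (map_zero _), neg_zero, neg_neg]
    have h7 := LinearEquiv.congr_fun h6 v
    rw [tv_apply, tv_apply, hv, add_right_inj, neg_mul, ← mul_neg, mul_smul, mul_smul,
      one_smul] at h7
    have h8 := smul_right_injective V a0 h7
    have h9 := congrArg (fun y => B (j y) v) h8
    have h10 := congrArg (fun y => B y v) h8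
    simp only [map_smul, jj, LinearMap.smul_apply, hv, smul_eq_mul] at h9 h10
    have : B (j w) v = 0 := (mul_eq_zero.1 (show 2 * B (j w) v = 0 by
      linear_combination -h9)).resolve_left S.two
    simp [this] at h10
  · have := Fintype.ofFinite F
    obtain ⟨ε, hε⟩ := FiniteField.exists_nonsquare (F := F) fun h2 =>
      S.two (by exact_mod_cast (ringChar.spec F 2).2 (h2 ▸ dvd_rfl))
    obtain ⟨k, hk, l, hl, e⟩ := (h1 x 1 fun h2 => one_ne_zero (h.noTv.ee S.alt S.nd hx h2)).symm.trans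
      (h1 x ε fun h2 => hε (by simp [h.noTv.ee S.alt S.nd hx h2]))
    have h3 : ee S.alt (k x) 0 (-1) * ee S.alt x 0 ε = k * l := by
      have h4 := conj_ee S.alt (hK hk) x 0 1
      have h5 := ee_inv S.alt (z := k x) (u := 0) (map_zero _) 1
      rw [map_zero] at h4
      rw [neg_zero] at h5
      rw [← h5, ← h4, e]
      group
    have h4 := h _ _ _ (h3 ▸ mul_mem hk hl) (sm_two S.alt _ _ _ _)
    have h6 : ee S.alt x 0 ε = ee S.alt (k x) 0 1 := by
      rw [eq_inv_of_mul_eq_one_right h4, ee_inv S.alt (map_zero _), neg_zero, neg_neg]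
    have h7 := LinearEquiv.congr_fun h6 x'
    rw [tv_apply, tv_apply, add_right_inj] at h7
    have h8 := congrArg (fun y => B y x') h7
    simp only [map_smul, LinearMap.smul_apply, hx', smul_eq_mul, mul_one, one_mul] at h8
    exact hε ⟨_, h8⟩

variable [Finite F]

theorem dich (S : Sy B) (hK : K ≤ Isom B) (hn : ¬ Isom B ≤ K) (h : dc (Isom B) K K = 3) :
    P2 S.alt K ∧ (P1 S.alt K ∨ OneDC S.alt K) := by
  have := finGL F V
  by_cases h1 : P1 S.alt K
  · refine ⟨fun g hg => ?_, .inl h1⟩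
    obtain ⟨z, a, k, hk, rfl⟩ := h1 g hg
    exact ⟨z, a, 0, 0, k, hk, by rw [ee_zero, mul_one]⟩
  let X : (V ≃ₗ[F] V) → Prop := fun g => ∃ z a, ∃ k ∈ K, g = ee S.alt z 0 a * k
  have cj : ∀ k ∈ K, ∀ z a, k * ee S.alt z 0 a = ee S.alt (k z) 0 a * k := fun k hk z a => by
    have := conj_ee S.alt (hK hk) z 0 a
    rw [map_zero] at this
    rw [← this, inv_mul_cancel_right]
  have Xd : ∀ {g g'}, DC K K g g' → X g → X g' := by
    rintro _ _ ⟨k, hk, l, hl, rfl⟩ ⟨z, a, m, hm, rfl⟩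
    exact ⟨k z, a, k * m * l, mul_mem (mul_mem hk hm) hl, by rw [← mul_assoc k, cj k hk]; group⟩
  have XK : ∀ k ∈ K, X k := fun k hk => ⟨0, 0, k, hk, by rw [ee_zero, one_mul]⟩
  have Xt : ∀ z a, X (ee S.alt z 0 a) := fun z a => ⟨z, a, 1, one_mem _, (mul_one _).symm⟩
  obtain ⟨g₀, hg₀, hX⟩ : ∃ g ∈ Isom B, ¬ X g := by
    by_contra h2
    push Not at h2
    exact h1 h2
  obtain ⟨z₀, h2⟩ := exists_bad S.alt S.nd hn
  obtain ⟨a₀, h2⟩ := not_forall.1 h2
  have all := fun g => dc_three h (ee_mem S.alt z₀ 0 a₀) hg₀ h2 (fun h3 => hX (XK _ h3))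
    (fun h3 => hX (Xd h3 (Xt _ _))) (g := g)
  refine ⟨?_, .inr ⟨_, g₀, fun z a h3 => ((all _ (ee_mem _ _ _ _)).resolve_left h3).resolve_right
    fun h4 => hX (Xd h4.symm (Xt _ _)), all⟩⟩
  obtain ⟨z, a, x, hx, h3⟩ : ∃ z a x, X x ∧ ¬ X (ee S.alt z 0 a * x) := by
    by_contra h3
    push Not at h3
    let H : Subgroup (V ≃ₗ[F] V) :=
      { carrier := {g | ∀ x, X (g * x) ↔ X x}
        one_mem' := fun x => by rw [one_mul]
        mul_mem' := fun {a b} ha hb x => by rw [mul_assoc, ha, hb]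
        inv_mem' := fun {a} ha x => by rw [← ha, mul_inv_cancel_left] }
    have : Isom B ≤ H := by
      by_contra h4
      obtain ⟨z, h5⟩ := exists_bad S.alt S.nd h4
      refine h5 fun a x => ⟨fun h6 => ?_, h3 z a x⟩
      have h7 := ee_inv S.alt (z := z) (u := 0) (map_zero _) a
      rw [neg_zero] at h7
      simpa [← h7] using h3 z (-a) _ h6
    exact hX (by simpa using (this hg₀ 1).2 (XK 1 (one_mem _)))
  obtain ⟨z', a', m, hm, rfl⟩ := hx
  have h4 := ((all _ (mul_mem (ee_mem _ z 0 a) (mul_mem (ee_mem _ z' 0 a') (hK hm)))).resolve_left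
    fun h5 => h3 (XK _ h5)).resolve_left fun h5 => h3 (Xd h5 (Xt _ _))
  intro g hg
  by_cases h5 : X g
  · obtain ⟨z, a, k, hk, rfl⟩ := h5
    exact ⟨z, a, 0, 0, k, hk, by rw [ee_zero, mul_one]⟩
  obtain ⟨k, hk, l, hl, rfl⟩ := h4.symm.trans (((all g hg).resolve_left
    fun h6 => h5 (XK _ h6)).resolve_left fun h6 => h5 (Xd h6 (Xt _ _)))
  exact ⟨k z, a, k z', a', k * m * l, mul_mem (mul_mem hk hm) hl, by
    rw [← mul_assoc k, cj k hk, mul_assoc _ k, ← mul_assoc k, cj k hk]; group⟩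

omit [Finite F] in
theorem noTv_of (S : Sy B) (hK : K ≤ Isom B)
    (h : ∀ z, z ≠ 0 → ∀ a : F, a ≠ 0 → ee S.alt z 0 a ∉ K) : NoTv K := fun z g hg h1 => by
  obtain ⟨a, rfl⟩ := sm_tv S (hK hg) h1
  by_cases hz : z = 0
  · exact LinearEquiv.ext fun v => by simp [tv_apply, hz]
  by_cases ha : a = 0
  · rw [ha, ee_zero]
  exact absurd hg (h z hz a ha)

omit [FiniteDimensional F V] [Finite F] in
theorem tv_move (S : Sy B) (hK : K ≤ Isom B) {z z' : V} (hz : z ≠ 0) {a : F} (ha : a ≠ 0)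
    (h : ee S.alt z 0 a ∈ K) (h1 : ∃ g ∈ K, g z ∈ F ∙ z') :
    ∃ a : F, a ≠ 0 ∧ ee S.alt z' 0 a ∈ K := by
  obtain ⟨g, hg, h1⟩ := h1
  obtain ⟨c, hc, h2⟩ := exists_coef hz h1
  have h3 := mem_conj S.alt (hK hg) hg h
  rw [map_zero, h2, ee_scale S.alt (map_zero _), smul_zero] at h3
  exact ⟨_, mul_ne_zero (pow_ne_zero 2 hc) ha, h3⟩

theorem trans_case (J : Jobs.{u, v}) (S : Sy B) (hn : 6 ≤ finrank F V) (hK : K ≤ Isom B)
    (h0 : ¬ Isom B ≤ K) (h : dc (Isom B) K K = 3) (hP : PP K) : False := by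
  obtain ⟨h2, h1⟩ := dich S hK h0 h
  have nt : NoTv K := noTv_of S hK fun z hz a ha h3 => h0 ((J.il F V B S K hK).2.2 (by omega)
    fun z' hz' => tv_move S hK hz ha h3 (hP z z' hz hz'))
  refine fin S (by omega) hK (J.h J.e jobHS F V B K S (by omega) hK (fun x y hxy g hg h3 => ?_) hP)
    h1
  by_contra h4
  by_cases hx : x = 0
  · exact h4 (nt y g hg (by simpa [hx] using h3))
  by_cases hy : y ∈ F ∙ x
  · exact h4 (nt x g hg (h3.mono (span_le.2 (Set.pair_subset (mem_span_singleton_self x) hy))))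
  obtain ⟨U, hU⟩ := J.d2b F V B K S hK nt hP
    (J.d2a J.e J.il jobHS F V B K S (by omega) hK nt hP) x y ⟨⟨hx, hy⟩, hxy, g, hg, h4, h3⟩
  exact J.d2c F V B S K hn h2 U hU

theorem num_case (J : Jobs.{u, v}) (S : Sy B) {k : ℕ} (hn : finrank F V = 2 * k) (hk : 3 ≤ k)
    (hK : K ≤ Isom B) (nt : NoTv K) (h : OneDC S.alt K) {O : Set V} (hO : Two K O) : False := by
  have := finV F V
  have : Finite (Cj B O) := Subtype.finite
  have := Fintype.ofFinite (Cj B O)
  obtain ⟨t, g₂, h1, h2⟩ := h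
  have dc : ∀ {g g'}, DC K K g g' → gam F (2 * k) O O (g' '' O) = gam F (2 * k) O O (g '' O) := by
    rintro g _ ⟨a, ha, b, hb, rfl⟩
    rw [image_mul, image_mul, image_eq hO.map hb, ← gam_map _ _ O (g '' O) a, image_eq hO.map ha]
  obtain ⟨h₁, h₂, ε, N, p0, p1⟩ := J.int F V B S K O k hn (by omega) hK hO
  have tv : ∀ z, z ≠ 0 → ∀ a : F, a ≠ 0 → gam F (2 * k) O O (ee S.alt z 0 a '' O) =
      gam F (2 * k) O O (t '' O) := fun z hz a ha =>
    dc (h1 z a fun h3 => ha (nt.ee S.alt S.nd hz h3))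
  obtain ⟨m1, c, m2, m3⟩ := J.mom F V B O k h₁ h₂ ε S hn (by omega) hO.zero hO.smul N
  have q3 : 3 ≤ Nat.card F := by
    have := Fintype.ofFinite F
    by_contra h3
    have h4 := two_le_card F
    have h5 := FiniteField.cast_card_eq_zero F
    rw [← Nat.card_eq_fintype_card, show Nat.card F = 2 by omega] at h5
    exact S.two (by exact_mod_cast h5)
  obtain ⟨z, hz⟩ := exists_ne_zero' (F := F) (V := V) (by omega)
  refine J.srg (Cj B O) (fun ω ω' => gam F (2 * k) O ω.1 ω'.1) _ _ (gam F (2 * k) O O (g₂ '' O)) c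
    _ k ε q3 hk N.sgn p0 (p1 _ tv) m2 ?_ (fun ω ω' => by simp only [gam, Set.inter_comm]) ?_
    ⟨⟨O, 1, one_mem _, by simp⟩, ⟨_, _, ee_mem S.alt z 0 1, rfl⟩, tv z hz 1 one_ne_zero⟩ m1 m3
  · rintro ⟨_, g, -, rfl⟩
    exact gam_map _ _ _ _ g
  · rintro ⟨_, g, hg, rfl⟩ ⟨_, g', hg', rfl⟩ hne
    have e : gam F (2 * k) O (g '' O) (g' '' O) = gam F (2 * k) O O ((g⁻¹ * g') '' O) := by
      rw [← gam_map _ _ O _ g, ← image_mul, mul_inv_cancel_left]
    rcases h2 _ (mul_mem (inv_mem hg) hg') with h3 | h3 | h3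
    · refine absurd (Subtype.ext ?_) hne
      change g '' O = g' '' O
      rw [← mul_inv_cancel_left g g', image_mul, image_eq hO.map h3]
    · exact .inl (e.trans (dc h3))
    · exact .inr (e.trans (dc h3))

theorem two_case (J : Jobs.{u, v}) (S : Sy B) {k : ℕ} (hn : finrank F V = 2 * k) (hk : 3 ≤ k)
    (hK : K ≤ Isom B) (h0 : ¬ Isom B ≤ K) (h : dc (Isom B) K K = 3) {O : Set V} (hO : Two K O) :
    False := by
  classical
  obtain ⟨h2, h1⟩ := dich S hK h0 h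
  have t1 : ∀ O, Two K O → ∀ z ∈ O, ∀ a : F, a ≠ 0 → ee S.alt z 0 a ∉ K := by
    intro O hO z hz a ha h3
    have all : ∀ y ∈ O, ∃ a : F, a ≠ 0 ∧ ee S.alt y 0 a ∈ K := fun y hy =>
      tv_move S hK (fun h4 => hO.zero (h4 ▸ hz)) ha h3 (hO.tr z hz y hy)
    refine (J.t1b F V B S K).1 (by omega) h2 O hO.map (J.t1a J.il F V B S K O (by omega) hK hO
      fun y hy => ⟨all y, fun ⟨b, hb, h4⟩ => by_contra fun h5 => h0 ?_⟩)
    exact (J.il F V B S K hK).2.2 (by omega) fun w hw =>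
      if h6 : w ∈ O then all w h6 else tv_move S hK hy hb h4 (hO.tr' y w hy hw h5 h6)
  have nt : NoTv K := noTv_of S hK fun z hz =>
    if h3 : z ∈ O then t1 O hO z h3 else t1 _ hO.compl z ⟨hz, h3⟩
  rcases h1 with h1 | h1
  · obtain ⟨x, hx⟩ := hO.ex
    obtain ⟨y, hy, hy'⟩ := hO.ex'
    have x0 : x ≠ 0 := fun h4 => hO.zero (h4 ▸ hx)
    obtain ⟨g, hg, h3⟩ := (J.t1b F V B S K).2 hK h1 (fun z hz => by
      by_cases h3 : ∀ w ∈ Yz S.alt K z, w ∈ F ∙ z
      · exact J.ix0 J.il F V B S K (by omega) nt z hz h3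
      · push Not at h3
        exact J.ix1 F V B S K (by omega) nt z hz h3) x y x0 hy
    obtain ⟨c, hc, h4⟩ := exists_coef x0 h3
    exact hy' (by simpa [h4, hc] using hO.smul _ (hO.map g hg x hx) c⁻¹ (inv_ne_zero hc))
  · exact num_case J S hn hk hK nt h1 hO

theorem main (J : Jobs.{u, v}) : Main.{u, v} := by
  intro F _ _ V _ _ _ B K k S hn hk hK h
  have := finGL F V
  obtain ⟨x, hx⟩ := exists_ne_zero' (F := F) (V := V) (by omega)
  obtain ⟨p1, p2⟩ := J.pt F V B S (by omega) x hx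
  have hP : Pt (Isom B) x ≤ Isom B := stabSub_le _ _
  have h0 : ¬ Isom B ≤ K := fun h0 => by
    rw [le_antisymm hK h0, dc_self_left] at h
    omega
  have e0 : ip (Isom B) (pc (Isom B) (Pt (Isom B) x) - pc (Isom B) (Isom B))
      (pc (Isom B) (Isom B)) = 0 := by
    simp [ip_sub, ip_pc, hP, dc_self_right]
  have e1 : ip (Isom B) (pc (Isom B) (Pt (Isom B) x) - pc (Isom B) (Isom B)) (pc (Isom B) K) =
      dc (Isom B) K (Pt (Isom B) x) - 1 := by
    rw [ip_sub, ip_pc hP hK, ip_pc le_rfl hK, dc_self_left, dc_comm, Nat.cast_one]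
  have e2 := ip_rk hP p1
  have tr : ∀ y, y ≠ 0 → ∃ g ∈ Isom B, g x = y := fun y hy => exists_map S.alt S.nd hx hy
  have rel : ∀ {g g'}, g ∈ Isom B → g' ∈ Isom B → ∀ {a}, a ∈ Isom B → DC K (Pt (Isom B) x) a g →
      DC K (Pt (Isom B) x) a g' → ∃ k ∈ K, k (g x) ∈ F ∙ g' x := fun hg hg' _ _ h1 h2 =>
    (DC_Pt hK hg hg').1 (h1.symm.trans h2)
  by_cases h3 : 3 ≤ dc (Isom B) K (Pt (Isom B) x)
  · have := index_eq hK h _ e0 e2.le (by
      rw [e1]
      have : (3 : ℚ) ≤ dc (Isom B) K (Pt (Isom B) x) := by exact_mod_cast h3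
      linarith)
    rw [Pi.sub_apply, pc_one hP, pc_one le_rfl, Subgroup.relIndex_self, Nat.cast_one,
      add_sub_cancel, Nat.cast_inj] at this
    rw [this, p2, hn]
  exfalso
  have h1 := one_le_dc (Isom B) K (Pt (Isom B) x)
  by_cases h2 : dc (Isom B) K (Pt (Isom B) x) = 2
  · obtain ⟨g₀, hg₀, n0, all⟩ := dc_two h2
    refine two_case J S hn hk hK h0 h (O := {y | y ≠ 0 ∧ ∃ k ∈ K, k x ∈ F ∙ y})
      ⟨fun h => h.1 rfl, ?_, ?_, ⟨x, hx, 1, one_mem _, mem_span_singleton_self x⟩,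
        ⟨g₀ x, by simpa using hx, fun h4 => n0 ((DC_Pt hK (one_mem _) hg₀).2 h4.2)⟩, ?_, ?_⟩
    · rintro y ⟨hy, k, hk, h4⟩ c hc
      exact ⟨smul_ne_zero hc hy, k, hk, by rwa [span_singleton_smul_eq hc.isUnit]⟩
    · rintro g hg y ⟨hy, k, hk, h4⟩
      obtain ⟨c, hc⟩ := mem_span_singleton.1 h4
      exact ⟨by simpa using hy, g * k, mul_mem hg hk, mem_span_singleton.2 ⟨c, by simp [← hc]⟩⟩
    · intro y hy y' hy'
      obtain ⟨g, hg, rfl⟩ := tr y hy.1
      obtain ⟨g', hg', rfl⟩ := tr y' hy'.1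
      exact rel hg hg' (one_mem _) ((DC_Pt hK (one_mem _) hg).2 hy.2)
        ((DC_Pt hK (one_mem _) hg').2 hy'.2)
    · intro y y' hy hy' h4 h5
      obtain ⟨g, hg, rfl⟩ := tr y hy
      obtain ⟨g', hg', rfl⟩ := tr y' hy'
      exact rel hg hg' hg₀
        ((all g hg).resolve_left fun h6 => h4 ⟨hy, (DC_Pt hK (one_mem _) hg).1 h6⟩)
        ((all g' hg').resolve_left fun h6 => h5 ⟨hy', (DC_Pt hK (one_mem _) hg').1 h6⟩)
  · refine trans_case J S (by omega) hK h0 h fun y y' hy hy' => ?_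
    obtain ⟨g, hg, rfl⟩ := tr y hy
    obtain ⟨g', hg', rfl⟩ := tr y' hy'
    have one := dc_eq_one.1 (show dc (Isom B) K (Pt (Isom B) x) = 1 by omega)
    have : ∀ g ∈ Isom B, DC K (Pt (Isom B) x) 1 g := fun g hg => by simpa [DC] using one g hg
    exact rel hg hg' (one_mem _) (this g hg) (this g' hg')

end H51.KS
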