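import Cfsg.Agent.H51.KSSpec
import Cfsg.Agent.H51.KLRow

/-! KS-HS: the trace argument; KS-ROW. -/

set_option autoImplicit false

namespace H51.KS

open Module Submodule H53.CK H51.KL H54 H26.MS

universe u v

variable {F : Type u} [Field F] [Finite F] {V : Type v} [AddCommGroup V] [Module F V]
  [FiniteDimensional F V]

/-- no symmetric system of large subspaces without absolute points -/
theorem noSym (hn : 1 ≤ finrank F V) (W : V → Submodule F V) (h1 : ∀ x, x ≠ 0 → x ∉ W x)
    (h2 : ∀ x y, x ≠ 0 → y ≠ 0 → y ∈ W x → x ∈ W y)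
    (h3 : ∀ x y, x ≠ 0 → y ≠ 0 → 1 ≤ finrank F ↥(W x ⊓ W y)) : False := by
  classical
  have := finV F V
  have := Fintype.ofFinite V
  have := Fintype.ofFinite F
  have sumU : ∀ U : Submodule F V, 1 ≤ finrank F U →
      ∑ z : {x : V // x ≠ 0}, (if z.1 ∈ U then 1 else 0 : F) = -1 := fun U hU => by
    have h := congrArg (Nat.cast : ℕ → F) (ncard_ne_zero U)
    rw [Nat.cast_pow, Nat.card_eq_fintype_card, FiniteField.cast_card_eq_zero,
      zero_pow (by omega), Nat.cast_add_one, add_eq_zero_iff_eq_neg] at h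
    rw [← h, Finset.sum_boole, ← Set.ncard_coe_finset]
    congr 1
    exact Set.ncard_congr (fun z _ => z.1) (fun z hz => ⟨by simpa using hz, z.2⟩)
      (fun _ _ _ _ e => Subtype.ext e) fun z hz => ⟨⟨z, hz.2⟩, by simpa using hz.1, rfl⟩
  let A : Matrix {x : V // x ≠ 0} {x : V // x ≠ 0} F :=
    Matrix.of fun x y => if y.1 ∈ W x.1 then 1 else 0
  have A2 : A * A = Matrix.of fun _ _ => -1 := by
    ext x y
    rw [Matrix.of_apply, ← sumU _ (h3 _ _ x.2 y.2), Matrix.mul_apply]
    refine Finset.sum_congr rfl fun z _ => ?_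
    have e : y.1 ∈ W z.1 ↔ z.1 ∈ W y.1 := ⟨h2 _ _ z.2 y.2, h2 _ _ y.2 z.2⟩
    by_cases a : z.1 ∈ W x.1 <;> by_cases b : z.1 ∈ W y.1 <;> simp [A, a, b, e]
  have A3 : A * (A * A) = -(A * A) := by
    ext x y
    have := h3 _ _ x.2 x.2
    rw [inf_idem] at this
    rw [A2, Matrix.mul_apply]
    simp only [Matrix.of_apply, mul_neg, mul_one, Finset.sum_neg_distrib, Matrix.neg_apply, A]
    rw [sumU _ this]
  have A4 : ∀ k, A ^ (k + 2) = (-1 : F) ^ k • (A * A) := fun k => by
    induction k with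
    | zero => simp [pow_two]
    | succ k ih => rw [add_right_comm, pow_succ', ih, Matrix.mul_smul, A3, pow_succ]; simp
  have t1 : A.trace = 0 := Finset.sum_eq_zero fun x _ => by simp [A, h1 x.1 x.2]
  have t2 : (A * A).trace = 1 := by
    have := sumU ⊤ (by simpa using hn)
    simp only [mem_top, if_true] at this
    rw [A2]
    simp only [Matrix.trace, Matrix.diag, Matrix.of_apply, Finset.sum_neg_distrib, this, neg_neg]
  obtain ⟨k, hk⟩ : ∃ k, Fintype.card F = k + 2 := ⟨Fintype.card F - 2, by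
    have := Fintype.one_lt_card (α := F); omega⟩
  have := FiniteField.trace_pow_card A
  rw [hk, A4, Matrix.trace_smul, t1, t2] at this
  simp at this

theorem jobHS : JobHS.{u, v} := by
  intro F _ _ V _ _ _ B S hn L hL
  have hr := S.alt.isRefl
  have rk : ∀ x, x ≠ 0 → finrank F (B.orthogonal (L x)) + 2 = finrank F V := fun x hx => by
    rw [LinearMap.BilinForm.finrank_orthogonal S.nd, (hL x hx).2.1]
    omega
  have line : ∀ x, x ≠ 0 → ∀ d ∈ L x, B x d = 0 → d ∈ F ∙ x := fun x hx d hd h0 => by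
    obtain ⟨h1, h2, ⟨y, hy, h3⟩, -⟩ := hL x hx
    have hi : Ind F x y := ⟨hx, fun h => by
      obtain ⟨c, rfl⟩ := mem_span_singleton.1 h
      simp [S.alt.self_eq_zero] at h3⟩
    have e : span F {x, y} = L x := eq_of_le_of_finrank_eq
      (span_le.2 (Set.pair_subset h1 hy)) (by rw [H38.KL.rk2 hi, h2])
    obtain ⟨a, b, rfl⟩ := mem_span_pair.1 (e ▸ hd)
    simp [S.alt.self_eq_zero, h3] at h0
    simpa [h0] using smul_mem _ a (mem_span_singleton_self x)
  refine noSym (F := F) (by omega) (fun x => B.orthogonal (L x)) (fun x hx h => ?_)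
    (fun x y hx hy h v hv => ?_) fun x y hx hy => ?_
  · obtain ⟨-, -, ⟨y, hy, h3⟩, -⟩ := hL x hx
    exact h3 (hr _ _ (h y hy))
  · obtain ⟨h1, -, ⟨w, hw, h3⟩, g, hg, h4, h5, h6⟩ := hL x hx
    have h7 : g y = y := h4.fix S hg h
    obtain ⟨c, hc⟩ := mem_span_singleton.1 (line y hy _ (sub_mem (h6 y hy h7 v hv) hv)
      (hr _ _ (perp_of_fix hg h7 v)))
    have h8 : ∀ a ∈ L x, B a (g v - v) = 0 := fun a ha => by
      rw [← hc, map_smul, show B a y = 0 from h a ha, smul_zero]
    obtain ⟨e, he⟩ := mem_span_singleton.1 (line x hx _ (h4 v) (h8 x h1))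
    have h9 := h8 w hw
    rw [← he, map_smul, smul_eq_mul, mul_eq_zero] at h9
    rw [h9.resolve_right fun h => h3 (hr _ _ h), zero_smul, eq_comm, sub_eq_zero] at he
    let m : L x →ₗ[F] L x := ((g : V →ₗ[F] V) - LinearMap.id).restrict fun a _ => h4 a
    have inj : Function.Injective m := (injective_iff_map_eq_zero m).2 fun a ha =>
      Subtype.ext (h5 a a.2 (sub_eq_zero.1 (congrArg Subtype.val ha)))
    obtain ⟨a, ha⟩ := LinearMap.injective_iff_surjective.1 inj ⟨x, h1⟩
    have : g a - a = x := congrArg Subtype.val ha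
    exact hr _ _ (this ▸ perp_of_fix hg he a)
  · have h1 := finrank_sup_add_finrank_inf_eq (B.orthogonal (L x)) (B.orthogonal (L y))
    have h2 := finrank_le (B.orthogonal (L x) ⊔ B.orthogonal (L y))
    have := rk x hx
    have := rk y hy
    omega

open MulAction in
theorem s2195 {G X : Type*} [Group G] [MulAction G X] [Fintype X] {F : Type u} [Field F]
    [Fintype F] (h : Main.{u, u}) (k : ℕ) (hk : 3 ≤ k) (hq : Odd (Fintype.card F))
    (e : G ≃* (Matrix.symplecticGroup (Fin k) F ⧸
      Subgroup.center (Matrix.symplecticGroup (Fin k) F))) (hprim : IsPreprimitive G X) (x : X)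
    (h3 : Nat.card (orbitRel.Quotient ↥(stabilizer G x) X) = 3) :
    Fintype.card X * (Fintype.card F - 1) = Fintype.card F ^ (2 * k) - 1 := by
  let ρ : Matrix.symplecticGroup (Fin k) F →* G := e.symm.toMonoidHom.comp (QuotientGroup.mk' _)
  let π := (Isom (spB (Fin k) F)).subtype.comp (spEquivIsom (Fin k) F).toMonoidHom
  have hρ : Function.Surjective ρ := e.symm.surjective.comp (QuotientGroup.mk'_surjective _)
  have hk' : π.ker ≤ ρ.ker := by
    rw [(MonoidHom.ker_eq_bot_iff π).2
      (Subtype.val_injective.comp (spEquivIsom (Fin k) F).injective)]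
    exact bot_le
  have hr : π.range = Isom (spB (Fin k) F) := by
    rw [MonoidHom.range_comp, MonoidHom.range_eq_top.2 (spEquivIsom (Fin k) F).surjective,
      ← MonoidHom.range_eq_map, Subgroup.range_subtype]
  have h2 : (2 : F) ≠ 0 := Ring.two_ne_zero fun h2 => by
    have := FiniteField.even_card_of_char_two h2
    rw [Nat.odd_iff] at hq
    omega
  have := h F _ (spB (Fin k) F) (((stabilizer G x).comap ρ).map π) k
    ⟨spB_isAlt, spB_nondegenerate, h2⟩ (by simp [two_mul]) hk (hr ▸ Subgroup.map_le_range _ _)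
    (hr ▸ (row_dc π ρ hρ hk' x).trans h3)
  rwa [← hr, row_idx π ρ hρ hk', Nat.card_eq_fintype_card, Nat.card_eq_fintype_card] at this

end H51.KS
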