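import Cfsg.Agent.H51.KLKit
import Cfsg.Agent.H38.KLTr
import Cfsg.Agent.H26.MinS1

/-! Interface of the tower KS (`blueprints/KS.md`): rank 3 actions of `PSp_2k(q)`, `q` odd. -/

set_option autoImplicit false

namespace H51.KS

open Module Submodule H53.CK H51.KL H54 H26.MS

universe u v

/-- averaging: a set that meets all its translates in at least `c` points is large -/
theorem avg {G α : Type*} [Group G] [Finite G] [Finite α] [MulAction G α] (S : Subgroup G)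
    {Λ D : Set α} (hD : D ⊆ Λ) (h1 : ∀ g ∈ S, ∀ a ∈ Λ, g • a ∈ Λ)
    (h2 : ∀ a ∈ Λ, ∀ b ∈ Λ, ∃ g ∈ S, g • a = b) {c : ℕ}
    (h : ∀ g ∈ S, c ≤ {d | d ∈ D ∧ g • d ∈ D}.ncard) : c * Λ.ncard ≤ D.ncard ^ 2 := by
  rcases Λ.eq_empty_or_nonempty with rfl | ⟨a₀, h0⟩
  · simp
  obtain ⟨m, hm⟩ : ∃ m, m = {g | g ∈ S ∧ g • a₀ = a₀}.ncard := ⟨_, rfl⟩
  have m0 : 0 < m := hm ▸ (Set.ncard_pos (Set.toFinite _)).2 ⟨1, S.one_mem, one_smul _ _⟩
  have e : ∀ a ∈ Λ, ∀ b ∈ Λ, {g | g ∈ S ∧ g • a = b}.ncard = m := fun a ha b hb => by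
    obtain ⟨k, hk, rfl⟩ := h2 a₀ h0 a ha
    obtain ⟨l, hl, rfl⟩ := h2 a₀ h0 b hb
    rw [hm]
    refine Set.ncard_congr (fun g _ => l⁻¹ * g * k) (fun g hg => ⟨mul_mem (mul_mem (inv_mem hl)
      hg.1) hk, by rw [mul_smul, mul_smul, hg.2, inv_smul_smul]⟩) (fun _ _ _ _ e => by simpa using e)
      fun g hg => ⟨l * g * k⁻¹, ⟨mul_mem (mul_mem hl hg.1) (inv_mem hk), by
        rw [mul_smul, mul_smul, inv_smul_smul, hg.2]⟩, by group⟩
  have cnt : ∀ E ⊆ Λ, ∀ a ∈ Λ, {g | g ∈ S ∧ g • a ∈ E}.ncard = E.ncard * m := fun E hE a ha => by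
    rw [← dcount {g | g ∈ S ∧ g • a ∈ E} E (fun g b => g • a = b) (m := 1) (fun g hg => by
      rw [Set.ncard_eq_one]
      exact ⟨g • a, Set.eq_singleton_iff_unique_mem.2 ⟨⟨hg.2, rfl⟩, fun b hb => hb.2.symm⟩⟩)
      fun b hb => by
        rw [← e a ha b (hE hb)]
        congr 1
        ext g
        exact ⟨fun h => ⟨h.1.1, h.2⟩, fun h => ⟨⟨h.1, h.2 ▸ hb⟩, h.2⟩⟩, mul_one]
  have e1 : (S : Set G).ncard = Λ.ncard * m := by
    rw [← cnt Λ subset_rfl a₀ h0]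
    congr 1
    ext g
    exact ⟨fun h => ⟨h, h1 g h a₀ h0⟩, fun h => h.1⟩
  have e2 := dcount_le (S : Set G) D (fun g d => g • d ∈ D) h fun d hd => (cnt D hD d (hD hd)).le
  rw [e1] at e2
  exact Nat.le_of_mul_le_mul_right (by linarith) m0

section defs

variable {F : Type u} [Field F] {V : Type v} [AddCommGroup V] [Module F V]

/-- a symplectic space in odd characteristic -/
structure Sy (B : LinearMap.BilinForm F V) : Prop where
  alt : B.IsAlt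
  nd : B.Nondegenerate
  two : (2 : F) ≠ 0

/-- `[V, g] ≤ U` -/
def Sm (g : V ≃ₗ[F] V) (U : Submodule F V) : Prop := ∀ v, g v - v ∈ U

/-- no transvections -/
def NoTv (K : Subgroup (V ≃ₗ[F] V)) : Prop := ∀ z : V, ∀ g ∈ K, Sm g (F ∙ z) → g = 1

/-- a totally isotropic line that is `[V, g]` for some `g ∈ K` -/
def DL (B : LinearMap.BilinForm F V) (K : Subgroup (V ≃ₗ[F] V)) (x y : V) : Prop :=
  Ind F x y ∧ B x y = 0 ∧ ∃ g ∈ K, g ≠ 1 ∧ Sm g (span F {x, y})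

/-- no elements moving inside a totally isotropic line -/
def No2 (B : LinearMap.BilinForm F V) (K : Subgroup (V ≃ₗ[F] V)) : Prop :=
  ∀ x y : V, B x y = 0 → ∀ g ∈ K, Sm g (span F {x, y}) → g = 1

/-- no elements moving inside a line -/
def NoH (K : Subgroup (V ≃ₗ[F] V)) : Prop := ∀ x y : V, ∀ g ∈ K, Sm g (span F {x, y}) → g = 1

/-- transitive on points -/
def PP (K : Subgroup (V ≃ₗ[F] V)) : Prop := ∀ x y : V, x ≠ 0 → y ≠ 0 → ∃ g ∈ K, g x ∈ F ∙ y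

/-- two orbits on points; `O` is the set of vectors of one of them -/
structure Two (K : Subgroup (V ≃ₗ[F] V)) (O : Set V) : Prop where
  zero : 0 ∉ O
  smul : ∀ x ∈ O, ∀ c : F, c ≠ 0 → c • x ∈ O
  map : ∀ g ∈ K, ∀ x ∈ O, g x ∈ O
  ex : ∃ x, x ∈ O
  ex' : ∃ x, x ≠ 0 ∧ x ∉ O
  tr : ∀ x ∈ O, ∀ y ∈ O, ∃ g ∈ K, g x ∈ F ∙ y
  tr' : ∀ x y, x ≠ 0 → y ≠ 0 → x ∉ O → y ∉ O → ∃ g ∈ K, g x ∈ F ∙ y

/-- `j` is `-1` on the line `x u` and `1` on its perp -/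
def IL (B : LinearMap.BilinForm F V) (x u : V) (j : V ≃ₗ[F] V) : Prop :=
  j x = -x ∧ j u = -u ∧ ∀ v, B x v = 0 → B u v = 0 → j v = v

/-- an invariant spread of totally isotropic lines that respects perps -/
structure Spr (B : LinearMap.BilinForm F V) (K : Subgroup (V ≃ₗ[F] V)) (U : V → Submodule F V) :
    Prop where
  self : ∀ x, x ∈ U x
  rk : ∀ x, x ≠ 0 → finrank F (U x) = 2
  eq : ∀ x y, x ≠ 0 → y ≠ 0 → y ∈ U x → U y = U x
  ti : ∀ x, x ≠ 0 → ∀ y ∈ U x, B x y = 0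
  perp : ∀ x z, x ≠ 0 → z ≠ 0 → (∀ y ∈ U x, B y z = 0) → ∀ y ∈ U x, ∀ w ∈ U z, B y w = 0
  map : ∀ g ∈ K, ∀ x, x ≠ 0 → ∀ y ∈ U x, g y ∈ U (g x)

variable {B : LinearMap.BilinForm F V}

/-- `G = T K` -/
def P1 (hA : B.IsAlt) (K : Subgroup (V ≃ₗ[F] V)) : Prop :=
  ∀ g ∈ Isom B, ∃ z a, ∃ k ∈ K, g = ee hA z 0 a * k

/-- `G = T T K` -/
def P2 (hA : B.IsAlt) (K : Subgroup (V ≃ₗ[F] V)) : Prop :=
  ∀ g ∈ Isom B, ∃ z a z' a', ∃ k ∈ K, g = ee hA z 0 a * ee hA z' 0 a' * k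

/-- `O ∪ 0` is a subspace of half the dimension, or the union of two complementary ones -/
def Half (F : Type u) [Field F] {V : Type v} [AddCommGroup V] [Module F V] (O : Set V) : Prop :=
  (∃ W : Submodule F V, 2 * finrank F W = finrank F V ∧ ∀ v, v ∈ O ↔ v ∈ W ∧ v ≠ 0) ∨
    ∃ W₁ W₂ : Submodule F V, 2 * finrank F W₁ = finrank F V ∧ 2 * finrank F W₂ = finrank F V ∧
      W₁ ⊓ W₂ = ⊥ ∧ ∀ v, v ∈ O ↔ (v ∈ W₁ ∨ v ∈ W₂) ∧ v ≠ 0

/-- intersection numbers of `O` with hyperplanes -/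
structure Nums (B : LinearMap.BilinForm F V) (O : Set V) (k h₁ h₂ : ℕ) (ε : ℤ) : Prop where
  one : ∀ x ∈ O, {y | y ∈ O ∧ B x y = 0}.ncard = h₁
  two : ∀ x, x ≠ 0 → x ∉ O → {y | y ∈ O ∧ B x y = 0}.ncard = h₂
  sgn : ε = 1 ∨ ε = -1
  sub : (h₁ : ℤ) - h₂ = ε * ((Nat.card F : ℤ) - 1) * (Nat.card F : ℤ) ^ (k - 1)
  val : (h₂ : ℤ) * ((Nat.card F : ℤ) ^ k - ε) = O.ncard * ((Nat.card F : ℤ) ^ (k - 1) - ε)

/-- the conjugates of a set of vectors -/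
def Cj (B : LinearMap.BilinForm F V) (O : Set V) : Type v :=
  {ω : Set V // ∃ g ∈ Isom B, ω = g '' O}

/-- normalised intersection numbers -/
noncomputable def gam (F : Type u) {V : Type v} (n : ℕ) (O ω ω' : Set V) : ℚ :=
  (ω ∩ ω').ncard - (O.ncard : ℚ) ^ 2 / ((Nat.card F : ℚ) ^ n - 1)

theorem Sm.mul {g h : V ≃ₗ[F] V} {U : Submodule F V} (hg : Sm g U) (hh : Sm h U) :
    Sm (g * h) U := fun v => by
  have := add_mem (hg (h v)) (hh v)
  rwa [sub_add_sub_cancel] at this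

theorem Sm.inv {g : V ≃ₗ[F] V} {U : Submodule F V} (hg : Sm g U) : Sm g⁻¹ U := fun v => by
  simpa using neg_mem (hg (g⁻¹ v))

theorem Sm.mono {g : V ≃ₗ[F] V} {U W : Submodule F V} (hg : Sm g U) (h : U ≤ W) : Sm g W :=
  fun v => h (hg v)

/-- the elements of `K` moving inside `U` -/
def smGrp (K : Subgroup (V ≃ₗ[F] V)) (U : Submodule F V) : Subgroup (V ≃ₗ[F] V) where
  carrier := {g | g ∈ K ∧ Sm g U}
  one_mem' := ⟨K.one_mem, fun v => by simp⟩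
  mul_mem' := fun ha hb => ⟨K.mul_mem ha.1 hb.1, ha.2.mul hb.2⟩
  inv_mem' := fun ha => ⟨K.inv_mem ha.1, ha.2.inv⟩

theorem Sm.conj {g : V ≃ₗ[F] V} {U : Submodule F V} (hg : Sm g U) (k : V ≃ₗ[F] V) :
    Sm (k * g * k⁻¹) (U.map (k : V →ₗ[F] V)) := fun v =>
  ⟨_, hg (k⁻¹ v), by simp⟩

theorem sm_ee (hA : B.IsAlt) (z : V) (a : F) : Sm (ee hA z 0 a) (F ∙ z) := fun v => by
  rw [tv_apply, add_sub_cancel_left]
  exact smul_mem _ _ (mem_span_singleton_self z)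

/-- an isometry moving inside `U` fixes the perp of `U` -/
theorem Sm.fix (S : Sy B) {g : V ≃ₗ[F] V} (hg : g ∈ Isom B) {U : Submodule F V} (h : Sm g U)
    {w : V} (hw : ∀ u ∈ U, B u w = 0) : g w = w := by
  refine sub_eq_zero.1 (S.nd.2 _ fun v => ?_)
  have h1 := hw _ (h (g⁻¹ v))
  have h2 := hg (g⁻¹ v) w
  simp only [H38.KL.app_inv, map_sub, LinearMap.sub_apply] at h1 h2 ⊢
  linear_combination h2 - h1

/-- `[V, g]` is perpendicular to the fixed vectors -/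
theorem perp_of_fix {g : V ≃ₗ[F] V} (hg : g ∈ Isom B) {w : V} (hw : g w = w) (v : V) :
    B (g v - v) w = 0 := by
  have := hg v w
  rw [hw] at this
  simp [this]

theorem NoTv.ee (hA : B.IsAlt) (hB : B.Nondegenerate) {K : Subgroup (V ≃ₗ[F] V)} (h : NoTv K)
    {z : V} (hz : z ≠ 0) {a : F} (ha : ee hA z 0 a ∈ K) : a = 0 := by
  have h1 := h z _ ha (sm_ee hA z a)
  by_contra h0
  refine hz (hB.1 z fun v => ?_)
  have h2 := tv_apply hA z a v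
  rw [h1] at h2
  simpa [h0, hz] using h2

/-- projection to the perp of a hyperbolic line -/
theorem decomp (hA : B.IsAlt) {x u : V} (h : B x u ≠ 0) (v : V) :
    B x (v - (B v u / B x u) • x + (B v x / B x u) • u) = 0 ∧
      B u (v - (B v u / B x u) • x + (B v x / B x u) • u) = 0 := by
  simp only [map_add, map_sub, map_smul, smul_eq_mul, hA.self_eq_zero, ← hA.neg_eq v x,
    ← hA.neg_eq v u, ← hA.neg_eq x u]
  constructor <;> field_simp <;> ring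

theorem IL.apply (hA : B.IsAlt) {x u : V} (h : B x u ≠ 0) {j : V ≃ₗ[F] V} (hj : IL B x u j)
    (v : V) : j v = v - (2 * (B v u / B x u)) • x + (2 * (B v x / B x u)) • u := by
  have := hj.2.2 _ (decomp hA h v).1 (decomp hA h v).2
  rw [map_add, map_sub, map_smul, map_smul, hj.1, hj.2.1] at this
  linear_combination (norm := module) this

theorem Two.compl {K : Subgroup (V ≃ₗ[F] V)} {O : Set V} (h : Two K O) :
    Two K {x | x ≠ 0 ∧ x ∉ O} where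
  zero := fun h => h.1 rfl
  smul := fun x hx c hc => ⟨smul_ne_zero hc hx.1, fun h1 => hx.2 (by
    simpa [hc] using h.smul _ h1 c⁻¹ (inv_ne_zero hc))⟩
  map := fun g hg x hx => ⟨by simpa using hx.1, fun h1 => hx.2 ((iff_of_map h.map hg x).1 h1)⟩
  ex := h.ex'
  ex' := h.ex.imp fun x hx => ⟨fun h0 => h.zero (h0 ▸ hx), fun h1 => h1.2 hx⟩
  tr := fun x hx y hy => h.tr' x y hx.1 hy.1 hx.2 hy.2
  tr' := fun x y hx hy h1 h2 =>
    h.tr x (by_contra fun h3 => h1 ⟨hx, h3⟩) y (by_contra fun h3 => h2 ⟨hy, h3⟩)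

end defs

/-- KS-E: two transvections of a line with different centres generate `-1`. -/
def JobE : Prop :=
  ∀ (F : Type u) [Field F] [Finite F] (V : Type v) [AddCommGroup V] [Module F V]
    [FiniteDimensional F V] (X : Subgroup (V ≃ₗ[F] V)) (Z : Submodule F V) (e f : V) (a b : F),
    (2 : F) ≠ 0 → a ≠ 0 → b ≠ 0 → (∀ α β : F, α • e + β • f ∈ Z → α = 0 ∧ β = 0) →
    (∀ g ∈ X, ∀ z ∈ Z, g z ∈ Z) → ∀ s ∈ X, ∀ s' ∈ X, s e - e ∈ Z → s f - f - a • e ∈ Z →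
    s' f - f ∈ Z → s' e - e - b • f ∈ Z → ∃ j ∈ X, j e + e ∈ Z ∧ j f + f ∈ Z

/-- KS-IL: involutions with a hyperbolic line as `-1`-space, and the transvection theorem. -/
def JobIL : Prop :=
  ∀ (F : Type u) [Field F] [Finite F] (V : Type v) [AddCommGroup V] [Module F V]
    [FiniteDimensional F V] (B : LinearMap.BilinForm F V) (S : Sy B) (K : Subgroup (V ≃ₗ[F] V)),
    K ≤ Isom B →
    (∀ x u, B x u ≠ 0 → ∀ a b : F, a ≠ 0 → b ≠ 0 → ee S.alt x 0 a ∈ K → ee S.alt u 0 b ∈ K →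
      ∃ j ∈ K, IL B x u j) ∧
    (∀ x u u', B x u ≠ 0 → B x u' ≠ 0 → u' ∉ span F {x, u} → ∀ j ∈ K, ∀ j' ∈ K, IL B x u j →
      IL B x u' j' → ∃ z, z ≠ 0 ∧ B x z = 0 ∧ B u z = 0 ∧ ee S.alt z x 0 ∈ K) ∧
    (3 ≤ finrank F V → (∀ z, z ≠ 0 → ∃ a : F, a ≠ 0 ∧ ee S.alt z 0 a ∈ K) → Isom B ≤ K)

/-- KS-HS: the trace argument. -/
def JobHS : Prop :=
  ∀ (F : Type u) [Field F] [Finite F] (V : Type v) [AddCommGroup V] [Module F V]
    [FiniteDimensional F V] (B : LinearMap.BilinForm F V), Sy B → 5 ≤ finrank F V →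
    ∀ L : V → Submodule F V, (∀ x, x ≠ 0 → x ∈ L x ∧ finrank F (L x) = 2 ∧
      (∃ y ∈ L x, B x y ≠ 0) ∧ ∃ g ∈ Isom B, Sm g (L x) ∧ (∀ v ∈ L x, g v = v → v = 0) ∧
        ∀ y, y ≠ 0 → g y = y → ∀ v ∈ L y, g v ∈ L y) → False

/-- KS-D2A: two special lines on a point are perpendicular. -/
def JobD2a : Prop :=
  JobE.{u, v} → JobIL.{u, v} → JobHS.{u, v} →
  ∀ (F : Type u) [Field F] [Finite F] (V : Type v) [AddCommGroup V] [Module F V]
    [FiniteDimensional F V] (B : LinearMap.BilinForm F V) (K : Subgroup (V ≃ₗ[F] V)), Sy B →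
    5 ≤ finrank F V → K ≤ Isom B → NoTv K → PP K →
    ∀ x y y', DL B K x y → DL B K x y' → B y y' = 0

/-- KS-D2B: the special lines form a spread. -/
def JobD2b : Prop :=
  ∀ (F : Type u) [Field F] [Finite F] (V : Type v) [AddCommGroup V] [Module F V]
    [FiniteDimensional F V] (B : LinearMap.BilinForm F V) (K : Subgroup (V ≃ₗ[F] V)), Sy B →
    K ≤ Isom B → NoTv K → PP K → (∀ x y y', DL B K x y → DL B K x y' → B y y' = 0) →
    ∀ x y, DL B K x y → ∃ U, Spr B K U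

/-- KS-D2C: spreads contradict `P2`. -/
def JobD2c : Prop :=
  ∀ (F : Type u) [Field F] [Finite F] (V : Type v) [AddCommGroup V] [Module F V]
    [FiniteDimensional F V] (B : LinearMap.BilinForm F V) (S : Sy B) (K : Subgroup (V ≃ₗ[F] V)),
    6 ≤ finrank F V → P2 S.alt K → ∀ U, Spr B K U → False

/-- KS-H: no elements moving inside a hyperbolic line. -/
def JobH : Prop :=
  JobE.{u, v} → JobHS.{u, v} →
  ∀ (F : Type u) [Field F] [Finite F] (V : Type v) [AddCommGroup V] [Module F V]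
    [FiniteDimensional F V] (B : LinearMap.BilinForm F V) (K : Subgroup (V ≃ₗ[F] V)), Sy B →
    5 ≤ finrank F V → K ≤ Isom B → No2 B K → PP K → NoH K

/-- KS-T1A: the centres of transvections form one of two orbits. -/
def JobT1a : Prop :=
  JobIL.{u, v} →
  ∀ (F : Type u) [Field F] [Finite F] (V : Type v) [AddCommGroup V] [Module F V]
    [FiniteDimensional F V] (B : LinearMap.BilinForm F V) (S : Sy B) (K : Subgroup (V ≃ₗ[F] V))
    (O : Set V), 3 ≤ finrank F V → K ≤ Isom B → Two K O →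
    (∀ z, z ≠ 0 → (z ∈ O ↔ ∃ a : F, a ≠ 0 ∧ ee S.alt z 0 a ∈ K)) → Half F O

/-- KS-T1B: `Half` contradicts `P2`; `P1` and large orbits give transitivity. -/
def JobT1b : Prop :=
  ∀ (F : Type u) [Field F] [Finite F] (V : Type v) [AddCommGroup V] [Module F V]
    [FiniteDimensional F V] (B : LinearMap.BilinForm F V) (S : Sy B) (K : Subgroup (V ≃ₗ[F] V)),
    (6 ≤ finrank F V → P2 S.alt K → ∀ O : Set V, (∀ g ∈ K, ∀ x ∈ O, g x ∈ O) → ¬ Half F O) ∧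
    (K ≤ Isom B → P1 S.alt K →
      (∀ z, z ≠ 0 → Nat.card F ^ finrank F V ≤ K.relIndex (Cz B z)) → PP K)

/-- KS-IX0: the index in a vector stabiliser, first case. -/
def JobIX0 : Prop :=
  JobIL.{u, v} →
  ∀ (F : Type u) [Field F] [Finite F] (V : Type v) [AddCommGroup V] [Module F V]
    [FiniteDimensional F V] (B : LinearMap.BilinForm F V) (S : Sy B) (K : Subgroup (V ≃ₗ[F] V)),
    5 ≤ finrank F V → NoTv K → ∀ z, z ≠ 0 → (∀ w ∈ Yz S.alt K z, w ∈ F ∙ z) →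
    Nat.card F ^ finrank F V ≤ K.relIndex (Cz B z)

/-- KS-IX1: the index in a vector stabiliser, second case. -/
def JobIX1 : Prop :=
  ∀ (F : Type u) [Field F] [Finite F] (V : Type v) [AddCommGroup V] [Module F V]
    [FiniteDimensional F V] (B : LinearMap.BilinForm F V) (S : Sy B) (K : Subgroup (V ≃ₗ[F] V)),
    5 ≤ finrank F V → NoTv K → ∀ z, z ≠ 0 → (∃ w ∈ Yz S.alt K z, w ∉ F ∙ z) →
    Nat.card F ^ finrank F V ≤ K.relIndex (Cz B z)

/-- KS-INT: intersection numbers, and the average over all transvections. -/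
def JobInt : Prop :=
  ∀ (F : Type u) [Field F] [Finite F] (V : Type v) [AddCommGroup V] [Module F V]
    [FiniteDimensional F V] (B : LinearMap.BilinForm F V) (S : Sy B) (K : Subgroup (V ≃ₗ[F] V))
    (O : Set V) (k : ℕ), finrank F V = 2 * k → 2 ≤ k → K ≤ Isom B → Two K O →
    ∃ h₁ h₂ ε, Nums B O k h₁ h₂ ε ∧ 0 < gam F (2 * k) O O O ∧
      ∀ γ : ℚ, (∀ z, z ≠ 0 → ∀ a : F, a ≠ 0 → gam F (2 * k) O O (ee S.alt z 0 a '' O) = γ) →
        γ * ((Nat.card F : ℚ) ^ k - ε) = gam F (2 * k) O O O * ((Nat.card F : ℚ) ^ (k - 1) - ε)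

/-- KS-MOM: first and second moments. -/
def JobMom : Prop :=
  ∀ (F : Type u) [Field F] [Finite F] (V : Type v) [AddCommGroup V] [Module F V]
    [FiniteDimensional F V] (B : LinearMap.BilinForm F V) (O : Set V) [Fintype (Cj B O)]
    (k h₁ h₂ : ℕ) (ε : ℤ), Sy B → finrank F V = 2 * k → 2 ≤ k → 0 ∉ O →
    (∀ x ∈ O, ∀ c : F, c ≠ 0 → c • x ∈ O) → Nums B O k h₁ h₂ ε →
    (∀ ω : Cj B O, ∑ ω' : Cj B O, gam F (2 * k) O ω.1 ω'.1 = 0) ∧
    ∃ c : ℚ, c * (((Nat.card F : ℚ) ^ k - ε) * ((Nat.card F : ℚ) ^ k + ε * Nat.card F)) =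
        2 * ((Nat.card F : ℚ) - 1) * Fintype.card (Cj B O) * gam F (2 * k) O O O ∧
      ∀ ω ω' : Cj B O, ∑ ω'' : Cj B O, gam F (2 * k) O ω.1 ω''.1 * gam F (2 * k) O ω''.1 ω'.1 =
        c * gam F (2 * k) O ω.1 ω'.1

/-- KS-SRG: two-distance sets, and the final arithmetic. -/
def JobSRG : Prop :=
  ∀ (Ω : Type v) [Fintype Ω] (γ : Ω → Ω → ℚ) (γ₀ γ₁ γ₂ c : ℚ) (q k : ℕ) (ε : ℤ), 3 ≤ q → 3 ≤ k →
    (ε = 1 ∨ ε = -1) → 0 < γ₀ → γ₁ * ((q : ℚ) ^ k - ε) = γ₀ * ((q : ℚ) ^ (k - 1) - ε) →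
    c * (((q : ℚ) ^ k - ε) * ((q : ℚ) ^ k + ε * q)) = 2 * ((q : ℚ) - 1) * Fintype.card Ω * γ₀ →
    (∀ ω, γ ω ω = γ₀) → (∀ ω ω', γ ω ω' = γ ω' ω) → (∀ ω ω', ω ≠ ω' → γ ω ω' = γ₁ ∨ γ ω ω' = γ₂) →
    (∃ ω ω', γ ω ω' = γ₁) → (∀ ω, ∑ ω', γ ω ω' = 0) →
    (∀ ω ω', ∑ ω'', γ ω ω'' * γ ω'' ω' = c * γ ω ω') → False

/-- KS-PT: the action on points. -/
def JobPt : Prop :=
  ∀ (F : Type u) [Field F] [Finite F] (V : Type v) [AddCommGroup V] [Module F V]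
    [FiniteDimensional F V] (B : LinearMap.BilinForm F V), Sy B → 3 ≤ finrank F V →
    ∀ x : V, x ≠ 0 → dc (Isom B) (Pt (Isom B) x) (Pt (Isom B) x) = 3 ∧
      (Pt (Isom B) x).relIndex (Isom B) * (Nat.card F - 1) = Nat.card F ^ finrank F V - 1

/-- The theorem. -/
def Main : Prop :=
  ∀ (F : Type u) [Field F] [Finite F] (V : Type v) [AddCommGroup V] [Module F V]
    [FiniteDimensional F V] (B : LinearMap.BilinForm F V) (K : Subgroup (V ≃ₗ[F] V)) (k : ℕ),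
    Sy B → finrank F V = 2 * k → 3 ≤ k → K ≤ Isom B → dc (Isom B) K K = 3 →
    K.relIndex (Isom B) * (Nat.card F - 1) = Nat.card F ^ (2 * k) - 1

end H51.KS
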