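import Cfsg.Agent.H51.OVHom

/-! OV-B3 (no four-group of Baer involutions), the parity condition, and the set `HH`. -/

set_option autoImplicit false
set_option linter.unusedSectionVars false

namespace H51.OV

universe u v w

theorem jobB3 (b1 : JobB1.{u, v, w}) (b2 : JobB2.{u, v, w}) : JobB3.{u, v, w} := by
  intro G P L _ _ _ _ _ _ _ n O h σ τ m m' m'' x y z c
  obtain rfl : m = m' := (Nat.pow_left_injective two_ne_zero) (x.sq.symm.trans y.sq)
  obtain rfl : m = m'' := (Nat.pow_left_injective two_ne_zero) (x.sq.symm.trans z.sq)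
  have s1 : σ * σ = 1 := by rw [← sq, ← x.ord, pow_orderOf_eq_one]
  have t1 : τ * τ = 1 := by rw [← sq, ← y.ord, pow_orderOf_eq_one]
  obtain ⟨f1, a⟩ := b1 G P L n O h σ m x
  obtain ⟨e, d⟩ := b2 G P L n O h σ τ (m + 1) _ s1 t1 c f1 (b1 G P L n O h τ m y).1
    (b1 G P L n O h _ m z).1 rfl a
  have kle : {p : P | p ∈ O ∧ σ • p = p ∧ τ • p = p}.ncard ≤ m + 1 :=
    f1 ▸ Set.ncard_le_ncard fun p i => ⟨i.1, i.2.1⟩
  have k0 : {p : P | p ∈ O ∧ σ • p = p ∧ τ • p = p}.ncard = 0 ∨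
      ∃ p ∈ O, σ • p = p ∧ τ • p = p :=
    or_iff_not_imp_left.2 fun k => Set.nonempty_of_ncard_ne_zero k
  generalize {p : P | p ∈ O ∧ σ • p = p ∧ τ • p = p}.ncard = k at *
  have S := x.sub
  have m2 := S.two
  have m3 : m ≠ 2 := fun q => by
    have := h.odd
    rw [x.sq, q] at this
    exact absurd this (by decide)
  rcases h.core S t1 (fun p (i : σ • p = p) => show σ • τ • p = τ • p by
    rw [← mul_smul, c.eq, mul_smul, i]) with ⟨Y, y1, fy, cy⟩ | ⟨s, e1, e2, T⟩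
  · have sp := Pl.core_split {l : L | σ • l = l ∧ τ • l = l} Y
    have on : {k : L | k ∈ {l : L | σ • l = l ∧ τ • l = l} ∧ Y ∈ k}.ncard = m + 1 := by
      rw [← S.lns Y y1]
      congr 1
      ext l
      exact ⟨fun i => ⟨i.1.1, i.2⟩, fun i => ⟨⟨i.1, cy l i.1 i.2⟩, i.2⟩⟩
    by_cases two : 1 < {k : L | k ∈ {l : L | σ • l = l ∧ τ • l = l} ∧ Y ∉ k}.ncard
    swap
    · rw [on] at sp
      obtain q | q : {l : L | σ • l = l ∧ τ • l = l}.ncard = m + 1 ∨
        {l : L | σ • l = l ∧ τ • l = l}.ncard = m + 2 := by omega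
      all_goals
        rw [q] at e
        have : 3 ≤ m := by omega
        zify at e this
        nlinarith [sq_nonneg ((k : ℤ) - 1)]
    obtain ⟨l₁, x₁, l₂, x₂, n12⟩ := (Set.one_lt_ncard (Set.toFinite _)).1 two
    have ax : ∀ l : L, σ • l = l → τ • l = l → Y ∉ l → ∀ p, σ • p = p → p ∈ l → τ • p = p := by
      intro l i j o p q r
      obtain ⟨g, g1, g2⟩ := h.join Y p
      have ne : Y ≠ p := fun t => o (t ▸ r)
      exact h.fix_point (fun t : g = l => o (t ▸ g1)) g2 r (cy g (S.join _ y1 _ q ne g g1 g2) g1) j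
    obtain ⟨Z, z1, z2⟩ := h.meet l₁ l₂
    have off : ∀ l : L, σ • l = l → Z ∉ l → τ • l = l := fun l i o => by
      obtain ⟨A, a1, a2⟩ := h.meet l l₁
      obtain ⟨B, b1, b2⟩ := h.meet l l₂
      have n1 : l ≠ l₁ := fun t => o (t ▸ z1)
      have n2 : l ≠ l₂ := fun t => o (t ▸ z2)
      exact h.fix_line' (fun t : A = B => o (h.pt_eq n12 a2 (t ▸ b2) z1 z2 ▸ a1)) a1 b1
        (ax l₁ x₁.1.1 x₁.1.2 x₁.2 A (S.meet _ i _ x₁.1.1 n1 A a1 a2) a2)
        (ax l₂ x₂.1.1 x₂.1.2 x₂.2 B (S.meet _ i _ x₂.1.1 n2 B b1 b2) b2)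
    have all : ∀ l : L, σ • l = l → τ • l = l := fun l i => by
      by_cases o : Z ∈ l
      swap
      · exact off l i o
      obtain ⟨W, ⟨w1, w2⟩, w3, -⟩ := h.sub_pt S i Z Z
      obtain ⟨g, ⟨g1, g2⟩, g3, -⟩ := h.sub_ln S w1 l l
      obtain ⟨g', ⟨g1', g2'⟩, g3', g4⟩ := h.sub_ln S w1 l g
      exact h.fix_line' w3 w2 o (h.fix_point g4 g2' g2
        (off g' g1' fun t => g3' (h.ln_eq w3 g2' t w2 o))
        (off g g1 fun t => g3 (h.ln_eq w3 g2 t w2 o))) (h.fix_point n12 z1 z2 x₁.1.2 x₂.1.2)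
    have : {l : L | σ • l = l ∧ τ • l = l} = {l : L | σ • l = l} := by
      ext l; exact and_iff_left_of_imp (all l)
    rw [this, x.tot] at e
    zify at e kle m2
    nlinarith [mul_nonneg (sub_nonneg.2 kle) (Nat.cast_nonneg (α := ℤ) k)]
  · have e3 : {l : L | σ • l = l ∧ τ • l = l}.ncard = s ^ 2 + s + 1 := e2
    have s2 := T.two
    rw [e3, e1] at e
    rcases k0 with rfl | ⟨p, i, j, o⟩
    · zify at e s2
      nlinarith
    · have := (d p i j o).symm.trans (T.lns p ⟨j, o⟩)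
      rw [this] at e
      zify at e s2
      nlinarith

/-- Involutions of a perfect group act as even permutations. -/
theorem par_of_perfect {G : Type u} {X : Type v} [Group G] [MulAction G X] [Finite X]
    (hG : commutator G = ⊤) (O : Set X) (inv : ∀ g : G, ∀ p ∈ O, g • p ∈ O) (t : G)
    (e : t * t = 1) : 4 ∣ {p : X | p ∈ O ∧ t • p ≠ p}.ncard := by
  classical
  let S : SubMulAction G X := ⟨O, fun g _ i => inv g _ i⟩
  have := Fintype.ofFinite S
  have a := Abelianization.commutator_subset_ker (Equiv.Perm.sign.comp (MulAction.toPermHom G S))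
    (hG ▸ Subgroup.mem_top t)
  have b : MulAction.toPermHom G S t ^ 2 = 1 := by rw [← map_pow, sq, e, map_one]
  have c := Equiv.Perm.sign_of_pow_two_eq_one b
  rw [MonoidHom.mem_ker, MonoidHom.comp_apply, c, neg_one_pow_eq_one_iff_even (by decide),
    ← Nat.card_eq_fintype_card, ← Nat.card_eq_fintype_card] at a
  have d : Nat.card S = O.ncard := Nat.card_coe_set_eq O
  have f : Nat.card (Function.fixedPoints (MulAction.toPermHom G S t)) =
      {p : X | p ∈ O ∧ t • p = p}.ncard := by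
    rw [← Nat.card_coe_set_eq]
    exact Nat.card_congr ⟨fun x => ⟨x.1.1, x.1.2, congrArg Subtype.val x.2⟩,
      fun x => ⟨⟨x.1, x.2.1⟩, Subtype.ext x.2.2⟩, fun _ => rfl, fun _ => rfl⟩
  have g := mod_fix O t Nat.prime_two ((sq t).trans e) (inv t)
  have i : {p : X | p ∈ O ∧ t • p ≠ p} = O \ {p : X | p ∈ O ∧ t • p = p} := by
    ext p; simp only [Set.mem_ofPred_eq, Set.mem_sdiff]; tauto
  have j := Set.ncard_sdiff_add_ncard_of_subset
    (s := {p : X | p ∈ O ∧ t • p = p}) (t := O) fun _ k => k.1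
  rw [d, f, Nat.even_iff] at a
  rw [i]
  rw [Nat.ModEq] at g
  omega

theorem Pl.oh {G : Type u} {P : Type v} {L : Type w} [Group G] [MulAction G P] [MulAction G L]
    [Membership P L] {n : ℕ} {O : Set P} (h : Pl G P L n O) [Finite G] [Finite P] [Finite L]
    (b3 : JobB3.{u, v, w}) : OH (HH P L : Set G) where
  inv := fun _ ⟨_, _, x⟩ => x.ord
  conj := fun _ ⟨_, _, x⟩ _ c => by
    obtain ⟨g, rfl⟩ := isConj_iff.1 c
    exact ⟨_, _, h.hom_conj x g⟩
  meet := fun s t a b ne c => by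
    have o : orderOf (s * t) = 2 := by
      have s1 : s ^ 2 = 1 := a ▸ pow_orderOf_eq_one s
      have t1 : t ^ 2 = 1 := b ▸ pow_orderOf_eq_one t
      refine orderOf_eq_prime (by rw [c.mul_pow, s1, t1, one_mul]) fun q => ne ?_
      rw [eq_inv_of_mul_eq_one_left q, inv_eq_of_mul_eq_one_left ((sq t).symm.trans t1)]
    rcases h.dich a with x | ⟨_, x⟩
    · exact .inl x
    rcases h.dich b with y | ⟨_, y⟩
    · exact .inr (.inl y)
    rcases h.dich o with z | ⟨_, z⟩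
    · exact .inr (.inr z)
    exact (b3 G P L n O h s t _ _ _ x y z c).elim
  mul := fun _ ⟨C, l, x⟩ _ ⟨D, k, y⟩ ne c => by
    obtain ⟨E, e1, e2⟩ := h.meet l k
    obtain ⟨j, j1, j2⟩ := h.join C D
    exact ⟨E, j, h.hom_mul x y ne c e1 e2 j1 j2⟩
  quad := fun _ ⟨C, _, x⟩ _ ⟨D, _, y⟩ _ ⟨_, _, z⟩ ne c n1 n2 c1 c2 => by
    obtain ⟨j, j1, j2⟩ := h.join C D
    exact h.hom_cen z (h.hom_mul x y ne c (h.hom_inc x z n1.symm c1.symm)
      (h.hom_inc y z n2.symm c2.symm) j1 j2)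
  root := fun _ _ a b c => h.root a b c
  odd := fun _ _ _ _ a b c d e f g i j => h.odd_any a b c d e f g i j

end H51.OV
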