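import Cfsg.Agent.H51.OVKit

/-! OV-CORE and OV-DICH: an involution is a homology or a Baer involution. -/

set_option autoImplicit false
set_option linter.unusedSectionVars false

namespace H51.OV

universe u v w

namespace Pl

variable {G : Type u} {P : Type v} {L : Type w} [Group G] [MulAction G P] [MulAction G L]
  [Membership P L] {n : ℕ} {O : Set P} (h : Pl G P L n O) [Finite P] [Finite L]
  {F : Set P} {Λ : Set L} {m : ℕ} {τ : G} (S : Sub F Λ m)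

include h S

theorem sub_pt {l : L} (hl : l ∈ Λ) (a b : P) : ∃ p, (p ∈ F ∧ p ∈ l) ∧ p ≠ a ∧ p ≠ b :=
  exists_ne2 (S := {p | p ∈ F ∧ p ∈ l}) (by have := S.two; rw [S.pts l hl]; omega) a b

theorem sub_ln {p : P} (hp : p ∈ F) (a b : L) : ∃ l, (l ∈ Λ ∧ p ∈ l) ∧ l ≠ a ∧ l ≠ b :=
  exists_ne2 (S := {l : L | l ∈ Λ ∧ p ∈ l}) (by have := S.two; rw [S.lns p hp]; omega) a b

theorem core_fix (e : τ * τ = 1) (iF : ∀ p ∈ F, τ • p ∈ F) : ∃ Y ∈ F, τ • Y = Y := by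
  by_contra nf
  push Not at nf
  have k : ∀ X ∈ F, ∃ l ∈ Λ, τ • l = l ∧ X ∈ l := fun X x => by
    obtain ⟨l, a, b⟩ := h.join X (τ • X)
    exact ⟨l, S.join _ x _ (iF _ x) (nf X x).symm l a b, h.fix_swap e (nf X x) a b, a⟩
  obtain ⟨X, x⟩ := S.ne
  obtain ⟨l, a, b, c⟩ := k X x
  obtain ⟨l', ⟨d, f⟩, g, -⟩ := h.sub_ln S x l l
  obtain ⟨X', ⟨i, j⟩, o, -⟩ := h.sub_pt S d X X
  obtain ⟨l₂, a', b', c'⟩ := k X' i
  have ne : l ≠ l₂ := fun q => o (h.pt_eq g j (q ▸ c') f c)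
  obtain ⟨Y, y1, y2⟩ := h.meet l l₂
  exact nf Y (S.meet _ a _ a' ne Y y1 y2) (h.fix_point ne y1 y2 b b')

theorem core_off (e : τ * τ = 1) (iF : ∀ p ∈ F, τ • p ∈ F) {Y : P} (y : Y ∈ F) (fy : τ • Y = Y)
    {l₀ : L} (a : l₀ ∈ Λ) (b : Y ∈ l₀) (c : τ • l₀ ≠ l₀) :
    {l : L | (l ∈ Λ ∧ τ • l = l) ∧ Y ∉ l}.ncard = m := by
  choose f f1 f2 using h.meet l₀
  have inj : Set.InjOn f {l : L | (l ∈ Λ ∧ τ • l = l) ∧ Y ∉ l} := fun l x k z q => by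
    by_contra ne
    exact c (h.fix_line' (fun j : Y = f l => x.2 (j ▸ f2 l)) b (f1 l) fy
      (h.fix_point ne (f2 l) (q ▸ f2 k) x.1.2 z.1.2))
  have im : f '' {l : L | (l ∈ Λ ∧ τ • l = l) ∧ Y ∉ l} = {p | p ∈ F ∧ p ∈ l₀} \ {Y} := by
    ext X
    constructor
    · rintro ⟨l, x, rfl⟩
      exact ⟨⟨S.meet _ a _ x.1.1 (fun q => x.2 (q ▸ b)) _ (f1 l) (f2 l), f1 l⟩,
        fun q : f l = Y => x.2 (q ▸ f2 l)⟩
    · rintro ⟨⟨x1, x2⟩, x3⟩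
      have nf : τ • X ≠ X := fun q => c (h.fix_line' x3 x2 b q fy)
      obtain ⟨l, i, j⟩ := h.join X (τ • X)
      have fl := h.fix_swap e nf i j
      have ne : l₀ ≠ l := fun q => c (q ▸ fl)
      exact ⟨l, ⟨⟨S.join _ x1 _ (iF _ x1) nf.symm l i j, fl⟩,
        fun q => ne (h.ln_eq x3 x2 b i q)⟩, h.pt_eq ne (f1 l) (f2 l) x2 i⟩
  rw [← inj.ncard_image, im, Set.ncard_sdiff_singleton_of_mem (by exact ⟨y, b⟩), S.pts _ a]
  rfl

theorem core_on {Y : P} (y : Y ∈ F) (fy : τ • Y = Y) {l : L} (a : l ∈ Λ) (b : τ • l = l)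
    (c : Y ∉ l) : {p : P | (p ∈ F ∧ τ • p = p) ∧ p ∈ l}.ncard =
      {k : L | (k ∈ Λ ∧ τ • k = k) ∧ Y ∈ k}.ncard := by
  choose f f1 f2 using h.join Y
  have inj : Set.InjOn f {p : P | (p ∈ F ∧ τ • p = p) ∧ p ∈ l} := fun p x q z e => by
    by_contra ne
    exact c (h.ln_eq ne (f2 p) (e ▸ f2 q) x.2 z.2 ▸ f1 p)
  rw [← inj.ncard_image]
  congr 1
  ext k
  constructor
  · rintro ⟨p, x, rfl⟩
    have ne : Y ≠ p := fun q => c (q ▸ x.2)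
    exact ⟨⟨S.join _ y _ x.1.1 ne _ (f1 p) (f2 p), h.fix_line' ne (f1 p) (f2 p) fy x.1.2⟩, f1 p⟩
  · rintro ⟨x, z⟩
    have ne : k ≠ l := fun q => c (q ▸ z)
    obtain ⟨p, i, j⟩ := h.meet k l
    exact ⟨p, ⟨⟨S.meet _ x.1 _ a ne p i j, h.fix_point ne i j x.2 b⟩, j⟩,
      h.ln_eq (fun q : Y = p => c (q ▸ j)) (f1 p) (f2 p) z i⟩

omit h S in
theorem core_split (B : Set L) (Y : P) :
    B.ncard = {k : L | k ∈ B ∧ Y ∈ k}.ncard + {k : L | k ∈ B ∧ Y ∉ k}.ncard := by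
  rw [← Set.ncard_union_eq (Set.disjoint_left.2 fun _ a b => b.2 a.2)]
  congr 1
  ext k
  simp only [Set.mem_union, Set.mem_ofPred_eq]
  tauto

omit S in
/-- The number of lines of a closed configuration seen from one line. -/
theorem core_tot {A : Set P} {B : Set L} {j : ℕ} {l : L} (a : l ∈ B)
    (mt : ∀ k ∈ B, k ≠ l → ∀ p, p ∈ k → p ∈ l → p ∈ A)
    (c : {p : P | p ∈ A ∧ p ∈ l}.ncard = j + 1)
    (d : ∀ p ∈ A, {k : L | k ∈ B ∧ p ∈ k}.ncard = j + 1) : B.ncard = j ^ 2 + j + 1 := by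
  have f := flags (Set.toFinite {p : P | p ∈ A ∧ p ∈ l}).toFinset (Set.toFinite (B \ {l})).toFinset
  rw [Finset.sum_const_nat (m := j), Finset.sum_const_nat (m := 1), ← Set.ncard_eq_toFinset_card,
    ← Set.ncard_eq_toFinset_card, c, Set.ncard_sdiff_singleton_of_mem a] at f
  · have := (Set.ncard_pos (s := B)).2 ⟨l, a⟩
    nlinarith [Nat.sub_add_cancel this]
  · intro k hk
    simp only [Set.Finite.mem_toFinset] at hk ⊢
    obtain ⟨p, i, o⟩ := h.meet k l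
    rw [Set.ncard_eq_one]
    refine ⟨p, Set.eq_singleton_iff_unique_mem.2 ⟨⟨⟨mt k hk.1 hk.2 p i o, o⟩, i⟩, fun q x => ?_⟩⟩
    exact h.pt_eq hk.2 x.2 x.1.2 i o
  · intro p hp
    simp only [Set.Finite.mem_toFinset] at hp ⊢
    have : {k : L | k ∈ B \ {l} ∧ p ∈ k} = {k : L | k ∈ B ∧ p ∈ k} \ {l} := by
      ext k; simp only [Set.mem_ofPred_eq, Set.mem_sdiff]; tauto
    rw [this, Set.ncard_sdiff_singleton_of_mem (by exact ⟨a, hp.2⟩), d p hp.1]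
    rfl

theorem core (e : τ * τ = 1) (iF : ∀ p ∈ F, τ • p ∈ F) :
    (∃ Y ∈ F, τ • Y = Y ∧ ∀ l ∈ Λ, Y ∈ l → τ • l = l) ∨
    ∃ s, m = s ^ 2 ∧ {l : L | l ∈ Λ ∧ τ • l = l}.ncard = s ^ 2 + s + 1 ∧
      Sub {p : P | p ∈ F ∧ τ • p = p} {l : L | l ∈ Λ ∧ τ • l = l} s := by
  refine or_iff_not_imp_left.2 fun nc => ?_
  push Not at nc
  set B := {l : L | l ∈ Λ ∧ τ • l = l} with hB
  have off : ∀ Y ∈ F, τ • Y = Y → {l : L | l ∈ B ∧ Y ∉ l}.ncard = m := fun Y y fy => by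
    obtain ⟨l, a, b, c⟩ := nc Y y fy
    exact h.core_off S e iF y fy a b c
  have on : ∀ Y ∈ F, τ • Y = Y → {l : L | l ∈ B ∧ Y ∈ l}.ncard = B.ncard - m := fun Y y fy => by
    have := core_split B Y
    rw [off Y y fy] at this
    omega
  have m2 := S.two
  obtain ⟨Y, y, fy⟩ := h.core_fix S e iF
  have miss : ∀ l ∈ B, ∃ Z ∈ F, τ • Z = Z ∧ Z ∉ l := fun l a => by
    by_contra k
    push Not at k
    obtain ⟨l₁, x₁⟩ := Set.nonempty_of_ncard_ne_zero (s := {l : L | l ∈ B ∧ Y ∉ l})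
      (by rw [off Y y fy]; omega)
    have n1 : l₁ ≠ l := fun q => x₁.2 (q ▸ k Y y fy)
    obtain ⟨X, i, j⟩ := h.meet l₁ l
    have x := S.meet _ x₁.1.1 _ a.1 n1 X i j
    have fx := h.fix_point n1 i j x₁.1.2 a.2
    obtain ⟨l₂, x₂⟩ := Set.nonempty_of_ncard_ne_zero (s := {l : L | l ∈ B ∧ X ∉ l})
      (by rw [off X x fx]; omega)
    have n2 : l₂ ≠ l := fun q => x₂.2 (q ▸ j)
    have all : ∀ p ∈ B, ∀ q ∈ B, p ≠ l → q ≠ l → ∀ Z, Z ∈ p → Z ∈ l → Z ∈ q := by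
      intro p hp q hq pl ql Z z1 z2
      by_cases pq : p = q
      · exact pq ▸ z1
      obtain ⟨W, w1, w2⟩ := h.meet p q
      have := k W (S.meet _ hp.1 _ hq.1 pq W w1 w2) (h.fix_point pq w1 w2 hp.2 hq.2)
      exact h.pt_eq pl w1 this z1 z2 ▸ w2
    exact x₂.2 (all l₁ x₁.1 l₂ x₂.1 n1 n2 X i j)
  have pts : ∀ l ∈ B, {p : P | (p ∈ F ∧ τ • p = p) ∧ p ∈ l}.ncard = B.ncard - m := fun l a => by
    obtain ⟨Z, z, fz, k⟩ := miss l a
    rw [h.core_on S z fz a.1 a.2 k]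
    exact on Z z fz
  have mt : ∀ l ∈ B, ∀ k ∈ B, l ≠ k → ∀ p : P, p ∈ l → p ∈ k → p ∈ F ∧ τ • p = p :=
    fun l a k b ne p i j => ⟨S.meet _ a.1 _ b.1 ne p i j, h.fix_point ne i j a.2 b.2⟩
  obtain ⟨l₁, x₁, l₂, x₂, n12⟩ := (Set.one_lt_ncard (s := {l : L | l ∈ B ∧ Y ∉ l})).1
    (by rw [off Y y fy]; omega)
  obtain ⟨s, hs⟩ : ∃ s, B.ncard - m = s + 1 := by
    obtain ⟨W, w1, w2⟩ := h.meet l₁ l₂
    have := (Set.ncard_pos (s := {p : P | (p ∈ F ∧ τ • p = p) ∧ p ∈ l₁})).2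
      ⟨W, mt _ x₁.1 _ x₂.1 n12 W w1 w2, w1⟩
    rw [pts _ x₁.1] at this
    exact ⟨B.ncard - m - 1, by omega⟩
  rw [hs] at pts on
  have t := h.core_tot (A := {p : P | p ∈ F ∧ τ • p = p}) x₁.1
    (fun k a b p i j => mt k a _ x₁.1 b p i j) (pts _ x₁.1) fun p a => on p a.1 a.2
  have ms : m = s ^ 2 := by omega
  refine ⟨s, ms, t, fun p a q b ne l i j => ⟨S.join _ a.1 _ b.1 ne l i j,
    h.fix_line' ne i j a.2 b.2⟩, mt, pts, fun p a => on p a.1 a.2, ?_, Y, y, fy⟩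
  by_contra k
  obtain rfl | rfl : s = 0 ∨ s = 1 := by omega
  all_goals omega

end Pl

theorem jobCore : JobCore.{u, v, w} :=
  fun _ _ _ _ _ _ _ _ _ _ _ _ h _ _ _ _ S e iF => h.core S e iF

namespace Pl

variable {G : Type u} {P : Type v} {L : Type w} [Group G] [MulAction G P] [MulAction G L]
  [Membership P L] {n : ℕ} {O : Set P} (h : Pl G P L n O) [Finite P] [Finite L]

include h

theorem sub_univ : Sub (Set.univ : Set P) (Set.univ : Set L) n where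
  join := fun _ _ _ _ _ _ _ _ => trivial
  meet := fun _ _ _ _ _ _ _ _ => trivial
  pts := fun l _ => by simpa using h.pts l
  lns := fun p _ => by simpa using h.lns p
  two := by have := h.big; omega
  ne := (Set.nonempty_of_ncard_ne_zero (s := O) (by rw [h.card]; omega)).mono (Set.subset_univ _)

/-- An involution with a centre is a homology. -/
theorem hom_of_centre {a : G} (o : orderOf a = 2) {C : P} (fC : a • C = C)
    (hC : ∀ l : L, C ∈ l → a • l = l) : ∃ l : L, Hom a C l := by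
  have e : a * a = 1 := by rw [← sq, ← o, pow_orderOf_eq_one]
  have a1 : a ≠ 1 := fun q => by simp [q] at o
  have k : ∀ l : L, C ∈ l → ∃ Z, (Z ∈ l ∧ Z ≠ C) ∧ a • Z = Z := fun l c => by
    refine exists_fix ({p | p ∈ l} \ {C}) a e (fun x i => ⟨h.mem_of_fix (hC l c) i.1, fun q => i.2 ?_⟩) ?_
    · exact smul_left_cancel a (q.trans fC.symm)
    · rw [Set.ncard_sdiff_singleton_of_mem (by exact c), h.pts]
      exact h.odd
  have ax : ∀ l : L, a • l = l → C ∉ l → ∀ p, p ∈ l → a • p = p := fun l f c p i => by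
    obtain ⟨q, x, y⟩ := h.join C p
    exact h.fix_point (fun j : q = l => c (j ▸ x)) y i (hC q x) f
  obtain ⟨l₀, -⟩ := h.join C C
  obtain ⟨l₁, c₁, -⟩ := h.exists_ln C l₀ l₀ l₀
  obtain ⟨l₂, c₂, n₂, -⟩ := h.exists_ln C l₁ l₁ l₁
  obtain ⟨Z₁, ⟨i₁, j₁⟩, f₁⟩ := k l₁ c₁
  obtain ⟨Z₂, ⟨i₂, j₂⟩, f₂⟩ := k l₂ c₂
  have nz : Z₁ ≠ Z₂ := fun q => n₂ (h.ln_eq j₂ i₂ c₂ (q ▸ i₁) c₁)
  obtain ⟨l, x, y⟩ := h.join Z₁ Z₂
  have fl := h.fix_line' nz x y f₁ f₂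
  have nm : C ∉ l := fun q => n₂ ((h.ln_eq j₂ i₂ c₂ y q).trans (h.ln_eq j₁ x q i₁ c₁))
  have fp : ∀ p : P, a • p = p ↔ p = C ∨ p ∈ l := fun p => by
    refine ⟨fun f => ?_, fun f => f.elim (fun q => q ▸ fC) (ax l fl nm p)⟩
    by_contra q
    push Not at q
    refine a1 (h.two_centres q.1 (fun k i => ?_) hC)
    obtain ⟨X, s, t⟩ := h.meet k l
    exact h.fix_line' (fun j : p = X => q.2 (j ▸ t)) i s f (ax l fl nm X t)
  refine ⟨l, o, nm, fp, fun k => ⟨fun f => ?_, fun f => f.elim (fun q => q ▸ fl) (hC k)⟩⟩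
  by_contra q
  push Not at q
  obtain ⟨X, s, t⟩ := h.meet k l
  obtain ⟨W, i, j, -⟩ := h.exists_pt k X X X
  rcases (fp W).1 (ax k f q.2 W i) with r | r
  · exact q.2 (r ▸ i)
  · exact j (h.pt_eq q.1 i r s t)

theorem dich {a : G} (o : orderOf a = 2) : a ∈ (HH P L : Set G) ∨ ∃ m, Baer P L n a m := by
  have e : a * a = 1 := by rw [← sq, ← o, pow_orderOf_eq_one]
  rcases h.core h.sub_univ e fun _ _ => trivial with ⟨C, -, f, c⟩ | ⟨s, x, y, z⟩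
  · exact .inl ⟨C, h.hom_of_centre o f fun l => c l trivial⟩
  · exact .inr ⟨s, o, x, by simpa using z, by simpa using y⟩

end Pl

theorem jobDich : JobDich.{u, v, w} := fun _ _ _ _ _ _ _ _ _ _ _ _ h _ o => h.dich o

end H51.OV
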