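import Cfsg.Agent.H51.OVCore

/-! OV-HOM and OV-RO: involutory homologies fixing an oval. -/

set_option autoImplicit false
set_option linter.unusedSectionVars false

namespace H51.OV

universe u v w

variable {G : Type u} {P : Type v} {L : Type w} [Group G] [MulAction G P] [MulAction G L]
  [Membership P L] {n : ℕ} {O : Set P}

namespace Hom

variable {a : G} {C : P} {l : L} (x : Hom a C l)

include x

theorem sq1 : a * a = 1 := by rw [← sq, ← x.ord, pow_orderOf_eq_one]

theorem ne1 : a ≠ 1 := fun q => by simpa [q] using x.ord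

theorem fC : a • C = C := (x.fp C).2 (.inl rfl)

theorem fa : a • l = l := (x.fl l).2 (.inl rfl)

theorem fon {p : P} (m : p ∈ l) : a • p = p := (x.fp p).2 (.inr m)

theorem fth {k : L} (m : C ∈ k) : a • k = k := (x.fl k).2 (.inr m)

end Hom

namespace Pl

variable (h : Pl G P L n O) [Finite P] [Finite L]

include h

theorem hom_nO {a : G} {C : P} {l : L} (x : Hom a C l) : C ∉ O := fun c => by
  obtain ⟨ψ, b, -, -, d⟩ := h.psi c
  exact x.ne1 (h.fix_O fun R r => (d R r a x.fC).1 (x.fth (b.mapsTo r)))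

theorem hom_cen {a b : G} {C : P} {l k : L} (x : Hom a C l) (y : Hom b C k) : a = b := by
  have key : ∀ {a b : G} {l k : L}, Hom a C l → Hom b C k → ∀ R ∈ O, a • R ≠ R → b • R = a • R := by
    intro a b l k x y R r nf
    obtain ⟨j, c, d⟩ := h.join C R
    have m1 := h.mem_of_fix (x.fth c) d
    have m2 := h.mem_of_fix (y.fth c) d
    have r1 := h.inv a R r
    rcases h.arc j R r _ r1 _ (h.inv b R r) d m1 m2 with e | e | e
    · exact (nf e.symm).elim
    · exfalso
      have m3 := h.mem_of_fix (y.fth c) m1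
      have f : b • a • R = a • R := by
        rcases h.arc j R r _ r1 _ (h.inv b _ r1) d m1 m3 with f | f | f
        · exact (nf f.symm).elim
        · exact (nf (smul_left_cancel b (f.symm.trans e))).elim
        · exact f.symm
      have n0 := h.hom_nO y
      have i1 := ((y.fp _).1 e.symm).resolve_left fun q => n0 (q ▸ r)
      have i2 := ((y.fp _).1 f).resolve_left fun q => n0 (q ▸ r1)
      exact y.nm (h.ln_eq nf m1 d i2 i1 ▸ c)
    · exact e.symm
  have e : ∀ R ∈ O, a • R = b • R := fun R r => by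
    by_cases p : a • R = R
    · by_cases q : b • R = R
      · rw [p, q]
      · exact key y x R r q
    · exact (key x y R r p).symm
  have := h.fix_O (g := b⁻¹ * a) fun R r => by rw [mul_smul, e R r, inv_smul_smul]
  exact (inv_mul_eq_one.1 this).symm

theorem hom_conj {a : G} {C : P} {l : L} (x : Hom a C l) (g : G) :
    Hom (g * a * g⁻¹) (g • C) (g • l) where
  ord := by rw [← x.ord]; exact (MulAut.conj g).orderOf_eq a
  nm := fun m => x.nm ((h.coll g _ _).1 m)
  fp := fun p => by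
    rw [mul_smul, mul_smul, smul_eq_iff_eq_inv_smul, x.fp, inv_smul_eq_iff, ← h.coll g,
      smul_inv_smul]
  fl := fun k => by
    rw [mul_smul, mul_smul, smul_eq_iff_eq_inv_smul, x.fl, inv_smul_eq_iff, ← h.coll g,
      smul_inv_smul]

theorem hom_uC {a : G} {C D : P} {l k : L} (x : Hom a C l) (y : Hom a D k) : C = D := by
  by_contra ne
  obtain ⟨p, a1, b1, -⟩ := h.exists_ln D l l l
  obtain ⟨q, a2, b2, c2, -⟩ := h.exists_ln D l p p
  exact ne (h.pt_eq c2 (((x.fl q).1 (y.fth a2)).resolve_left b2)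
    (((x.fl p).1 (y.fth a1)).resolve_left b1) a2 a1)

theorem hom_ul {a : G} {C D : P} {l k : L} (x : Hom a C l) (y : Hom a D k) : l = k :=
  (((x.fl k).1 y.fa).resolve_right fun q => y.nm (h.hom_uC x y ▸ q)).symm

theorem hom_fixC {a g : G} {C : P} {l : L} (x : Hom a C l) (c : Commute g a) : g • C = C := by
  have := h.hom_conj x g
  rw [c.eq, mul_inv_cancel_right] at this
  exact h.hom_uC this x

theorem hom_fixl {a g : G} {C : P} {l : L} (x : Hom a C l) (c : Commute g a) : g • l = l := by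
  have := h.hom_conj x g
  rw [c.eq, mul_inv_cancel_right] at this
  exact h.hom_ul this x

theorem hom_com {a g : G} {C : P} {l : L} (x : Hom a C l) (c : g • C = C) : Commute g a := by
  have := h.hom_conj x g
  rw [c] at this
  exact mul_inv_eq_iff_eq_mul.1 (h.hom_cen this x)

theorem hom_inc {a b : G} {C D : P} {l k : L} (x : Hom a C l) (y : Hom b D k) (ne : a ≠ b)
    (c : Commute a b) : D ∈ l :=
  ((x.fp D).1 (h.hom_fixC y c)).resolve_left fun q => ne (h.hom_cen x (q ▸ y))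

theorem hom_ax {a b : G} {C D : P} {l : L} (x : Hom a C l) (y : Hom b D l) : a = b := by
  have f : ∀ p, p ∈ l → (a * b) • p = p := fun p m => by rw [mul_smul, y.fon m, x.fon m]
  have e : a * b * (a * b) = 1 := h.fix_O fun R r => by
    by_cases q : (a * b) • R = R
    · rw [mul_smul, q, q]
    have nl : R ∉ l := fun m => q (f R m)
    obtain ⟨j, c, d⟩ := h.join R ((a * b) • R)
    obtain ⟨X, s, t⟩ := h.meet j l
    have fj : (a * b) • j = j :=
      h.fix_line (fun i : R = X => nl (i ▸ t)) c s d ((f X t).symm ▸ s)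
    have r1 := h.inv (a * b) R r
    rw [mul_smul]
    rcases h.arc j R r _ r1 _ (h.inv (a * b) _ r1) c d (h.mem_of_fix fj d) with i | i | i
    · exact (q i.symm).elim
    · exact i.symm
    · exact (q (smul_left_cancel (a * b) i).symm).elim
  have c : Commute a b := by
    have := eq_inv_of_mul_eq_one_left e
    rwa [mul_inv_rev, inv_eq_of_mul_eq_one_left x.sq1, inv_eq_of_mul_eq_one_left y.sq1] at this
  by_contra ne
  exact y.nm (h.hom_inc x y ne c)

theorem hom_fixO {a : G} {C : P} {l : L} (x : Hom a C l) :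
    {p : P | p ∈ O ∧ a • p = p} = {p : P | p ∈ O ∧ p ∈ l} := by
  ext p
  exact and_congr_right fun r => (x.fp p).trans (or_iff_right fun q => h.hom_nO x (q ▸ r))

theorem hom_par {a : G} {C : P} {l : L} (x : Hom a C l) :
    (n + 1) % 4 = {p : P | p ∈ O ∧ p ∈ l}.ncard := by
  have := h.par' x.sq1
  have := h.le_two l
  rw [h.hom_fixO x] at *
  omega

theorem hom_mul {a b : G} {C D E : P} {l k j : L} (x : Hom a C l) (y : Hom b D k) (ne : a ≠ b)
    (c : Commute a b) (e1 : E ∈ l) (e2 : E ∈ k) (cj : C ∈ j) (dj : D ∈ j) : Hom (a * b) E j := by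
  have dl := h.hom_inc x y ne c
  have ck := h.hom_inc y x ne.symm c.symm
  have cd : C ≠ D := fun q => x.nm (q ▸ dl)
  have lk : l ≠ k := fun q => x.nm (q ▸ ck)
  have sub : ∀ p, (a * b) • p = p → p = E ∨ p ∈ j := fun p f => by
    have ab : b • p = a • p := by
      rw [← smul_left_cancel_iff a, ← mul_smul, f, ← mul_smul, x.sq1, one_smul]
    by_cases q : a • p = p
    · rcases (x.fp p).1 q with r | r
      · exact .inr (r ▸ cj)
      rcases (y.fp p).1 (ab.trans q) with s | s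
      · exact .inr (s ▸ dj)
      · exact .inl (h.pt_eq lk r s e1 e2)
    · obtain ⟨i, s, t⟩ := h.join p (a • p)
      have f1 := (x.fl i).1 (h.fix_swap x.sq1 q s t)
      have f2 := (y.fl i).1 (h.fix_swap y.sq1 (ab ▸ q) s (ab ▸ t))
      exact .inr (h.ln_eq cd (f1.resolve_left fun r => q (x.fon (r ▸ s)))
        (f2.resolve_left fun r => (ab ▸ q) (y.fon (r ▸ s))) cj dj ▸ s)
  have two : ∀ i : L, 3 ≤ {p : P | (a * b) • p = p ∧ p ∈ i}.ncard → i = j := fun i t => by
    obtain ⟨X, s1, s2⟩ := h.meet i j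
    obtain ⟨p, ⟨f, m⟩, n1, n2⟩ := exists_ne2 t E X
    exact h.ln_eq n2 m s1 ((sub p f).resolve_left n1) s2
  have o : orderOf (a * b) = 2 := by
    refine orderOf_eq_prime ?_ fun q => ne ?_
    · rw [c.mul_pow, sq, sq, x.sq1, y.sq1, one_mul]
    · rw [eq_inv_of_mul_eq_one_left q, inv_eq_of_mul_eq_one_left y.sq1]
  have fE : (a * b) • E = E := by rw [mul_smul, y.fon e2, x.fon e1]
  have ej : E ∉ j := fun q =>
    y.nm (h.pt_eq (fun r : l = j => x.nm (r ▸ cj)) e1 q dl dj ▸ e2)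
  rcases h.dich o with ⟨E', j', z⟩ | ⟨m, z⟩
  · obtain rfl : j' = j := two j' (by
      have : {p : P | (a * b) • p = p ∧ p ∈ j'} = {p | p ∈ j'} := by
        ext p; exact and_iff_right_of_imp z.fon
      have big := h.big
      rw [this, h.pts]; omega)
    exact ((z.fp E).1 fE).resolve_right ej ▸ z
  · obtain ⟨i, ⟨f, -⟩, t, -⟩ := h.sub_ln z.sub fE j j
    have := z.sub.two
    exact (t (two i (by have := z.sub.pts i f; simp only [Set.mem_ofPred_eq] at this; omega))).elim

theorem hf : HF (G := G) P L O where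
  nO := fun _ _ _ x => h.hom_nO x
  cen := fun _ _ _ _ _ x y => h.hom_cen x y
  ax := fun _ _ _ _ _ x y => h.hom_ax x y
  conj := fun _ g _ _ x => h.hom_conj x g
  fixC := fun _ _ _ _ x c => h.hom_fixC x c
  fixl := fun _ _ _ _ x c => h.hom_fixl x c
  com := fun _ _ _ _ x c => h.hom_com x c
  inc := fun _ _ _ _ _ _ x y ne c => h.hom_inc x y ne c
  mul := fun _ _ _ _ _ _ _ _ x y ne c e1 e2 cj dj => h.hom_mul x y ne c e1 e2 cj dj
  sec := fun _ _ _ x => by
    have := h.hom_par x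
    have := h.le_two
    have := Nat.odd_iff.1 h.odd
    omega

theorem root {x b : G} (hx : x * x ∈ (HH P L : Set G)) (hb : b ∈ (HH P L : Set G))
    (c : Commute x b) : b = x * x := by
  obtain ⟨C, l, p⟩ := hx
  obtain ⟨D, k, q⟩ := hb
  by_contra ne
  have cc : Commute (x * x) b := c.mul_left c
  have dl := h.hom_inc p q (Ne.symm ne) cc
  have cd : C ≠ D := fun q => p.nm (q ▸ dl)
  obtain ⟨j, cj, dj⟩ := h.join C D
  have fC := h.hom_fixC p ((Commute.refl x).mul_right (Commute.refl x))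
  have fD := h.hom_fixC q c
  have fj := h.fix_line' cd cj dj fC fD
  have d := four_dvd (({r | r ∈ j} \ {C}) \ {D}) x p.sq1
    (fun r i => ⟨⟨h.mem_of_fix fj i.1.1, fun e => i.1.2 (smul_left_cancel x (e.trans fC.symm))⟩,
      fun e => i.2 (smul_left_cancel x (e.trans fD.symm))⟩)
    fun r i f => ((p.fp r).1 f).elim i.1.2 fun m =>
      i.2 (h.pt_eq (fun e : j = l => p.nm (e ▸ cj)) i.1.1 m dj dl)
  rw [Set.ncard_sdiff_singleton_of_mem (by exact ⟨dj, cd.symm⟩),
    Set.ncard_sdiff_singleton_of_mem (by exact cj), h.pts] at d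
  have t := h.hom_par q
  have big := h.big
  obtain ⟨R, R', rr, e⟩ := Set.ncard_eq_two.1 (show {p : P | p ∈ O ∧ p ∈ k}.ncard = 2 by omega)
  have fk := h.hom_fixl q c
  have mem : ∀ r, (r ∈ O ∧ r ∈ k) ↔ r = R ∨ r = R' := fun r => Set.ext_iff.1 e r
  have fx : ∀ r, r ∈ O ∧ r ∈ k → r ∈ l := fun r i => by
    have i1 : x • r ∈ O ∧ x • r ∈ k := ⟨h.inv _ _ i.1, h.mem_of_fix fk i.2⟩
    have f : (x * x) • r = r := by
      rw [mul_smul]
      rcases h.arc k r i.1 _ i1.1 _ (h.inv x _ i1.1) i.2 i1.2 (h.mem_of_fix fk i1.2) with s | s | s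
      · rw [← s, ← s]
      · exact s.symm
      · rw [← s, ← smul_left_cancel x s]
    exact ((p.fp r).1 f).resolve_left fun s => h.hom_nO p (s ▸ i.1)
  have r1 := (mem R).2 (.inl rfl)
  have r2 := (mem R').2 (.inr rfl)
  obtain rfl := h.ln_eq rr r1.2 r2.2 (fx R r1) (fx R' r2)
  exact q.nm dl

theorem odd_prime {y s z z' : G} {r : ℕ} (hr : r.Prime) (r2 : r ≠ 2) (o : orderOf y = r)
    (hs : s ∈ (HH P L : Set G)) (hz : z ∈ (HH P L : Set G)) (hz' : z' ∈ (HH P L : Set G))
    (e : s * y * s⁻¹ = y⁻¹) (c1 : Commute z s) (c2 : Commute z y) (c3 : Commute z' y) : z = z' := by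
  obtain ⟨C, l, p⟩ := hs
  obtain ⟨Z, m, q⟩ := hz
  obtain ⟨Z', m', q'⟩ := hz'
  have yr : y ^ r = 1 := o ▸ pow_orderOf_eq_one y
  have r3 : 3 ≤ r := by have := hr.two_le; omega
  obtain ⟨i, hi⟩ := hr.odd_of_ne_two r2
  have yy : y * y ≠ 1 := fun k => by
    have := Nat.le_of_dvd two_pos (orderOf_dvd_of_pow_eq_one ((sq y).trans k))
    omega
  have y1 : y ≠ 1 := fun k => yy (by rw [k, one_mul])
  have cj : y ^ (i + 1) * s * (y ^ (i + 1))⁻¹ = y * s := by
    have : (y ^ (i + 1))⁻¹ = s * y ^ (i + 1) * s⁻¹ := by rw [← conj_pow, e, inv_pow]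
    rw [this, mul_assoc, ← mul_assoc s, ← mul_assoc s, p.sq1, one_mul, ← mul_assoc, ← pow_add,
      inv_eq_of_mul_eq_one_left p.sq1, show i + 1 + (i + 1) = r + 1 by omega, pow_succ, yr, one_mul]
  have p' := h.hom_conj p (y ^ (i + 1))
  rw [cj] at p'
  generalize y ^ (i + 1) • C = C' at p'
  generalize y ^ (i + 1) • l = l' at p'
  have ni : ∀ t : G, t * y * t⁻¹ = y⁻¹ → z ≠ t := fun t k j => yy (by
    rw [← j, c2.eq, mul_inv_cancel_right] at k
    exact mul_eq_one_iff_eq_inv.2 k)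
  have n1 := ni s e
  have n2 := ni (y * s) (by rw [mul_inv_rev, mul_assoc y, mul_assoc y, ← mul_assoc _ s⁻¹, e]; group)
  have c4 : Commute z (y * s) := c2.mul_right c1
  have cm := h.hom_inc q p n1 c1
  have cm' := h.hom_inc q p' n2 c4
  have zl := h.hom_inc p q n1.symm c1.symm
  have zl' := h.hom_inc p' q n2.symm c4.symm
  have ss : s ≠ y * s := fun k => y1 (mul_eq_right.1 k.symm)
  have cc : C ≠ C' := fun k => ss (h.hom_cen p (k ▸ p'))
  have ll : l ≠ l' := fun k => ss (h.hom_ax p (k ▸ p'))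
  have sub : ∀ Y, y • Y = Y → Y = Z ∨ Y ∈ m := fun Y f => by
    have ab : (y * s) • Y = s • Y := by
      have : y * s = s * y⁻¹ := by
        rw [← e, ← mul_assoc, ← mul_assoc, p.sq1, one_mul, inv_eq_of_mul_eq_one_left p.sq1]
      rw [this, mul_smul, inv_smul_eq_iff.2 f.symm]
    by_cases k : s • Y = Y
    · rcases (p.fp Y).1 k with r | r
      · exact .inr (r ▸ cm)
      rcases (p'.fp Y).1 (ab.trans k) with t | t
      · exact .inr (t ▸ cm')
      · exact .inl (h.pt_eq ll r t zl zl')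
    · obtain ⟨j, a, b⟩ := h.join Y (s • Y)
      have f1 := (p.fl j).1 (h.fix_swap p.sq1 k a b)
      have f2 := (p'.fl j).1 (h.fix_swap p'.sq1 (ab ▸ k) a (ab ▸ b))
      exact .inr (h.ln_eq cc (f1.resolve_left fun r => k (p.fon (r ▸ a)))
        (f2.resolve_left fun r => (ab ▸ k) (p'.fon (r ▸ a))) cm cm' ▸ a)
  by_contra ne
  have zm := (sub Z' (h.hom_fixC q' c3.symm)).resolve_left fun k => ne (h.hom_cen q (k ▸ q'))
  have c5 := h.hom_com q' (q.fon zm)
  have zm' := h.hom_inc q' q (Ne.symm ne) c5.symm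
  have fm := h.hom_fixl q' c3.symm
  have mm : m' ≠ m := fun k => q.nm (k ▸ zm')
  obtain ⟨X, x1, x2⟩ := h.meet m' m
  have sub' : ∀ Y, Y ∈ m' → y • Y = Y → Y = Z ∨ Y = X := fun Y a f =>
    (sub Y f).imp_right fun b => h.pt_eq mm a b x1 x2
  have t := h.hom_par q
  have t' := h.hom_par q'
  have od := Nat.odd_iff.1 h.odd
  by_cases k : (n + 1) % 4 = 2
  · have a := mod_fix {p : P | p ∈ O ∧ p ∈ m'} y hr yr
      fun x i => ⟨h.inv _ _ i.1, h.mem_of_fix fm i.2⟩
    have b : {x | x ∈ {p : P | p ∈ O ∧ p ∈ m'} ∧ y • x = x}.ncard ≤ 1 := by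
      rw [← Set.ncard_singleton X]
      exact Set.ncard_le_ncard fun Y i =>
        (sub' Y i.1.2 i.2).resolve_left fun j => h.hom_nO q (j ▸ i.1.1)
    rw [← t', k, Nat.ModEq, Nat.mod_eq_of_lt (by omega), Nat.mod_eq_of_lt (by omega)] at a
    omega
  · have a := mod_fix O y hr yr fun x i => h.inv _ _ i
    have b : {x | x ∈ O ∧ y • x = x}.ncard ≤ {p : P | p ∈ O ∧ p ∈ m}.ncard :=
      Set.ncard_le_ncard fun Y i =>
        ⟨i.1, (sub Y i.2).resolve_left fun j => h.hom_nO q (j ▸ i.1)⟩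
    have c := mod_fix {p : P | p ∈ m'} y hr yr fun x i => h.mem_of_fix fm i
    have d : {x | x ∈ {p : P | p ∈ m'} ∧ y • x = x}.ncard ≤ 2 :=
      (Set.ncard_le_ncard (t := {Z, X}) fun Y i => sub' Y i.1 i.2).trans
        ((Set.ncard_insert_le _ _).trans (by simp))
    have f := (Set.ncard_pos (s := {x | x ∈ {p : P | p ∈ m'} ∧ y • x = x})).2
      ⟨Z, zm', h.hom_fixC q c2.symm⟩
    rw [h.card, show {x | x ∈ O ∧ y • x = x}.ncard = 0 by omega] at a
    rw [h.pts] at c
    have := a.symm.trans c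
    rw [Nat.ModEq, Nat.zero_mod, Nat.mod_eq_of_lt (by omega)] at this
    omega

theorem odd_any [Finite G] {y s z z' : G} (y1 : y ≠ 1) (o : Odd (orderOf y))
    (hs : s ∈ (HH P L : Set G)) (hz : z ∈ (HH P L : Set G)) (hz' : z' ∈ (HH P L : Set G))
    (e : s * y * s⁻¹ = y⁻¹) (c1 : Commute z s) (c2 : Commute z y) (c3 : Commute z' y) : z = z' := by
  obtain ⟨r, hr, d⟩ := Nat.exists_prime_and_dvd (mt orderOf_eq_one_iff.1 y1)
  refine h.odd_prime hr (fun k => ?_) (orderOf_pow_orderOf_div (orderOf_pos y).ne' d) hs hz hz'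
    (by rw [← conj_pow, e, inv_pow]) c1 (c2.pow_right _) (c3.pow_right _)
  exact (Nat.not_even_iff_odd.2 o) (even_iff_two_dvd.2 (k ▸ d))

end Pl

theorem jobHom : JobHom.{u, v, w} := fun _ _ _ _ _ _ _ _ _ _ _ _ h => h.hf

theorem jobRoot : JobRoot.{u, v, w} := fun _ _ _ _ _ _ _ _ _ _ _ _ h _ _ _ a b c => h.root a b c

theorem jobOdd : JobOdd.{u, v, w} :=
  fun _ _ _ _ _ _ _ _ _ _ _ _ h _ _ _ _ _ a b c d e f g i j => h.odd_any a b c d e f g i j

end H51.OV
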