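import Cfsg.Agent.H70.R3Spec

/-! Tower R3 (S4881), job Lift: a faithful complex character from a coprime module. -/

set_option autoImplicit false

namespace H51.R3

open Cfsg H28 H90 H34.TL Module Subgroup H70.R3

universe u

theorem gen (p : ℕ) [Fact p.Prime] {E : Type} [Field E] [Finite E] [CharP E p] {X : Type u}
    [Group X] [Finite X] (hX : ¬ p ∣ Nat.card X) (n : ℕ) : ∀ (V : Type u) [AddCommGroup V]
    [Module E V] [Module.Finite E V] [Nontrivial V], finrank E V = n →
    ∀ ρ : Representation E X V,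
      ∃ χ : X → ℂ, IsCharacter X χ ∧ (∀ x ∈ charKer χ, ρ x = 1) ∧ charDegree χ ≤ n := by
  induction n using Nat.strong_induction_on with
  | _ n ih =>
  intro V _ _ _ _ hn ρ
  by_cases h : ∃ W : Submodule E V, (∀ g, W ≤ W.comap (ρ g)) ∧ W ≠ ⊥ ∧ W ≠ ⊤
  · obtain ⟨W, hW, h1, h2⟩ := h
    have := Submodule.nontrivial_iff_ne_bot.2 h1
    have := Submodule.Quotient.nontrivial_iff.2 h2
    have e := W.finrank_quotient_add_finrank
    have a1 : 0 < finrank E W := finrank_pos
    have a2 : 0 < finrank E (V ⧸ W) := finrank_pos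
    obtain ⟨χ, c1, c2, c3⟩ := ih _ (by omega) W rfl (ρ.subrepresentation W hW)
    obtain ⟨ψ, d1, d2, d3⟩ := ih _ (by omega) (V ⧸ W) rfl (ρ.quotient W hW)
    refine ⟨χ + ψ, c1.add d1, fun x hx => LinearMap.ext fun v => ?_,
      by rw [c1.charDegree_add d1]; omega⟩
    rw [c1.charKer_add d1] at hx
    have k1 : ρ x v - v ∈ W := (Submodule.Quotient.eq W).1
      (LinearMap.congr_fun (d2 x hx.2) (Submodule.Quotient.mk v))
    have k2 : ρ x (ρ x v - v) = ρ x v - v :=
      congrArg Subtype.val (LinearMap.congr_fun (c2 x hx.1) ⟨_, k1⟩)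
    have k3 : ∀ m : ℕ, ρ (x ^ m) v = v + (m : E) • (ρ x v - v) := fun m => by
      induction m with
      | zero => simp
      | succ m ih =>
        rw [pow_succ', map_mul, Module.End.mul_apply, ih, map_add, map_smul, k2, Nat.cast_succ,
          add_smul, one_smul]
        abel
    have k4 := k3 (Nat.card X)
    rw [pow_card_eq_one', map_one, Module.End.one_apply, left_eq_add, smul_eq_zero] at k4
    exact sub_eq_zero.1 (k4.resolve_left fun m => hX ((CharP.cast_eq_zero_iff E p _).1 m))
  push Not at h
  let K : Subgroup X := MonoidHom.ker ρ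
  let ρ' : X ⧸ K →* Module.End E V := QuotientGroup.lift K ρ fun _ hx => hx
  obtain ⟨ψ, h1, h2, h3⟩ := exists_lift p
    (fun m => hX (m.trans (card_quotient_dvd_card K))) ρ' fun N hN v hv hf => by
      let W : Submodule E V :=
        { carrier := {w | ∀ y ∈ N, ρ' y w = w}
          zero_mem' := fun y _ => map_zero _
          add_mem' := fun ha hb y hy => by rw [map_add, ha y hy, hb y hy]
          smul_mem' := fun c w ha y hy => by rw [map_smul, ha y hy] }
      have hW : W = ⊤ := h W (fun g w hw y hy => by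
        change ρ' y (ρ' g w) = ρ' g w
        conv_rhs => rw [← hw _ (hN.conj_mem' y hy g)]
        simp only [← Module.End.mul_apply, ← map_mul, mul_assoc, mul_inv_cancel_left])
        fun m => hv ((Submodule.mem_bot E).1 (m ▸ show v ∈ W from hf))
      refine eq_bot_iff.2 fun y hy => ?_
      obtain ⟨x, rfl⟩ := QuotientGroup.mk_surjective y
      exact (QuotientGroup.eq_one_iff x).2 (LinearMap.ext fun w =>
        (show w ∈ W from hW ▸ Submodule.mem_top) _ hy)
  refine ⟨fun x => ψ (QuotientGroup.mk' K x), h1.isCharacter.comp _, fun x hx => ?_,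
    by rw [charDegree_comp, ← hn]; exact h3⟩
  rw [h1.isCharacter.charKer_comp, h2] at hx
  exact (QuotientGroup.eq_one_iff x).1 hx

theorem jobLift : JobLift.{u} := by
  intro G V _ _ _ _ _ _ _ p A E _ _ _ _ hp hG D
  have := Fact.mk hp
  have : Module.Finite E V := Module.Finite.of_finite
  obtain ⟨χ, h1, h2, h3⟩ := gen p (E := E) (X := centralizer (A : Set G))
    (fun h => hG (h.trans (card_subgroup_dvd_card _))) _ V rfl
    { toFun := fun x => D.lin x
      map_one' := LinearMap.ext fun v => one_smul G v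
      map_mul' := fun x y => LinearMap.ext fun v => mul_smul (x : G) y v }
  refine ⟨χ, h1, eq_bot_iff.2 fun x hx => Subtype.ext
    (eq_of_smul_eq_smul (α := V) fun w => ?_), h3⟩
  exact (LinearMap.congr_fun (h2 x hx) w).trans (one_smul G w).symm

end H51.R3
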