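import Cfsg.Agent.H51.RFSpec

/-! Tower R3F: the orbital graph. -/

set_option autoImplicit false

namespace H51.R3F

open MulAction Pointwise

universe u v

/-- an invariant equivalence relation of a primitive action is trivial -/
theorem prim_rel {G X : Type*} [Group G] [MulAction G X] (hp : IsPreprimitive G X)
    (r : X → X → Prop) (hr : Equivalence r) (inv : ∀ (g : G) x y, r x y → r (g • x) (g • y))
    {a c : X} (hac : a ≠ c) (h : r a c) (b : X) : r a b := by
  have hB : IsBlock G {y | r a y} := by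
    rw [isBlock_iff_smul_eq_of_mem]
    intro g x hx hgx
    have h1 : r a (g • a) := hr.trans hgx (hr.symm (inv g _ _ hx))
    ext y
    rw [Set.mem_smul_set_iff_inv_smul_mem]
    constructor
    · intro hy
      have := inv g _ _ hy
      rw [smul_inv_smul] at this
      exact hr.trans h1 this
    · intro hy
      have := inv g⁻¹ _ _ (hr.trans (hr.symm h1) hy)
      rwa [inv_smul_smul] at this
  rcases hB.subsingleton_or_eq_univ with h1 | h1
  · exact absurd (h1 (hr.refl a) h) hac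
  · exact (show b ∈ {y | r a y} by rw [h1]; trivial)

theorem ncard_smul_eq {G X : Type*} [Group G] [MulAction G X] (g : G) {P Q : X → Prop}
    (h : ∀ w, Q (g • w) ↔ P w) : {w | Q w}.ncard = {w | P w}.ncard := by
  rw [← Set.ncard_image_of_injective {w | P w} (MulAction.injective g)]
  congr 1
  ext w
  constructor
  · intro hw
    exact ⟨g⁻¹ • w, (h _).1 (by rwa [smul_inv_smul]), smul_inv_smul _ _⟩
  · rintro ⟨y, hy, rfl⟩
    exact (h y).2 hy

theorem jobG : JobG.{u, v} := by
  intro G X _ _ _ _ _ heven hp A h3 B hBA _ hfix hfrob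
  classical
  let R : X → X → Prop := fun x y => ∃ g : G, g • A = x ∧ g • B = y
  have tr : ∀ x y : X, ∃ g : G, g • x = y := hp.exists_smul_eq
  have inv : ∀ (g : G) x y, R x y → R (g • x) (g • y) := by
    rintro g _ _ ⟨s, rfl, rfl⟩
    exact ⟨g * s, mul_smul _ _ _, mul_smul _ _ _⟩
  have inv' : ∀ (g : G) x y, R (g • x) (g • y) ↔ R x y := fun g x y =>
    ⟨fun h => by simpa using inv g⁻¹ _ _ h, inv g x y⟩
  have irr : ∀ x, ¬ R x x := by
    rintro _ ⟨g, rfl, h⟩
    exact hBA (smul_left_cancel g h)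
  have hAB : R A B := ⟨1, one_smul _ _, one_smul _ _⟩
  have arc : ∀ a b a' b', R a b → R a' b' → ∃ g : G, g • a = a' ∧ g • b = b' := by
    rintro _ _ _ _ ⟨s, rfl, rfl⟩ ⟨s', rfl, rfl⟩
    exact ⟨s' * s⁻¹, by simp [mul_smul], by simp [mul_smul]⟩
  let q : X → orbitRel.Quotient ↥(stabilizer G A) X := Quotient.mk''
  have hq : ∀ x y, q x = q y ↔ ∃ g : G, g • A = A ∧ g • y = x := by
    intro x y
    rw [Quotient.eq'', orbitRel_apply]
    exact ⟨fun ⟨g, hg⟩ => ⟨g, g.2, hg⟩, fun ⟨g, h1, h2⟩ => ⟨⟨g, h1⟩, h2⟩⟩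
  have hqA : ∀ x, A ≠ x → q x ≠ q A := fun x hx h => by
    obtain ⟨g, h1, h2⟩ := (hq _ _).1 h
    exact hx (h1.symm.trans h2)
  have hqB : ∀ x, ¬ R A x → q x ≠ q B := fun x hx h => hx ((hq _ _).1 h)
  have narcA : ∀ c c', A ≠ c → ¬ R A c → A ≠ c' → ¬ R A c' → ∃ g : G, g • A = A ∧ g • c = c' := by
    intro c c' h1 h2 h1' h2'
    rw [← hq]
    by_contra hne
    have h4 : ({q c', q c, q B, q A} : Set _).ncard = 4 := by
      rw [Set.ncard_insert_of_notMem (by simp [hne, hqA _ h1', hqB _ h2']),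
        Set.ncard_insert_of_notMem (by simp [hqA _ h1, hqB _ h2]),
        Set.ncard_pair (hqA _ hBA.symm)]
    have := Set.ncard_le_card ({q c', q c, q B, q A} : Set _)
    omega
  have narc : ∀ a c a' c', a ≠ c → ¬ R a c → a' ≠ c' → ¬ R a' c' →
      ∃ g : G, g • a = a' ∧ g • c = c' := by
    intro a c a' c' h1 h2 h1' h2'
    obtain ⟨s, rfl⟩ := tr A a
    obtain ⟨s', rfl⟩ := tr A a'
    obtain ⟨g, h4, h5⟩ := narcA (s⁻¹ • c) (s'⁻¹ • c') (fun e => h1 (by rw [e, smul_inv_smul]))
      (fun e => h2 (by simpa using inv s _ _ e)) (fun e => h1' (by rw [e, smul_inv_smul]))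
      (fun e => h2' (by simpa using inv s' _ _ e))
    exact ⟨s' * g * s⁻¹, by simp [mul_smul, h4], by simp [mul_smul, h5]⟩
  obtain ⟨C, hAC, hC⟩ : ∃ C, A ≠ C ∧ ¬ R A C := by
    by_contra hc
    push Not at hc
    have h4 : (Set.univ : Set (orbitRel.Quotient ↥(stabilizer G A) X)) ⊆ {q A, q B} := by
      intro y _
      obtain ⟨x, rfl⟩ : ∃ x, q x = y := Quotient.exists_rep y
      by_cases e : A = x
      · exact Or.inl (congrArg q e.symm)
      · exact Or.inr ((hq _ _).2 (hc x e))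
    have h5 := Set.ncard_le_ncard h4
    rw [Set.ncard_univ, Set.ncard_pair (hqA _ hBA.symm).symm] at h5
    omega
  have symm : ∀ a b, R a b → R b a := by
    have : Fact (Nat.Prime 2) := ⟨Nat.prime_two⟩
    obtain ⟨s, hs⟩ := exists_prime_orderOf_dvd_card' (G := G) 2 (even_iff_two_dvd.1 heven)
    have hss : ∀ x : X, s • s • x = x := fun x => by
      rw [← mul_smul, ← sq, ← hs, pow_orderOf_eq_one, one_smul]
    obtain ⟨x, hx⟩ : ∃ x : X, s • x ≠ x := by
      by_contra hc
      push Not at hc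
      have : s = 1 := eq_of_smul_eq_smul (α := X) fun x => by rw [hc, one_smul]
      rw [this] at hs
      simp at hs
    intro a b hab
    by_cases e : R x (s • x)
    · obtain ⟨g, rfl, rfl⟩ := arc _ _ _ _ e hab
      have := inv s _ _ e
      rw [hss] at this
      exact inv g _ _ this
    · by_contra hba
      obtain ⟨g, h4, h5⟩ := narc x (s • x) b a hx.symm e (fun h => irr _ (h ▸ hab)) hba
      rw [← h4, ← h5, inv'] at hab
      have := inv s _ _ hab
      rw [hss] at this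
      exact e this
  let Γ : SimpleGraph X := ⟨R, ⟨symm⟩, ⟨irr⟩⟩
  have deg : ∀ a, {w | R a w}.ncard = {w | R A w}.ncard := by
    intro a
    obtain ⟨s, rfl⟩ := tr A a
    exact ncard_smul_eq s fun w => inv' s _ _
  have nadj : ∀ a c, a ≠ c → ¬ R a c →
      {w | R a w ∧ R c w}.ncard = {w | R A w ∧ R C w}.ncard := by
    intro a c h1 h2
    obtain ⟨s, rfl, rfl⟩ := narc A C a c hAC hC h1 h2
    exact ncard_smul_eq s fun w => by rw [inv', inv']
  refine ⟨Γ, {w | R A w}.ncard, {w | R A w ∧ R B w}.ncard, {w | R A w ∧ R C w}.ncard,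
    ⟨⟨deg, fun a b hab => ?_, fun a c h => nadj a c h.1 h.2, ⟨A⟩, fun a => ?_, ?_, ?_⟩, inv, tr,
      fun a b b' h1 h2 => arc _ _ _ _ h1 h2, fun a c c' h1 h2 => narc _ _ _ _ h1.1 h1.2 h2.1 h2.2,
      ?_, ?_⟩⟩
  · obtain ⟨s, rfl, rfl⟩ := hab
    exact ncard_smul_eq s fun w => by show R _ _ ∧ R _ _ ↔ _; rw [inv', inv']
  · obtain ⟨s, rfl⟩ := tr A a
    exact ⟨s • C, fun e => hAC (smul_left_cancel s e), fun e => hC ((inv' s _ _).1 e)⟩
  · by_contra h0
    have h1 : ∀ x y z, R x y → R y z → x = z ∨ R x z := by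
      intro x y z hxy hyz
      by_contra hc
      push Not at hc
      have := nadj x z hc.1 hc.2
      have h2 : 0 < {w | R x w ∧ R z w}.ncard := (Set.ncard_pos).2 ⟨y, hxy, symm _ _ hyz⟩
      omega
    have := prim_rel hp (fun x y => x = y ∨ R x y) ⟨fun _ => Or.inl rfl,
      fun h => h.elim (fun e => Or.inl e.symm) fun e => Or.inr (symm _ _ e), by
        rintro x y z (rfl | h2) (rfl | h4)
        · exact Or.inl rfl
        · exact Or.inr h4
        · exact Or.inr h2
        · exact h1 _ _ _ h2 h4⟩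
      (fun g x y h => h.elim (fun e => Or.inl (by rw [e])) fun e => Or.inr (inv g _ _ e))
      hBA.symm (Or.inr hAB) C
    exact this.elim hAC hC
  · by_contra h0
    have h1 : {w | R A w ∧ R C w} = {w | R A w} :=
      Set.eq_of_subset_of_ncard_le (fun _ h => h.1) (by omega)
    have h2 : {w | R A w ∧ R C w} = {w | R C w} :=
      Set.eq_of_subset_of_ncard_le (fun _ h => h.2) (by rw [deg C]; omega)
    have := prim_rel hp (fun x y => ∀ w, R x w ↔ R y w) ⟨fun _ _ => Iff.rfl,
      fun h w => (h w).symm, fun h h' w => (h w).trans (h' w)⟩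
      (fun g x y h w => by rw [← smul_inv_smul g w, inv', inv', h]) hAC
      (fun w => Set.ext_iff.1 (h1.symm.trans h2) w) B
    exact irr _ ((this B).1 hAB)
  · rintro g _ _ b' h1 ⟨s, rfl, rfl⟩ ⟨s', h2, rfl⟩ hne h4 h5
    have := hfrob (s⁻¹ * g * s) (by simp [mul_smul, h1]) (s⁻¹ * s') (by simp [mul_smul, h2])
      (by simp [mul_smul, h4]) (by simp [mul_smul, h5])
      (fun e => hne (by rw [mul_smul, inv_smul_eq_iff] at e; exact e.symm))
    rw [show g = s * (s⁻¹ * g * s) * s⁻¹ by group, this]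
    group
  · obtain ⟨g, h1, h2, h4⟩ := hfix
    exact ⟨g, A, B, h2, hAB, h1, h4⟩

end H51.R3F
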