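import Cfsg.Agent.H51.RFSpec

/-! Tower R3F: arithmetic of the quotient matrix. -/

set_option autoImplicit false

namespace H51.R3F

open Finset

variable {k lam mu e n u ν : ℕ} {b : Fin u → Fin u → ℕ}

theorem sq_dvd_sum {r : ℤ} (hr : ∀ i j, r ∣ (b i j : ℤ)) (i j : Fin u) :
    r * r ∣ ∑ s, (b i s : ℤ) * b s j :=
  dvd_sum fun s _ => mul_dvd_mul (hr i s) (hr s j)

theorem QM.eq1 (Q : QM k lam mu e n u ν b) (hk : k = e * n) (h0 : ∀ i, b i i = 0) (i : Fin u) :
    (e : ℤ) * (n - ν) * (1 + ν) = ∑ s, (b i s : ℤ) * b s i := by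
  have h := Q.diag i
  rw [h0 i, hk, Q.mu_nu] at h
  simp only [Q.symm _ i]
  push_cast at h
  linear_combination h

theorem QM.eq2 (Q : QM k lam mu e n u ν b) {i j : Fin u} (hij : i ≠ j) :
    (b i j : ℤ) * (lam - mu) + e * (n - ν) * ν = ∑ s, (b i s : ℤ) * b s j := by
  have h := Q.off i j hij
  have h2 : (mu : ℤ) = e * ν := by exact_mod_cast Q.mu_nu
  rw [h2] at h ⊢
  linear_combination h

theorem QM.padic (Q : QM k lam mu e n u ν b) (hk : k = e * n) (hmu : mu < k) (h0 : ∀ i, b i i = 0)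
    (i0 : Fin u) {p : ℕ} (hp : p.Prime) (he : p ∣ e) (h1 : ¬ (p : ℤ) ∣ 1 + ν)
    (h2 : ¬ (p : ℤ) ∣ lam - mu) : False := by
  have hpi : Prime (p : ℤ) := Nat.prime_iff_prime_int.1 hp
  have key : ∀ s : ℕ, ∀ i j, (p : ℤ) ^ (s + 1) ∣ b i j := by
    intro s
    induction s with
    | zero => intro i j; simpa using Int.natCast_dvd_natCast.2 (he.trans (Q.dvd i j))
    | succ s ih =>
      intro i j
      have hs : (p : ℤ) ^ (s + 1 + 1) ∣ (p : ℤ) ^ (s + 1) * (p : ℤ) ^ (s + 1) := by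
        rw [← pow_add]; exact pow_dvd_pow _ (by omega)
      by_cases hij : i = j
      · rw [hij, h0]; simp
      have a1 := hs.trans (sq_dvd_sum ih i i)
      rw [← Q.eq1 hk h0 i] at a1
      have a2 : (p : ℤ) ^ (s + 1 + 1) ∣ e * (n - ν) :=
        (hpi.pow_dvd_of_dvd_mul_right _ h1 a1)
      have a3 := hs.trans (sq_dvd_sum ih i j)
      rw [← Q.eq2 hij] at a3
      exact hpi.pow_dvd_of_dvd_mul_right _ h2 ((dvd_add_left (a2.mul_right _)).1 a3)
  have hz : ∀ j, b i0 j = 0 := by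
    intro j
    by_contra hne
    have h3 : p ^ (b i0 j + 1) ∣ b i0 j := by exact_mod_cast key (b i0 j) i0 j
    have h4 := Nat.le_of_dvd (Nat.pos_of_ne_zero hne) h3
    have h5 := Nat.lt_pow_self (n := b i0 j + 1) hp.one_lt
    omega
  have := Q.row i0
  simp [hz] at this
  omega

theorem QM.ex_off (Q : QM k lam mu e n u ν b) (hmu : mu < k) (h0 : ∀ i, b i i = 0) (i : Fin u) :
    ∃ j, i ≠ j := by
  by_contra hc
  push Not at hc
  have := Q.row i
  rw [sum_eq_zero fun j _ => by rw [← hc j, h0]] at this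
  omega

theorem QM.pos (Q : QM k lam mu e n u ν b) (hk : k = e * n) (hmu : mu < k) (h0 : ∀ i, b i i = 0)
    (he : 1 < e) (hen : e ∣ n) {i j : Fin u} (hij : i ≠ j) : 0 < b i j := by
  by_contra hb
  have hb0 : b i j = 0 := by omega
  have hd : ∀ i j, (e : ℤ) ∣ b i j := fun i j => Int.natCast_dvd_natCast.2 (Q.dvd i j)
  have he0 : (e : ℤ) ≠ 0 := by positivity
  have a1 := sq_dvd_sum hd i i
  rw [← Q.eq1 hk h0 i, mul_assoc, mul_dvd_mul_iff_left he0] at a1
  have a2 := sq_dvd_sum hd i j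
  rw [← Q.eq2 hij, hb0, Nat.cast_zero, zero_mul, zero_add, mul_assoc,
    mul_dvd_mul_iff_left he0] at a2
  have a3 : (e : ℤ) ∣ n - ν := by
    have := dvd_sub a1 a2
    rwa [show ((n : ℤ) - ν) * (1 + ν) - (n - ν) * ν = n - ν by ring] at this
  have a4 : (e : ℤ) ∣ ν := by
    have := dvd_sub (Int.natCast_dvd_natCast.2 hen) a3
    rwa [sub_sub_cancel] at this
  obtain ⟨p, hp, hpe⟩ := Nat.exists_prime_and_dvd (show e ≠ 1 by omega)
  have hpe' : (p : ℤ) ∣ e := Int.natCast_dvd_natCast.2 hpe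
  have hp1 : ¬ (p : ℤ) ∣ 1 := (Nat.prime_iff_prime_int.1 hp).not_dvd_one
  refine Q.padic hk hmu h0 i hp hpe (fun h => hp1 ((dvd_add_left (hpe'.trans a4)).1 h)) fun h => hp1 ?_
  have h1 : (1 : ℤ) = e * n - u * ν - e * ν - (lam - mu) := by
    have h2 : (k : ℤ) = 1 + lam + u * ν := by exact_mod_cast Q.nu
    have h3 : (mu : ℤ) = e * ν := by exact_mod_cast Q.mu_nu
    have h4 : (k : ℤ) = e * n := by exact_mod_cast hk
    linear_combination h4 - h2 - h3
  rw [h1]
  exact dvd_sub (dvd_sub (dvd_sub (hpe'.mul_right _) ((hpe'.trans a4).mul_left _))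
    (hpe'.mul_right _)) h

theorem jobQ1 : JobQ1 := by
  intro k lam mu e n u ν b Q hk hmu0 hmu h0
  have h2 : (k : ℤ) = 1 + lam + u * ν := by exact_mod_cast Q.nu
  have h3 : (mu : ℤ) = e * ν := by exact_mod_cast Q.mu_nu
  have h4 : (k : ℤ) = e * n := by exact_mod_cast hk
  refine ⟨fun he hn hu => ?_, fun he hen i j hij => Q.pos hk hmu h0 he hen hij,
    fun he hen hn hodd hu hdvd => ?_⟩
  · have i0 : Fin u := ⟨0, hu.pos⟩
    obtain ⟨e', rfl⟩ := he
    obtain ⟨n', rfl⟩ := hn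
    obtain ⟨u', rfl⟩ := hu
    rcases Nat.even_or_odd ν with ⟨w, rfl⟩ | ⟨w, rfl⟩
    · refine Q.padic hk hmu h0 i0 Nat.prime_two ⟨e', by ring⟩ (by push_cast; omega) ?_
      have : (lam : ℤ) - mu = 2 * (e' * (n' + n') - (2 * u' + 1) * w - e' * (w + w)) - 1 := by
        push_cast at h2 h3 h4
        linear_combination h4 - h2 - h3
      rw [this]
      push_cast
      omega
    · obtain ⟨j, hij⟩ := Q.ex_off hmu h0 i0
      have hd : ∀ i j, ((e' + e' : ℕ) : ℤ) ∣ b i j := fun i j => Int.natCast_dvd_natCast.2 (Q.dvd i j)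
      have he0 : ((e' + e' : ℕ) : ℤ) ≠ 0 := by
        intro h
        rw [h] at h4
        omega
      have a2 := sq_dvd_sum hd i0 j
      obtain ⟨a, ha⟩ := hd i0 j
      rw [← Q.eq2 hij, ha, mul_assoc, mul_assoc, ← mul_add, mul_dvd_mul_iff_left he0] at a2
      have a3 : (2 : ℤ) ∣ ((e' + e' : ℕ) : ℤ) := ⟨e', by push_cast; ring⟩
      have a4 := a3.trans a2
      have : a * ((lam : ℤ) - mu) + (((n' + n' : ℕ) : ℤ) - (2 * w + 1 : ℕ)) * (2 * w + 1 : ℕ) =
          2 * (a * (e' * (n' + n') - (2 * u' * w + u' + w + 1) - e' * (2 * w + 1)) +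
            n' * (2 * w + 1) - 2 * w * w - 2 * w) - 1 := by
        push_cast at h2 h3 h4 ⊢
        linear_combination a * (h4 - h2 - h3)
      rw [this] at a4
      omega
  · have hn3 : n = 3 ∧ e = 3 := by
      have := Nat.le_of_dvd (by
        rcases n with _ | n
        · omega
        · omega) hen
      rw [hk] at hodd
      have h5 := Nat.odd_mul.1 hodd
      obtain ⟨⟨x, hx⟩, ⟨y, hy⟩⟩ := h5
      omega
    obtain ⟨rfl, rfl⟩ := hn3
    refine ⟨by omega, rfl, ?_⟩
    let i0 : Fin u := ⟨0, hu⟩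
    obtain ⟨j, hij⟩ := Q.ex_off hmu h0 i0
    have hrow := Q.row i0
    have h5 : 3 * (u - 1) ≤ ∑ j, b i0 j := by
      rw [← sum_erase (s := univ) (a := i0) (h0 i0)]
      have := card_nsmul_le_sum (univ.erase i0) (b i0) 3 fun j hj =>
        Nat.le_of_dvd (Q.pos hk hmu h0 he hen (ne_of_mem_erase hj).symm) (Q.dvd i0 j)
      rw [card_erase_of_mem (mem_univ _), card_univ, Fintype.card_fin, smul_eq_mul, mul_comm] at this
      exact this
    have h6 := Q.mu_nu
    have h7 : u ≠ 1 := by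
      rintro rfl
      exact hij (Subsingleton.elim _ _)
    have h8 : u ≤ 3 := by omega
    have h9 : k = 9 := by omega
    subst h9
    interval_cases u <;> omega

theorem ar1 {u m r : ℤ} (hm : 2 ≤ m) (hu : 2 ≤ u) (h : u * m ≤ r)
    (e1 : r * r - r + 4 * m * m - 2 * m ≤ (2 * u * m - r) * (2 * m)) : False := by
  have h0 : 4 ≤ u * m := by nlinarith
  have e2 : (u * m) * (u * m) - u * m ≤ r * r - r := by
    nlinarith [mul_nonneg (sub_nonneg.2 h) (show 0 ≤ r + u * m - 1 by omega)]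
  have e3 : (2 * u * m - r) * (2 * m) ≤ (u * m) * (2 * m) := by nlinarith
  have e4 : m * (u * m * (u - 2) + 4 * m - 2 - u) ≤ 0 := by linarith
  have e5 : u * m * (u - 2) + 4 * m - 2 - u ≤ 0 := by
    by_contra hc
    nlinarith
  rcases hu.eq_or_lt with h | h
  · rw [← h] at e5; omega
  · nlinarith

theorem ar2 {U m r : ℤ} (hU : 1 ≤ U) (h3 : U + 3 ≤ 2 * m) (hr : 2 * m ≤ r)
    (hC : (U * m + 1 - r) ^ 2 ≤ U * (U * m * m - r * m - r * r + (U + 1) * m + 1)) : False := by
  have e1 : U * (r * (r - m)) + (r - 1) ^ 2 ≤ U * ((U - 1) * m + 1) := by linarith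
  have e2 : 2 * m * m ≤ r * (r - m) := by nlinarith
  have e3 : (U - 1) * m + 1 < 2 * m * m := by nlinarith
  have e4 := mul_lt_mul_of_pos_left (e3.trans_le e2) (show 0 < U by omega)
  nlinarith [sq_nonneg (r - 1)]

theorem jobQ2 : JobQ2 := by
  intro k mu m u ν b Q hm hu i
  have hν : ν = mu := by rw [Q.mu_nu, one_mul]
  subst hν
  have hk : (k : ℤ) = 1 + u * ν := by exact_mod_cast Q.nu
  have hd := Q.diag i
  have hrow : ∑ j, (b i j : ℤ) + ν = k := by exact_mod_cast Q.row i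
  rw [← add_sum_erase univ _ (mem_univ i)] at hd hrow
  set r : ℤ := (b i i : ℤ) with hr
  set R : ℤ := ∑ j ∈ univ.erase i, (b i j : ℤ) with hR
  set T : ℤ := ∑ j ∈ univ.erase i, (b i j : ℤ) * b i j with hT
  have hRT : R ≤ T := sum_le_sum fun j _ => by
    have : b i j ≤ b i j * b i j := Nat.le_mul_self _
    exact_mod_cast this
  have hC : R ^ 2 ≤ (u - 1 : ℤ) * T := by
    have := sq_sum_le_card_mul_sum_sq (s := univ.erase i) (f := fun j => (b i j : ℤ))
    rw [card_erase_of_mem (mem_univ _), card_univ, Fintype.card_fin, Nat.cast_sub (by omega)] at this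
    simpa only [sq, Nat.cast_one] using this
  have hm' : (2 : ℤ) ≤ m := by exact_mod_cast hm
  have hu' : (2 : ℤ) ≤ u := by exact_mod_cast hu
  push_cast at hd
  refine ⟨fun h1 h2 => ?_, fun h1 h2 h3 => ⟨?_, fun h4 h5 => ?_⟩⟩
  · have h1' : (ν : ℤ) = 2 * m := by exact_mod_cast h1
    have h2' : (u : ℤ) * m ≤ r := by rw [hr]; exact_mod_cast h2
    rw [h1'] at hd hk hrow
    refine ar1 hm' hu' h2' ?_
    rw [hk] at hd hrow
    linarith
  · subst h1
    obtain ⟨ρ, hρ⟩ := h2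
    rcases ρ with _ | _ | ρ
    · left; omega
    · right; omega
    exfalso
    have h3' : (u : ℤ) + 2 ≤ 2 * ν := by exact_mod_cast h3
    have hr2 : 2 * (ν : ℤ) ≤ r := by
      rw [hr, hρ]; push_cast; nlinarith
    have eR : R = (u - 1) * ν + 1 - r := by rw [hk] at hrow; linarith
    have eT : T = (u - 1) * ν * ν - r * ν - r * r + u * ν + 1 := by rw [hk] at hd; linarith
    rw [eR, eT] at hC
    exact ar2 (U := u - 1) (by omega) (by omega) hr2 (by linarith)
  · subst h1 h4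
    have h5' : r = ν := by rw [hr, h5]
    have hc : (univ.erase i).card = 1 := by
      rw [card_erase_of_mem (mem_univ _), card_univ, Fintype.card_fin]
    obtain ⟨j, hj⟩ := card_eq_one.1 hc
    rw [hj, sum_singleton] at hR hT
    push_cast at hk
    have eR : R = 1 := by rw [hk] at hrow; linarith
    have eT : T = 1 := by rw [hT, ← hR, eR]; rfl
    rw [hk, eT, h5'] at hd
    have : (ν : ℤ) = 2 := by nlinarith
    exact_mod_cast this

end H51.R3F
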