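import Cfsg.Agent.H51.RFAsm

/-! Tower R3F: the sharply 2-transitive lines. -/

set_option autoImplicit false
set_option linter.unusedSectionVars false

namespace H51.R3F

open MulAction

universe u v

theorem alg3 {L : Type*} [Group L] {τ y₁ y₂ : L} (hτ : τ * τ = 1) (hc : y₁ * y₂ = y₂ * y₁)
    (h1 : (τ * y₁) ^ 3 = 1) (h2 : (τ * y₂) ^ 3 = 1) (h3 : (τ * (y₁ * y₂)) ^ 3 = 1)
    (h4 : (τ * (y₁ * y₂)⁻¹) ^ 3 = 1) :
    y₂ * τ * y₁ = (y₁ * y₂)⁻¹ * τ * (y₁ * y₂)⁻¹ := by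
  have hi : τ⁻¹ = τ := inv_eq_of_mul_eq_one_left hτ
  have R : ∀ y : L, (τ * y) ^ 3 = 1 → τ * y * τ = y⁻¹ * τ * y⁻¹ := by
    intro y hy
    have : τ * y * τ = (y * τ * y)⁻¹ := by
      apply eq_inv_of_mul_eq_one_left
      rw [← hy, pow_succ, pow_succ, pow_one]
      group
    rw [this, mul_inv_rev, mul_inv_rev, hi, mul_assoc]
  rw [← R _ h3]
  have e1 : τ * (y₁ * y₂) * τ = (τ * y₁ * τ) * (τ * y₂ * τ) := by
    calc τ * (y₁ * y₂) * τ = τ * y₁ * (τ * τ) * y₂ * τ := by rw [hτ]; group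
      _ = _ := by group
  have e2 := R _ h4
  rw [inv_inv] at e2
  rw [e1, R _ h1, R _ h2]
  calc y₂ * τ * y₁ = y₁⁻¹ * ((y₁ * y₂) * τ * (y₁ * y₂)) * y₂⁻¹ := by group
    _ = y₁⁻¹ * (τ * (y₂ * y₁)⁻¹ * τ) * y₂⁻¹ := by rw [← e2, hc]
    _ = _ := by group

theorem jobSH : JobSH.{u, v} := by
  intro G X _ _ _ _ Γ N k lam mu h m e n u t S Z hk he hΦ
  by_contra hn
  obtain ⟨a⟩ := S.ne
  obtain ⟨c0, H0⟩ := S.ex a
  obtain ⟨b, hb⟩ : ∃ b, Γ.Adj a b := by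
    have := S.deg a
    have h1 := S.mu_lt
    exact (Set.ncard_pos (s := {w | Γ.Adj a w})).1 (by omega)
  obtain ⟨z, hz, hza, -⟩ := Z.ex a b hb
  have hzz : z * z = 1 := by rw [← sq, ← hz, pow_orderOf_eq_one]
  have zsm : ∀ y, z • y = y → ∀ x ∈ N y, ∀ w : X, z • x • w = x⁻¹ • z • w := by
    intro y hy x hx w
    rw [← Z.inv y z hz hy x hx, mul_smul, mul_smul, inv_smul_smul]
  have fixN : ∀ y, ∀ x ∈ N y, x • y = y := fun y x hx => ((S.memN y x).1 hx).1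
  obtain ⟨c, H, hzc⟩ : ∃ c, Nadj Γ a c ∧ z • c = c := by
    rcases hΦ a c0 (z • c0) H0 (fun x hx hc => by
      have := zsm a hza x⁻¹ (inv_mem hx) c0
      rw [inv_inv, inv_smul_eq_iff.2 hc.symm] at this
      exact this.symm) with h1 | ⟨g, hg, h1⟩
    · exact (H0.1 (smul_left_cancel z (hza.trans h1.symm))).elim
    obtain ⟨r, hr⟩ := hk
    have hgk : g ^ k = 1 := by
      have := pow_card_eq_one' (G := N a) (x := ⟨g, hg⟩)
      rw [S.cardN] at this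
      exact congrArg Subtype.val this
    have hs : g ^ (r + 1) * g ^ (r + 1) = g := by
      rw [← pow_add, show r + 1 + (r + 1) = k + 1 by omega, pow_succ, hgk, one_mul]
    refine ⟨g ^ (r + 1) • c0, S.nadj_orb H0 (pow_mem hg _), ?_⟩
    rw [zsm a hza _ (pow_mem hg _), ← h1, inv_smul_eq_iff, ← mul_smul, hs]
  have H' : Nadj Γ c a := ⟨H.1.symm, fun h => H.2 h.symm⟩
  let E : Subgroup G := N a ⊓ stabilizer G c
  let C : Subgroup G := Subgroup.centralizer (E : Set G)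
  have Ec : ∀ x ∈ E, x ∈ N c := fun x hx => S.piN a c x hx.1 hx.2
  have Ca : ∀ x ∈ N a, x ∈ C := fun x hx y hy => Z.comm a y hy.1 x hx
  have Cc : ∀ x ∈ N c, x ∈ C := fun x hx y hy => Z.comm c y (Ec y hy) x hx
  let Φ : X → Prop := fun y => ∀ x ∈ E, x • y = y
  have Φa : Φ a := fun x hx => fixN a x hx.1
  have Φc : Φ c := fun x hx => hx.2
  have ΦC : ∀ g ∈ C, ∀ y, Φ y → Φ (g • y) := fun g hg y hy x hx => by
    rw [← mul_smul, hg x hx, mul_smul, hy x hx]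
  have Φz : ∀ y, Φ y → Φ (z • y) := fun y hy x hx => by
    have := zsm a hza x⁻¹ (inv_mem hx.1) y
    rw [inv_inv, hy _ (inv_mem hx)] at this
    exact this.symm
  have oa : ∀ y, Φ y → y ≠ a → ∃ g ∈ N a, g • c = y := fun y hy h1 =>
    (hΦ a c y H fun x hx hc => hy x ⟨hx, hc⟩).resolve_left h1
  have oc : ∀ y, Φ y → y ≠ c → ∃ g ∈ N c, g • a = y := fun y hy h1 =>
    (hΦ c a y H' fun x hx hc => hy x ⟨S.piN c a x hx hc, fixN c x hx⟩).resolve_left h1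
  obtain ⟨x0, hx0⟩ : ∃ x : E, x ≠ 1 := by
    rw [← Subgroup.ne_bot_iff_exists_ne_one]
    intro h0
    have := S.cardE a c H
    change Nat.card E = e at this
    rw [h0, Subgroup.card_bot] at this
    omega
  have fixE : ∀ g ∈ C, g • a = a → g • c = c → g ∈ E := fun g hg h1 h2 =>
    ⟨S.cenN a g x0 h1 x0.2.1 (fun h => hx0 (Subtype.ext h)) (hg x0 x0.2).symm, h2⟩
  have hO := S.cardO c a H'
  obtain ⟨y2, hy2, hy2a⟩ : ∃ y ∈ N c, y • a ≠ a := by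
    by_contra hc
    push Not at hc
    have : {y | ∃ g ∈ N c, g • a = y} ⊆ {a} := by
      rintro _ ⟨g, hg, rfl⟩
      exact hc g hg
    have := Set.ncard_le_ncard this
    rw [hO, Set.ncard_singleton] at this
    omega
  have nc : ∀ y ∈ N c, y • a ≠ c := fun y hy h1 =>
    H.1 (smul_left_cancel y (h1.trans (fixN c y hy).symm))
  have na : ∀ x ∈ N a, x • c ≠ a := fun x hx h1 =>
    H.1 (smul_left_cancel x (h1.trans (fixN a x hx).symm)).symm
  obtain ⟨τ, hτ, hτa, hτc⟩ : ∃ τ ∈ C, τ • a = c ∧ τ • c = a := by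
    obtain ⟨x, hx, h1⟩ := oa _ (ΦC y2 (Cc y2 hy2) a Φa) hy2a
    have h2 : x⁻¹ • c ≠ c := fun h2 => nc y2 hy2 (by rw [← h1]; exact (inv_smul_eq_iff.1 h2).symm)
    obtain ⟨y', hy', h3⟩ := oc _ (ΦC x⁻¹ (Ca _ (inv_mem hx)) c Φc) h2
    refine ⟨y'⁻¹ * x⁻¹ * y2, mul_mem (mul_mem (Cc _ (inv_mem hy')) (Ca _ (inv_mem hx))) (Cc _ hy2),
      ?_, ?_⟩
    · rw [mul_smul, mul_smul, ← h1, inv_smul_smul, fixN c _ (inv_mem hy')]
    · rw [mul_smul, mul_smul, fixN c _ hy2, ← h3, inv_smul_smul]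
  have cube : ∀ y ∈ N c, y • a ≠ a → ∀ w : X, (w = a ∨ w = c) → (τ * y) ^ 3 • w = w := by
    intro y hy hya
    have zz : ∀ w : X, z • z • w = w := fun w => by rw [← mul_smul, hzz, one_smul]
    have hp : Φ (z • τ • y • a) := Φz _ (ΦC τ hτ _ (ΦC y (Cc y hy) a Φa))
    have p1 : z • τ • y • a ≠ a := fun h1 =>
      nc y hy (smul_left_cancel τ ((smul_left_cancel z (h1.trans hza.symm)).trans hτc.symm))
    have p2 : z • τ • y • a ≠ c := fun h1 =>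
      hya (smul_left_cancel τ ((smul_left_cancel z (h1.trans hzc.symm)).trans hτa.symm))
    obtain ⟨x, hx, h1⟩ := oa _ hp p1
    obtain ⟨y', hy', h2⟩ := oc _ hp p2
    have hg : y'⁻¹ * x ∈ C := mul_mem (Cc _ (inv_mem hy')) (Ca _ hx)
    have g1 : (y'⁻¹ * x) • c = a := by rw [mul_smul, h1, ← h2, inv_smul_smul]
    have g2 : (y'⁻¹ * x) • a = τ • y • a := by
      rw [mul_smul, fixN a x hx, ← zz (τ • y • a), ← h2, zsm c hzc _ hy', hza]
    have g3 : (y'⁻¹ * x) • τ • y • a = c := by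
      rw [← zz (τ • y • a), ← h1, zsm a hza _ hx, hzc, mul_smul, smul_inv_smul,
        fixN c _ (inv_mem hy')]
    have t1 : (τ * y) • c = a := by rw [mul_smul, fixN c y hy, hτc]
    have hE : (y'⁻¹ * x)⁻¹ * (τ * y) ∈ E := fixE _ (mul_mem (inv_mem hg) (mul_mem hτ (Cc y hy)))
      (by rw [mul_smul, inv_smul_eq_iff, g2, mul_smul]) (by rw [mul_smul, inv_smul_eq_iff, g1, t1])
    have t3 : (τ * y) • τ • y • a = c := by
      have := ΦC τ hτ _ (ΦC y (Cc y hy) a Φa) _ hE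
      rw [mul_smul, inv_smul_eq_iff, g3] at this
      exact this
    have t2 : (τ * y) • a = τ • y • a := mul_smul _ _ _
    rintro w (rfl | rfl)
    · rw [pow_succ, pow_succ, pow_one, mul_smul, mul_smul, t2, t3, t1]
    · rw [pow_succ, pow_succ, pow_one, mul_smul, mul_smul, t1, t2, t3]
  let E' : Subgroup C := E.subgroupOf C
  have : E'.Normal := ⟨fun x hx g => by
    have h1 : (g : G) * x * (g : G)⁻¹ = x := by
      rw [← g.2 x hx, mul_inv_cancel_right]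
    show (g : G) * x * (g : G)⁻¹ ∈ E
    rw [h1]
    exact hx⟩
  let π : C →* C ⧸ E' := QuotientGroup.mk' E'
  have πE : ∀ g : C, (g : G) • a = a → (g : G) • c = c → π g = 1 := fun g h1 h2 =>
    (QuotientGroup.eq_one_iff g).2 (fixE g g.2 h1 h2)
  have πc : ∀ y (hy : y ∈ N c), y • a ≠ a → (π ⟨τ, hτ⟩ * π ⟨y, Cc y hy⟩) ^ 3 = 1 := by
    intro y hy hya
    rw [← map_mul, ← map_pow]
    exact πE _ (cube y hy hya a (Or.inl rfl)) (cube y hy hya c (Or.inr rfl))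
  have sub : {y | ∃ g ∈ N c, g • a = y} ⊆ {a, y2⁻¹ • a, (y2 * y2)⁻¹ • a} := by
    rintro _ ⟨y1, hy1, rfl⟩
    have hc := Z.comm c y1 hy1 y2 hy2
    by_cases h1 : y1 • a = a
    · exact Or.inl h1
    by_cases h2 : (y1 * y2) • a = a
    · refine Or.inr (Or.inl ?_)
      rw [eq_inv_smul_iff, ← mul_smul, ← hc, h2]
    refine Or.inr (Or.inr ?_)
    have h12 := mul_mem hy1 hy2
    have h3 := alg3 (τ := π ⟨τ, hτ⟩) (y₁ := π ⟨y1, Cc y1 hy1⟩) (y₂ := π ⟨y2, Cc y2 hy2⟩)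
      (by
        rw [← map_mul]
        exact πE _ (by show (τ * τ) • a = a; rw [mul_smul, hτa, hτc])
          (by show (τ * τ) • c = c; rw [mul_smul, hτc, hτa]))
      (by rw [← map_mul, ← map_mul]; congr 1; exact Subtype.ext hc) (πc y1 hy1 h1)
      (πc y2 hy2 hy2a) (by rw [← map_mul]; exact πc _ h12 h2)
      (by
        rw [← map_mul, ← map_inv]
        exact πc _ (inv_mem h12) fun h => h2 (inv_smul_eq_iff.1 h).symm)
    simp only [← map_mul, ← map_inv] at h3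
    have h4 : (y2 * τ * y1)⁻¹ * ((y1 * y2)⁻¹ * τ * (y1 * y2)⁻¹) ∈ E :=
      (QuotientGroup.eq (s := E')).1 h3
    have h5 : ((y2 * τ * y1)⁻¹ * ((y1 * y2)⁻¹ * τ * (y1 * y2)⁻¹)) • c = c := h4.2
    rw [mul_smul, inv_smul_eq_iff, mul_smul, mul_smul, mul_smul, mul_smul,
      fixN c _ (inv_mem h12), fixN c _ hy1, hτc, inv_smul_eq_iff] at h5
    show y1 • a = (y2 * y2)⁻¹ • a
    rw [eq_inv_smul_iff, ← mul_smul, mul_assoc, ← hc, ← mul_assoc, ← hc, mul_smul, ← h5]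
  have h1 := Set.ncard_le_ncard sub
  rw [hO] at h1
  have h2 := Set.ncard_insert_le a {y2⁻¹ • a, (y2 * y2)⁻¹ • a}
  have h3 := Set.ncard_insert_le (y2⁻¹ • a) {(y2 * y2)⁻¹ • a}
  rw [Set.ncard_singleton] at h3
  omega

end H51.R3F
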