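import Cfsg.Agent.H51.RFSpec
import Cfsg.Agent.H75.Srg

/-! Tower R3F: integrality conditions, involutions in a coset. -/

set_option autoImplicit false

namespace H51.R3F

open MulAction Matrix

universe u v

/-- trace of the idempotent for a root `τ` of `x² - (l - m) x - (k - m)` with other root `θ` -/
theorem srg_trace {V : Type*} [Fintype V] (Γ : SimpleGraph V) [DecidableRel Γ.Adj] {n k l m : ℕ}
    (h : Γ.IsSRGWith n k l m) (hn : 0 < n) {θ τ : ℝ} (h1 : θ + τ = l - m) (h2 : θ * τ = m - k)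
    (h3 : θ ≠ τ) : ∃ g : ℕ, g * (θ - τ) = k + θ * (n - 1) := by
  classical
  set A := Γ.adjMatrix ℝ with hA
  let J : Matrix V V ℝ := Matrix.of fun _ _ => 1
  have hC : Γᶜ.adjMatrix ℝ = J - 1 - A := by
    ext v w
    by_cases e : v = w
    · simp [J, hA, e]
    · by_cases e' : Γ.Adj v w <;> simp [J, hA, e, e']
  have hA2 : A * A = (-(θ * τ)) • (1 : Matrix V V ℝ) + (θ + τ) • A + (m : ℝ) • J := by
    have := h.matrix_eq (α := ℝ)
    rw [sq, hC, ← hA] at this
    rw [this, h1, h2]
    simp only [← Nat.cast_smul_eq_nsmul ℝ]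
    module
  have hAJ : A * J = (k : ℝ) • J := by
    ext v w
    simp [J, hA, SimpleGraph.adjMatrix_mul_apply, h.regular v]
  have hJA : J * A = (k : ℝ) • J := by
    ext v w
    simp [J, hA, SimpleGraph.mul_adjMatrix_apply, h.regular w]
  have hJJ : J * J = (n : ℝ) • J := by
    ext v w
    simp [J, Matrix.mul_apply, h.card]
  have hn' : (n : ℝ) ≠ 0 := by positivity
  have hq : τ - θ ≠ 0 := sub_ne_zero.2 h3.symm
  have hpar : (k : ℝ) * k = -(θ * τ) + (θ + τ) * k + m * n := by
    have h1 : A * A * J = ((k : ℝ) * k) • J := by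
      rw [mul_assoc, hAJ, Matrix.mul_smul, hAJ, smul_smul]
    rw [hA2, add_mul, add_mul, Matrix.smul_mul, Matrix.smul_mul, Matrix.smul_mul, one_mul, hAJ, hJJ,
      smul_smul, smul_smul, ← add_smul, ← add_smul] at h1
    obtain ⟨v⟩ : Nonempty V := Fintype.card_pos_iff.1 (h.card ▸ hn)
    have := congrFun (congrFun h1 v) v
    simpa [J] using this.symm
  obtain ⟨f, hf⟩ := H75.trace_idem (E := (τ - θ)⁻¹ • (A - θ • (1 : Matrix V V ℝ) -
    (((k : ℝ) - θ) / n) • J)) (by
      rw [Matrix.smul_mul, Matrix.mul_smul]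
      congr 1
      simp only [sub_mul, mul_sub, Matrix.smul_mul, Matrix.mul_smul, hA2, hAJ, hJA, hJJ, one_mul,
        mul_one]
      match_scalars
      · field_simp
        ring
      · field_simp
        ring
      · field_simp
        linear_combination (-1 : ℝ) * hpar)
  have hJt : J.trace = n := by simp [J, Matrix.trace, h.card]
  rw [Matrix.trace_smul, Matrix.trace_sub, Matrix.trace_sub, Matrix.trace_smul, Matrix.trace_smul,
    hA, SimpleGraph.trace_adjMatrix, Matrix.trace_one, h.card, hJt] at hf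
  simp only [smul_eq_mul] at hf
  field_simp at hf
  exact ⟨f, by linear_combination hf⟩

/-- without triangles and `m ≥ 2` the discriminant is a square -/
theorem srg_sq {V : Type*} [Fintype V] (Γ : SimpleGraph V) [DecidableRel Γ.Adj] {n k m d : ℕ}
    (h : Γ.IsSRGWith n k 0 m) (hm : 2 ≤ m) (hk : k + 1 < n) (hd : m ^ 2 + 4 * k = d + 4 * m) :
    IsSquare d := by
  by_contra hsq
  have hirr := irrational_sqrt_natCast_iff.2 hsq
  have hsq2 := Real.mul_self_sqrt (Nat.cast_nonneg (α := ℝ) d)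
  generalize √(d : ℝ) = q at hirr hsq2
  have hq : q ≠ 0 := by rintro rfl; exact hirr ⟨0, by simp⟩
  have hd' : (m : ℝ) ^ 2 + 4 * k = d + 4 * m := by exact_mod_cast hd
  obtain ⟨g, hg⟩ := srg_trace Γ h (by omega) (θ := (q - m) / 2) (τ := (-q - m) / 2)
    (by push_cast; ring) (by linear_combination (-1 / 4 : ℝ) * hsq2 + (1 / 4 : ℝ) * hd')
    (fun e => hq (by linear_combination e))
  have h1 : q * ((2 * g - (n - 1) : ℤ) : ℝ) = ((2 * k - m * (n - 1) : ℤ) : ℝ) := by
    push_cast
    linear_combination 2 * hg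
  by_cases h2 : (2 * g - (n - 1) : ℤ) = 0
  · rw [h2, Int.cast_zero, mul_zero] at h1
    have h3 : (0 : ℤ) = 2 * k - m * (n - 1) := by exact_mod_cast h1
    have h4 : (2 : ℤ) ≤ m := by exact_mod_cast hm
    have h5 : (k : ℤ) + 1 < n := by exact_mod_cast hk
    nlinarith
  · exact (hirr.mul_intCast h2).ne_int _ h1

theorem sr1 {r B w : ℕ} (hw : 0 < w) (e4 : w ≤ B)
    (e3 : r * r = 2 * B * (2 * B) + 8 * (2 * B) + 8 * w + 4) : False := by
  have e6 : 2 * B + 2 < r := by nlinarith
  have e7 : r < 2 * B + 6 := by nlinarith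
  have e8 : r = 2 * B + 3 ∨ r = 2 * B + 4 ∨ r = 2 * B + 5 := by omega
  rcases e8 with rfl | rfl | rfl
  · have : 4 * B + 8 * w = 5 := by nlinarith
    omega
  · have : 8 * w = 12 := by nlinarith
    omega
  · have : 8 * w = 4 * B + 21 := by nlinarith
    omega

theorem sr2 {r w : ℕ} (hw : 0 < w) (hr : 4 * w * w + 24 * w + 4 = r * r) : False := by
  have e6 : 2 * w + 2 < r := by nlinarith
  have e7 : r < 2 * w + 6 := by nlinarith
  have e8 : r = 2 * w + 3 ∨ r = 2 * w + 4 ∨ r = 2 * w + 5 := by omega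
  rcases e8 with rfl | rfl | rfl
  · have : 12 * w = 5 := by nlinarith
    omega
  · have : 8 * w = 12 := by nlinarith
    omega
  · have : 4 * w = 21 := by nlinarith
    omega

theorem sr3 {r w : ℕ} (hw : 0 < w) (hr : 4 * w * w + 40 * w + 4 = r * r) : w + w = 4 := by
  have e6 : 2 * w + 2 < r := by nlinarith
  have e7 : r < 2 * w + 10 := by nlinarith
  obtain ⟨j, rfl⟩ : ∃ j, r = 2 * w + j := ⟨r - 2 * w, by omega⟩
  have e8 : 40 * w + 4 = 4 * w * j + j * j := by nlinarith
  have e9 : 2 < j := by omega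
  have e10 : j < 10 := by omega
  clear hr
  interval_cases j <;> omega

theorem jobSR : JobSR.{v} := by
  intro X _ Γ k lam m S
  classical
  have := Fintype.ofFinite X
  have h1 : ∀ v, Γ.degree v = {w | Γ.Adj v w}.ncard := by
    intro v
    rw [← SimpleGraph.card_neighborSet_eq_degree, ← Nat.card_eq_fintype_card, Nat.card_coe_set_eq]
    rfl
  have h2 : ∀ v w, Fintype.card (Γ.commonNeighbors v w) = {u | Γ.Adj v u ∧ Γ.Adj w u}.ncard := by
    intro v w
    rw [← Nat.card_eq_fintype_card, Nat.card_coe_set_eq]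
    rfl
  have H : Γ.IsSRGWith (Nat.card X) k lam m :=
    ⟨Nat.card_eq_fintype_card.symm, fun v => by rw [h1, S.deg], fun v w hvw => by rw [h2, S.adj v w hvw],
      fun v w hne hvw => by rw [h2, S.nadj v w ⟨hne, hvw⟩]⟩
  have := S.ne
  have hm := S.mu_pos
  have hk : k + 1 < Nat.card X := by
    obtain ⟨a⟩ := S.ne
    obtain ⟨c, hc⟩ := S.ex a
    have h3 : (insert a (insert c {w | Γ.Adj a w})).ncard = k + 2 := by
      rw [Set.ncard_insert_of_notMem (by simp [hc.1]), Set.ncard_insert_of_notMem (by simp [hc.2]),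
        S.deg]
    have := Set.ncard_le_card (insert a (insert c {w | Γ.Adj a w}))
    omega
  refine ⟨fun e1 e2 e3 => ?_, fun u hu hm2 e1 e2 => ?_, fun hm2 e1 e2 => ?_, fun hm2 e1 e2 => ?_⟩
  · obtain ⟨g, hg⟩ := srg_trace Γ H Nat.card_pos (θ := 1) (τ := -(m + 1)) (by rw [e2]; push_cast; ring)
      (by rw [e1]; push_cast; ring) (by intro h; have : (0 : ℝ) ≤ m := by positivity
                                        linarith)
    rw [e3, e1] at hg
    have h3 : (g : ℤ) * (m + 2) = 8 * m + 4 := by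
      have : (g : ℝ) * (m + 2) = 8 * m + 4 := by push_cast at hg; linear_combination hg
      exact_mod_cast this
    exact Int.natCast_dvd_natCast.1 ⟨8 - g, by push_cast; linear_combination h3⟩
  · obtain ⟨U, rfl⟩ : ∃ U, u = U + 2 := ⟨u - 2, by omega⟩
    obtain ⟨r, hr⟩ := H75.srg_irr Γ H Nat.card_pos (by omega) (by rw [e2]; nlinarith) S.mu_lt.le
    rw [e1, e2, show (U + 2) * m - m = (U + 1) * m by rw [add_mul, add_mul]; omega,
      show 2 * (U + 2) * m + 1 - m = (2 * U + 3) * m + 1 by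
        rw [mul_add, add_mul, add_mul, mul_assoc]; omega] at hr
    obtain ⟨w, rfl⟩ := hm2
    set A := (U + 1) * (w + w) with hA
    have e3 : r * r = A * A + 8 * A + 8 * w + 4 := by rw [← hr, hA]; ring
    have e4 : 2 * w ≤ A := by rw [hA]; nlinarith
    have e5 : A = 2 * ((U + 1) * w) := by rw [hA]; ring
    generalize (U + 1) * w = B at e5
    rw [e5] at e3 e4
    exact sr1 (w := w) (by omega) (by omega) e3
  · subst e2
    obtain ⟨w, rfl⟩ := hm2
    obtain ⟨r, hr⟩ := srg_sq Γ H (d := 4 * w * w + 24 * w + 4) (by omega) hk (by rw [e1]; ring)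
    exact sr2 (by omega) hr
  · subst e2
    obtain ⟨w, rfl⟩ := hm2
    obtain ⟨r, hr⟩ := srg_sq Γ H (d := 4 * w * w + 40 * w + 4) (by omega) hk (by rw [e1]; ring)
    exact sr3 (by omega) hr

theorem jobL34 : JobL34.{u} := by
  intro G _ _ D J ⟨z, hz, hzu⟩ hJ hD hJJ h1 h2
  classical
  obtain ⟨s, hs⟩ : J.Nonempty := by
    rw [← Set.ncard_pos]
    omega
  have si : ∀ s ∈ J, s⁻¹ = s := fun s hs => inv_eq_of_mul_eq_one_left (hJ s hs)
  let I : Set D := {d | s * d * s⁻¹ = (d : G)⁻¹}
  let A : Set D := {d | (d : G) * s ∈ J}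
  have hA : A.ncard = J.ncard := by
    refine Set.ncard_congr (fun d _ => (d : G) * s) (fun _ h => h)
      (fun a b _ _ h => Subtype.ext (mul_right_cancel h)) fun s' hs' =>
        ⟨⟨s' * s, hJJ s' hs' s hs⟩, ?_, ?_⟩
    · show s' * s * s ∈ J
      rwa [mul_assoc, hJ s hs, mul_one]
    · show s' * s * s = s'
      rw [mul_assoc, hJ s hs, mul_one]
  have hAI : A ⊆ I := fun d hd => by
    show s * d * s⁻¹ = (d : G)⁻¹
    apply eq_inv_of_mul_eq_one_right
    rw [si s hs, ← hJ _ hd]
    group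
  have hI : J.ncard ≤ I.ncard := hA ▸ Set.ncard_le_ncard hAI
  have big : ∀ K : Subgroup D, Nat.card D < 2 * (K : Set D).ncard → K = ⊤ := by
    intro K hK
    have h3 := K.card_mul_index
    rw [show Nat.card K = (K : Set D).ncard from Nat.card_coe_set_eq _] at h3
    rw [← Subgroup.index_eq_one]
    have h4 : K.index ≠ 0 := Subgroup.index_ne_zero_of_finite
    by_contra h5
    have : 2 ≤ K.index := by omega
    nlinarith
  have comm : ∀ x y : D, x * y = y * x := by
    rcases h2 with h2 | h2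
    · exact fun x y => Subtype.ext (h2 x x.2 y y.2)
    have h3 : ∀ g ∈ I, g ∈ Subgroup.center D := by
      intro g hg
      have h4 : I ∩ (fun x => g⁻¹ * x) '' I ⊆ (Subgroup.centralizer {g} : Subgroup D) := by
        rintro _ ⟨h5, x, hx, rfl⟩
        have h6 : s * ((g : G)⁻¹ * x) * s⁻¹ = ((g : G)⁻¹ * x)⁻¹ := h5
        have h7 : s * (g : G)⁻¹ * s⁻¹ = g := by
          rw [show s * (g : G)⁻¹ * s⁻¹ = (s * g * s⁻¹)⁻¹ by group, (hg : s * g * s⁻¹ = _), inv_inv]
        rw [show s * ((g : G)⁻¹ * x) * s⁻¹ = (s * (g : G)⁻¹ * s⁻¹) * (s * x * s⁻¹) by group, h7,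
          (hx : s * x * s⁻¹ = _)] at h6
        rw [SetLike.mem_coe, Subgroup.mem_centralizer_singleton_iff]
        apply Subtype.ext
        simp only [Subgroup.coe_mul, Subgroup.coe_inv]
        generalize (g : G) = a at h6 ⊢
        generalize (x : G) = b at h6 ⊢
        calc a⁻¹ * b * a = a⁻¹ * b * (a * b⁻¹) * b := by group
          _ = _ := by rw [h6]; group
      have h5 := Set.ncard_le_ncard h4
      have h6 := Set.ncard_union_add_ncard_inter I ((fun x => g⁻¹ * x) '' I)
      rw [Set.ncard_image_of_injective _ (mul_right_injective _)] at h6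
      have h7 := Set.ncard_le_card (I ∪ (fun x => g⁻¹ * x) '' I)
      have h8 := big (Subgroup.centralizer {g}) (by omega)
      rw [Subgroup.mem_center_iff]
      intro x
      exact Subgroup.mem_centralizer_singleton_iff.1 (by rw [h8]; trivial)
    have h4 := big (Subgroup.center D) (by
      have := Set.ncard_le_ncard (s := I) (t := (Subgroup.center D : Set D)) h3
      omega)
    intro x y
    exact Subgroup.mem_center_iff.1 (by rw [h4]; trivial) x
  have commG : ∀ x y : D, (x : G) * y = y * x := fun x y => congrArg Subtype.val (comm x y)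
  let K : Subgroup D :=
    { carrier := I
      one_mem' := by simp [I]
      mul_mem' := fun {x y} hx hy => by
        show s * ((x : G) * y) * s⁻¹ = ((x : G) * y)⁻¹
        rw [show s * ((x : G) * y) * s⁻¹ = (s * x * s⁻¹) * (s * y * s⁻¹) by group,
          (hx : s * x * s⁻¹ = _), (hy : s * y * s⁻¹ = _), commG, _root_.mul_inv_rev]
      inv_mem' := fun {x} hx => by
        show s * (x : G)⁻¹ * s⁻¹ = (x : G)⁻¹⁻¹
        rw [show s * (x : G)⁻¹ * s⁻¹ = (s * x * s⁻¹)⁻¹ by group, (hx : s * x * s⁻¹ = _)] }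
  have hK : ∀ d : D, s * d * s⁻¹ = (d : G)⁻¹ := fun d =>
    (show d ∈ K by rw [big K (by show _ < 2 * I.ncard; omega)]; trivial)
  have hsq : ∀ a ∈ A, ∀ d : D, d * d * a ∈ A := by
    intro a ha d
    have h3 := (hD _ ha d d.2).2
    show (d : G) * d * a * s ∈ J
    convert h3 using 1
    have h4 := hK d⁻¹
    rw [Subgroup.coe_inv, inv_inv, mul_inv_eq_iff_eq_mul] at h4
    rw [mul_assoc (d : G) (a * s), mul_assoc (a : G), h4, ← mul_assoc (a : G), commG a d]
    simp only [mul_assoc]
  let φ : D →* D := ⟨⟨fun d => d * d, by simp⟩, fun x y => by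
    show x * y * (x * y) = x * x * (y * y)
    rw [mul_assoc, ← mul_assoc y, ← comm x y]; group⟩
  have hker : Nat.card φ.ker = 2 := by
    have : (φ.ker : Set D) = {1, ⟨z, hz.1⟩} := by
      ext d
      constructor
      · intro hd
        by_cases h3 : d = 1
        · exact Or.inl h3
        refine Or.inr (Subtype.ext (hzu d ⟨d.2, ?_⟩))
        rw [Subgroup.orderOf_coe]
        have : Fact (Nat.Prime 2) := ⟨Nat.prime_two⟩
        exact orderOf_eq_prime (by rw [sq]; exact hd) h3
      · rintro (rfl | rfl)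
        · exact one_mem _
        · exact Subtype.ext (by show z * z = 1; rw [← sq, ← hz.2, pow_orderOf_eq_one])
    rw [show Nat.card φ.ker = (φ.ker : Set D).ncard from Nat.card_coe_set_eq _, this,
      Set.ncard_pair]
    intro h
    have : z = 1 := (congrArg Subtype.val h).symm
    rw [this] at hz
    simp at hz
  have hran : 2 * (φ.range : Set D).ncard = Nat.card D := by
    rw [← φ.ker.card_mul_index, hker, Subgroup.index_ker]
    rfl
  rw [← hA, ← Set.ncard_univ]
  congr 1
  refine Set.eq_univ_of_forall fun x => ?_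
  by_contra hx
  have h3 : Disjoint A ((fun y => y * x) '' (φ.range : Set D)) := by
    rw [Set.disjoint_left]
    rintro _ ha ⟨_, ⟨d, rfl⟩, rfl⟩
    apply hx
    have := hsq _ ha d⁻¹
    rwa [show d⁻¹ * d⁻¹ * (φ d * x) = x by show d⁻¹ * d⁻¹ * (d * d * x) = x; group] at this
  have h4 := Set.ncard_union_eq h3
  rw [Set.ncard_image_of_injective _ (mul_left_injective _)] at h4
  have h5 := Set.ncard_le_card (A ∪ (fun y => y * x) '' (φ.range : Set D))
  omega

end H51.R3F
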