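import Cfsg.Agent.Base

/-! Tower R3F (S2207): rank 3 groups whose point stabilizer is a Frobenius group on a suborbit.
Specifications only; notes in `blueprints/R3F.md`. -/

set_option autoImplicit false

namespace H51.R3F

open MulAction

universe u v

/-- distinct and non-adjacent -/
def Nadj {X : Type*} (Γ : SimpleGraph X) (a c : X) : Prop := a ≠ c ∧ ¬ Γ.Adj a c

/-- strongly regular, instance-free (same fields as `H76.SRG`, see `H76.srg_iff`) -/
structure Sr {X : Type*} (Γ : SimpleGraph X) (k lam mu : ℕ) : Prop where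
  deg : ∀ a, {w | Γ.Adj a w}.ncard = k
  adj : ∀ a b, Γ.Adj a b → {w | Γ.Adj a w ∧ Γ.Adj b w}.ncard = lam
  nadj : ∀ a c, Nadj Γ a c → {w | Γ.Adj a w ∧ Γ.Adj c w}.ncard = mu
  ne : Nonempty X
  ex : ∀ a, ∃ c, Nadj Γ a c
  mu_pos : 0 < mu
  mu_lt : mu < k

/-- the orbital graph -/
structure Gr (G : Type*) {X : Type*} [Group G] [MulAction G X] (Γ : SimpleGraph X)
    (k lam mu : ℕ) : Prop extends Sr Γ k lam mu where
  inv : ∀ (g : G) x y, Γ.Adj x y → Γ.Adj (g • x) (g • y)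
  tr : ∀ x y : X, ∃ g : G, g • x = y
  arc : ∀ a b b', Γ.Adj a b → Γ.Adj a b' → ∃ g : G, g • a = a ∧ g • b = b'
  narc : ∀ a c c', Nadj Γ a c → Nadj Γ a c' → ∃ g : G, g • a = a ∧ g • c = c'
  frob : ∀ (g : G) a b b', g • a = a → Γ.Adj a b → Γ.Adj a b' → b ≠ b' → g • b = b →
    g • b' = b' → g = 1
  nreg : ∃ (g : G) (a b : X), g ≠ 1 ∧ Γ.Adj a b ∧ g • a = a ∧ g • b = b

/-- the Frobenius kernels `N a` of the point stabilizers -/
structure Kn {G X : Type*} [Group G] [MulAction G X] (Γ : SimpleGraph X) (N : X → Subgroup G)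
    (k lam mu : ℕ) : Prop extends Gr G Γ k lam mu where
  memN : ∀ a g, g ∈ N a ↔ g • a = a ∧ (g = 1 ∨ ∀ b, Γ.Adj a b → g • b ≠ b)
  regN : ∀ a b b', Γ.Adj a b → Γ.Adj a b' → ∃ g ∈ N a, g • b = b'
  conjN : ∀ a (s g : G), g ∈ N a → s * g * s⁻¹ ∈ N (s • a)
  cenN : ∀ a (g x : G), g • a = a → x ∈ N a → x ≠ 1 → g * x = x * g → g ∈ N a
  nilp : ∀ a, Group.IsNilpotent (N a)
  cardN : ∀ a, Nat.card (N a) = k

/-- the orders involved -/
structure St {G X : Type*} [Group G] [MulAction G X] (Γ : SimpleGraph X) (N : X → Subgroup G)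
    (k lam mu h m e n u t : ℕ) : Prop extends Kn Γ N k lam mu where
  piN : ∀ a y g, g ∈ N a → g • y = y → g ∈ N y
  cardO : ∀ a c, Nadj Γ a c → {y | ∃ g ∈ N a, g • c = y}.ncard = n
  cardH : ∀ a b, Γ.Adj a b → Nat.card ↥(stabilizer G a ⊓ stabilizer G b) = h
  cardD : ∀ a c, Nadj Γ a c → Nat.card ↥(stabilizer G a ⊓ stabilizer G c) = m
  cardE : ∀ a c, Nadj Γ a c → Nat.card ↥(N a ⊓ stabilizer G c) = e
  cardG : Nat.card G = Nat.card X * (k * h)
  cardX : Nat.card X = 1 + k + u * n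
  cardL : ∀ a, {c | Nadj Γ a c}.ncard = u * n
  k_eq : k = e * n
  h_lt : 1 < h
  h_lam : h ∣ lam
  k_t : k = 1 + lam + h * t
  mu_eq : mu = t * m
  um : u * m = e * h
  u_dvd : u ∣ h

/-- the quotient matrix of the graph on the `N a`-orbits of non-neighbours of `a` -/
structure QM (k lam mu e n u ν : ℕ) (b : Fin u → Fin u → ℕ) : Prop where
  symm : ∀ i j, b i j = b j i
  dvd : ∀ i j, e ∣ b i j
  cst : ∀ i j, b i i = b j j
  row : ∀ i, ∑ j, b i j + mu = k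
  diag : ∀ i, (k : ℤ) + b i i * lam + (n - 1 - b i i) * mu = mu * ν + ∑ j, (b i j : ℤ) * b i j
  off : ∀ i j, i ≠ j → (b i j : ℤ) * lam + (n - b i j) * mu = mu * ν + ∑ r, (b i r : ℤ) * b r j
  nu : k = 1 + lam + u * ν
  mu_nu : mu = e * ν

/-- involutions of point stabilizers when `k` is odd -/
structure Zf {G X : Type*} [Group G] [MulAction G X] (Γ : SimpleGraph X) (N : X → Subgroup G) :
    Prop where
  ex : ∀ a b, Γ.Adj a b → ∃ z : G, orderOf z = 2 ∧ z • a = a ∧ z • b = b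
  inv : ∀ a (z : G), orderOf z = 2 → z • a = a → ∀ x ∈ N a, z * x * z⁻¹ = x⁻¹
  comm : ∀ a, ∀ x ∈ N a, ∀ y ∈ N a, x * y = y * x
  mul : ∀ a (z z' : G), orderOf z = 2 → orderOf z' = 2 → z • a = a → z' • a = a → z * z' ∈ N a
  conj : ∀ a (z z' : G), orderOf z = 2 → orderOf z' = 2 → z • a = a → z' • a = a →
    ∃ x ∈ N a, x * z * x⁻¹ = z'
  nbr : ∀ a (z : G), orderOf z = 2 → z • a = a → ∃! b, Γ.Adj a b ∧ z • b = b

/-- involutions with a fixed point that send `a` to `y` -/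
def Sw (G : Type*) {X : Type*} [Group G] [MulAction G X] (a y : X) : Set G :=
  {s | orderOf s = 2 ∧ (∃ x : X, s • x = x) ∧ s • a = y}

/-- R3F-G: the orbital graph. -/
def JobG : Prop :=
  ∀ (G : Type u) (X : Type v) [Group G] [Finite G] [Finite X] [MulAction G X] [FaithfulSMul G X],
    Even (Nat.card G) → IsPreprimitive G X → ∀ A : X,
    Nat.card (orbitRel.Quotient ↥(stabilizer G A) X) = 3 → ∀ B : X, B ≠ A →
    (∀ g ∈ stabilizer G A, (∀ h ∈ stabilizer G A, g • (h • B) = h • B) → g = 1) →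
    (∃ g ∈ stabilizer G A, g ≠ 1 ∧ g • B = B) →
    (∀ g ∈ stabilizer G A, ∀ h ∈ stabilizer G A, g • B = B → g • (h • B) = h • B → h • B ≠ B →
      g = 1) →
    ∃ (Γ : SimpleGraph X) (k lam mu : ℕ), Gr G Γ k lam mu

/-- R3F-N1: the Frobenius kernels. -/
def JobN1 : Prop :=
  ∀ (G : Type u) (X : Type v) [Group G] [Finite G] [Finite X] [MulAction G X] (Γ : SimpleGraph X)
    (k lam mu : ℕ), Gr G Γ k lam mu → ∃ N : X → Subgroup G, Kn Γ N k lam mu

/-- R3F-N2: the orders. -/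
def JobN2 : Prop :=
  ∀ (G : Type u) (X : Type v) [Group G] [Finite G] [Finite X] [MulAction G X] (Γ : SimpleGraph X)
    (N : X → Subgroup G) (k lam mu : ℕ), Kn Γ N k lam mu →
    ∃ h m e n u t : ℕ, St Γ N k lam mu h m e n u t

/-- R3F-QM: the quotient matrix. -/
def JobQM : Prop :=
  ∀ (G : Type u) (X : Type v) [Group G] [Finite G] [Finite X] [MulAction G X] (Γ : SimpleGraph X)
    (N : X → Subgroup G) (k lam mu h m e n u t : ℕ), St Γ N k lam mu h m e n u t → ∀ a : X,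
    ∃ (o : X → Fin u) (b : Fin u → Fin u → ℕ) (ν : ℕ), QM k lam mu e n u ν b ∧
      (∀ y y', Nadj Γ a y → Nadj Γ a y' → (o y = o y' ↔ ∃ g ∈ N a, g • y = y')) ∧
      (∀ i, ∃ y, Nadj Γ a y ∧ o y = i) ∧
      ∀ y j, Nadj Γ a y → b (o y) j = {w | Γ.Adj y w ∧ Nadj Γ a w ∧ o w = j}.ncard

/-- R3F-Q1: arithmetic of the quotient matrix with zero diagonal. -/
def JobQ1 : Prop :=
  ∀ (k lam mu e n u ν : ℕ) (b : Fin u → Fin u → ℕ), QM k lam mu e n u ν b → k = e * n → 0 < mu →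
    mu < k → (∀ i, b i i = 0) →
    (Even e → Even n → Odd u → False) ∧
    (1 < e → e ∣ n → ∀ i j, i ≠ j → 0 < b i j) ∧
    (1 < e → e ∣ n → n ≤ 3 → Odd k → 0 < u → u ∣ k - 1 → k = 9 ∧ n = 3 ∧ u = 2)

/-- R3F-Q2: arithmetic of the quotient matrix of a semiregular kernel, no triangles. -/
def JobQ2 : Prop :=
  ∀ (k mu m u ν : ℕ) (b : Fin u → Fin u → ℕ), QM k 0 mu 1 k u ν b → 2 ≤ m → 2 ≤ u → ∀ i,
    (mu = 2 * m → u * m ≤ b i i → False) ∧
    (mu = m → m ∣ b i i → u + 2 ≤ 2 * m → (b i i = 0 ∨ b i i = m) ∧ (u = 2 → b i i = m → m = 2))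

/-- R3F-SR: integrality conditions. -/
def JobSR : Prop :=
  ∀ (X : Type v) [Finite X] (Γ : SimpleGraph X) (k lam m : ℕ), Sr Γ k lam m →
    (k = 2 * m + 1 → lam = 0 → Nat.card X = 6 * m + 4 → m + 2 ∣ 12) ∧
    (∀ u, 2 ≤ u → Even m → k = 2 * u * m + 1 → lam = u * m → False) ∧
    (Even m → k = 4 * m + 1 → lam = 0 → False) ∧
    (Even m → k = 6 * m + 1 → lam = 0 → m = 4)

/-- R3F-K2: `k` even and the central involutions of the kernel fix one point only. -/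
def JobK2 : Prop :=
  ∀ (G : Type u) (X : Type v) [Group G] [Finite G] [Finite X] [MulAction G X] (Γ : SimpleGraph X)
    (N : X → Subgroup G) (k lam mu h m e n u t : ℕ), St Γ N k lam mu h m e n u t →
    IsPreprimitive G X → Even k → ∀ a : X,
    ∃ z ∈ N a, orderOf z = 2 ∧ (∀ x ∈ N a, z * x = x * z) ∧ ∃ c, c ≠ a ∧ z • c = c

/-- R3F-Z: involutions when `k` is odd. -/
def JobZ : Prop :=
  ∀ (G : Type u) (X : Type v) [Group G] [Finite G] [Finite X] [MulAction G X] (Γ : SimpleGraph X)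
    (N : X → Subgroup G) (k lam mu h m e n u t : ℕ), St Γ N k lam mu h m e n u t →
    Even (Nat.card G) → Odd k → Even h ∧ Zf Γ N

/-- R3F-SH: the sharply 2-transitive lines. -/
def JobSH : Prop :=
  ∀ (G : Type u) (X : Type v) [Group G] [Finite G] [Finite X] [MulAction G X] (Γ : SimpleGraph X)
    (N : X → Subgroup G) (k lam mu h m e n u t : ℕ), St Γ N k lam mu h m e n u t → Zf Γ N →
    Odd k → 1 < e →
    (∀ a c y, Nadj Γ a c → (∀ x ∈ N a, x • c = c → x • y = y) → y = a ∨ ∃ g ∈ N a, g • c = y) →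
    n ≤ 3

/-- R3F-CNT: counting involutions. -/
def JobCnt : Prop :=
  ∀ (G : Type u) (X : Type v) [Group G] [Finite G] [Finite X] [MulAction G X] (Γ : SimpleGraph X)
    (N : X → Subgroup G) (k lam mu h m u t : ℕ), St Γ N k lam mu h m 1 k u t → Zf Γ N →
    ∀ (a b c : X) (z : G), Γ.Adj a b → Nadj Γ a c → orderOf z = 2 → z • a = a →
      {y | Γ.Adj y (z • y)}.ncard = {y : X | z • y = y}.ncard * (Sw G a b).ncard ∧
      Nat.card X = {y : X | z • y = y}.ncard * (1 + (Sw G a b).ncard + u * (Sw G a c).ncard) ∧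
      (Sw G a b).ncard ≤ h ∧ (Sw G a c).ncard ≤ m

/-- R3F-FIX: fixed points of the involutions. -/
def JobFix : Prop :=
  ∀ (G : Type u) (X : Type v) [Group G] [Finite G] [Finite X] [MulAction G X] (Γ : SimpleGraph X)
    (N : X → Subgroup G) (k lam mu h m u t : ℕ), St Γ N k lam mu h m 1 k u t → Zf Γ N → Odd k →
    ∀ (a c : X) (z : G), Nadj Γ a c → orderOf z = 2 → z • a = a →
      (Odd m → {y : X | z • y = y}.ncard = 2) ∧
      (Even m → {y : X | z • y = y}.ncard = u + 2 ∧ Even u ∧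
        {y | Γ.Adj y (z • y)}.ncard = lam + u * {w | Γ.Adj c w ∧ ∃ g ∈ N a, g • c = w}.ncard ∧
        m ∣ {w | Γ.Adj c w ∧ ∃ g ∈ N a, g • c = w}.ncard)

/-- R3F-L34: involutions in a coset. -/
def JobL34 : Prop :=
  ∀ (G : Type u) [Group G] [Finite G] (D : Subgroup G) (J : Set G),
    (∃! z, z ∈ D ∧ orderOf z = 2) → (∀ s ∈ J, s * s = 1) →
    (∀ s ∈ J, ∀ d ∈ D, s * d * s⁻¹ ∈ D ∧ d * s * d⁻¹ ∈ J) → (∀ s ∈ J, ∀ s' ∈ J, s * s' ∈ D) →
    Nat.card D < 2 * J.ncard →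
    ((∀ x ∈ D, ∀ y ∈ D, x * y = y * x) ∨ 3 * Nat.card D < 4 * J.ncard) → J.ncard = Nat.card D

/-- R3F-FIN: identification. -/
def JobFin : Prop :=
  ∀ (G : Type u) (X : Type v) [Group G] [Finite G] [Fintype X] [MulAction G X] [FaithfulSMul G X],
    IsPreprimitive G X →
    (Nat.card X = 10 → Nat.card G = 60 → Nonempty (G ≃* ↥(alternatingGroup (Fin 5)))) ∧
    (Nat.card X = 16 → (∃ p i j, p.Prime ∧ Nat.card G = 2 ^ i * p ^ j) →
      Group.IsSolvable G ∧ ∃ N : Subgroup G, N.Normal ∧ Nat.card N = 16 ∧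
        ∀ x y : X, ∃! n : ↥N, (n : G) • x = y)

end H51.R3F
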