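import Cfsg.Agent.H52.RCSpec
import Cfsg.Agent.H88.Moebius

/-! A real element of odd order with centraliser of odd order in `PSL(2, q)`, `q` odd. -/

set_option autoImplicit false

namespace H51.RcRO1

open H52.RC Subgroup Matrix

universe u

theorem roc_of {G : Type*} {S : Type u} [Group G] [Group S] [Finite S] (f : G →* S)
    (hf : Function.Surjective f) (hk : ∀ g, f g = 1 ↔ g ∈ center G)
    (h2 : ∀ z ∈ center G, z ^ 2 = 1) {X W : G} {m : ℕ} (hm : Odd m) (hX : X ^ m = 1)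
    (nc : X ∉ center G) (hW : W * X * W⁻¹ = X⁻¹)
    (hT : ∀ T : G, T * X = X * T → T ^ 2 ∈ center G → T ∈ center G) : ROC S := by
  refine ⟨f X, fun e => nc ((hk _).1 e), ?_, ⟨f W, ?_⟩, ?_⟩
  · exact hm.of_dvd_nat (orderOf_dvd_of_pow_eq_one (by rw [← map_pow, hX, map_one]))
  · show f W * f X * (f W)⁻¹ = (f X)⁻¹
    rw [← map_inv, ← map_inv, ← map_mul, ← map_mul, hW]
  rw [← Nat.not_even_iff_odd, even_iff_two_dvd]
  intro h
  obtain ⟨⟨t, ht⟩, ho⟩ := exists_prime_orderOf_dvd_card' 2 h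
  obtain ⟨T, rfl⟩ := hf t
  rw [← orderOf_coe] at ho
  have c : Commute (f T) (f X) := mem_C1.1 ht
  have hz : T * X * T⁻¹ * X⁻¹ ∈ center G := (hk _).1 (by
    simp only [map_mul, map_inv]
    rw [c.eq]; group)
  have e1 : (T * X * T⁻¹ * X⁻¹) ^ m = 1 := by
    have cm : Commute (T * X * T⁻¹ * X⁻¹) X := (mem_center_iff.1 hz X).symm
    have := cm.mul_pow m
    rwa [inv_mul_cancel_right, conj_pow, hX, mul_one, mul_inv_cancel, mul_one, eq_comm] at this
  have e2 : T * X * T⁻¹ * X⁻¹ = 1 := by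
    obtain ⟨k, rfl⟩ := hm
    rwa [pow_succ, pow_mul, h2 _ hz, one_pow, one_mul] at e1
  have := hT T (by rwa [mul_inv_eq_one, mul_inv_eq_iff_eq_mul] at e2)
    ((hk _).1 (by rw [map_pow, ← ho, pow_orderOf_eq_one]))
  simp only [(hk _).2 this, orderOf_one] at ho
  exact absurd ho (by decide)

variable {F : Type} [Field F]

theorem mem_cen {A : SpecialLinearGroup (Fin 2) F} :
    A ∈ center (SpecialLinearGroup (Fin 2) F) ↔ A 0 1 = 0 ∧ A 1 0 = 0 ∧ A 0 0 = A 1 1 := by
  rw [Matrix.SpecialLinearGroup.mem_center_iff]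
  constructor
  · rintro ⟨r, -, h⟩
    have e : ∀ i j, A i j = scalar (Fin 2) r i j := fun i j => by rw [h]
    simp [e]
  · rintro ⟨h1, h2, h3⟩
    have d := A.det_coe
    rw [det_fin_two] at d
    refine ⟨A 0 0, ?_, ?_⟩
    · rw [Fintype.card_fin]
      linear_combination d + A 0 0 * h3 + A 1 0 * h1
    · ext i j
      fin_cases i <;> fin_cases j <;> simp [h1, h2, h3]

theorem cen_sq (z : SpecialLinearGroup (Fin 2) F) (hz : z ∈ center (SpecialLinearGroup (Fin 2) F)) :
    z ^ 2 = 1 := by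
  obtain ⟨r, hr, h⟩ := Matrix.SpecialLinearGroup.mem_center_iff.1 hz
  apply Subtype.ext
  rw [Matrix.SpecialLinearGroup.coe_pow, ← h, ← map_pow, show r ^ 2 = 1 by simpa using hr, map_one]
  rfl

theorem ent {T X : SpecialLinearGroup (Fin 2) F} (h : T * X = X * T) (i j : Fin 2) :
    T i 0 * X 0 j + T i 1 * X 1 j = X i 0 * T 0 j + X i 1 * T 1 j := by
  have := congrArg (fun A : SpecialLinearGroup (Fin 2) F => A i j) h
  simpa [Matrix.mul_apply, Fin.sum_univ_two] using this

theorem sq_ent (T : SpecialLinearGroup (Fin 2) F) (i j : Fin 2) :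
    (T ^ 2) i j = T i 0 * T 0 j + T i 1 * T 1 j := by
  simp [pow_two, Matrix.mul_apply, Fin.sum_univ_two]

theorem jobRO1 : JobRO1.{u} := by
  rintro S _ ⟨F, _, _, hq, h3, ⟨e⟩⟩
  classical
  have : Finite S := Finite.of_equiv _ e.symm.toEquiv
  have two : (2 : F) ≠ 0 := fun h => by
    have h1 : ringChar F = 2 := CharP.ringChar_of_prime_eq_zero Nat.prime_two (by exact_mod_cast h)
    have := FiniteField.even_card_of_char_two h1
    obtain ⟨k, hk⟩ := hq
    omega
  refine ⟨?_, ?_⟩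
  swap
  · have h := H88.two_mul_card_psl_two hq
    rw [← Nat.card_congr e.toEquiv] at h
    obtain ⟨k, hk⟩ := hq
    obtain ⟨l, hl⟩ := Nat.even_mul_succ_self k
    have h8 : Fintype.card F ^ 2 - 1 = 8 * l := by
      rw [hk]; apply Nat.sub_eq_of_eq_add; nlinarith
    rw [h8] at h
    exact ⟨Fintype.card F * l, by nlinarith⟩
  let f : SpecialLinearGroup (Fin 2) F →* S := e.symm.toMonoidHom.comp (QuotientGroup.mk' _)
  have hf : Function.Surjective f := e.symm.surjective.comp (QuotientGroup.mk'_surjective _)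
  have hk : ∀ g, f g = 1 ↔ g ∈ center (SpecialLinearGroup (Fin 2) F) := fun g => by
    simp [f, QuotientGroup.eq_one_iff]
  by_cases hs : IsSquare (-1 : F)
  · obtain ⟨i, hi⟩ := hs
    obtain ⟨X, hX⟩ : ∃ X : SpecialLinearGroup (Fin 2) F, X.1 = !![1, 1; 0, 1] :=
      ⟨⟨_, by simp [det_fin_two]⟩, rfl⟩
    obtain ⟨W, hW⟩ : ∃ X : SpecialLinearGroup (Fin 2) F, X.1 = !![i, 0; 0, -i] :=
      ⟨⟨_, by simp [det_fin_two, ← hi]⟩, rfl⟩
    have hp : ∀ n : ℕ, (X ^ n).1 = !![1, (n : F); 0, 1] := fun n => by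
      induction n with
      | zero => ext i j; fin_cases i <;> fin_cases j <;> simp
      | succ n ih =>
        rw [pow_succ, Matrix.SpecialLinearGroup.coe_mul, ih]
        ext i j; fin_cases i <;> fin_cases j <;> simp [hX, add_comm]
    refine roc_of f hf hk cen_sq (X := X) (W := W) hq (Subtype.ext ?_)
      (fun h => by simpa [hX] using (mem_cen.1 h).1) ?_ fun T c h => ?_
    · rw [hp, FiniteField.cast_card_eq_zero]
      ext i j; fin_cases i <;> fin_cases j <;> simp
    · rw [mul_inv_eq_iff_eq_mul, eq_inv_mul_iff_mul_eq]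
      apply Subtype.ext
      rw [Matrix.SpecialLinearGroup.coe_mul, Matrix.SpecialLinearGroup.coe_mul, hX, hW]
      ext a b; fin_cases a <;> fin_cases b <;> simp
    · have e1 : T 1 0 = 0 := by simpa [hX] using ent c 0 0
      have e2 : T 0 0 = T 1 1 := by
        have : T 0 0 + T 0 1 = T 0 1 + T 1 1 := by simpa [hX] using ent c 0 1
        linear_combination this
      have d := T.det_coe
      rw [det_fin_two] at d
      have e3 := (mem_cen.1 h).1
      rw [sq_ent] at e3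
      refine mem_cen.2 ⟨?_, e1, e2⟩
      apply mul_left_cancel₀ two
      linear_combination T 1 1 * e3 - 2 * T 0 1 * d - T 0 1 * (T 1 1) * e2 + 2 * T 0 1 * T 1 1 * e2
        - 2 * T 0 1 ^ 2 * e1
  · have q4 : Fintype.card F % 4 = 3 := by
      by_contra c; exact hs (FiniteField.isSquare_neg_one_iff.2 c)
    have four : ∀ a : F, a ^ 2 * a ^ 2 = 1 → a ^ 2 = 1 := fun a h =>
      (mul_self_eq_one_iff.1 h).resolve_right fun c => hs ⟨a, by rw [← c]; ring⟩
    obtain ⟨μ, hμ⟩ : ∃ μ : F, μ ∉ ({0, 1, -1} : Finset F) := by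
      by_contra d
      push Not at d
      have := Finset.card_le_card (show (Finset.univ : Finset F) ⊆ {0, 1, -1} from fun x _ => d x)
      have := Finset.card_le_three (a := (0 : F)) (b := 1) (c := -1)
      rw [Finset.card_univ] at *
      omega
    simp only [Finset.mem_insert, Finset.mem_singleton, not_or] at hμ
    obtain ⟨m0, m1, m2⟩ := hμ
    obtain ⟨l, hl⟩ : ∃ l : F, l = μ ^ 2 := ⟨_, rfl⟩
    have l0 : l ≠ 0 := hl ▸ pow_ne_zero 2 m0
    have l1 : l ≠ l⁻¹ := fun c => by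
      have h1 : l * l = 1 := by nth_rewrite 2 [c]; exact mul_inv_cancel₀ l0
      rw [hl] at h1
      exact (sq_eq_one_iff.1 (four μ h1)).elim m1 m2
    obtain ⟨m, hm, hm2⟩ : ∃ m, Odd m ∧ 2 * m = Fintype.card F - 1 :=
      ⟨(Fintype.card F - 1) / 2, Nat.odd_iff.2 (by omega), by omega⟩
    have lm : l ^ m = 1 := by rw [hl, ← pow_mul, hm2, FiniteField.pow_card_sub_one_eq_one μ m0]
    obtain ⟨X, hX⟩ : ∃ X : SpecialLinearGroup (Fin 2) F, X.1 = !![l, 0; 0, l⁻¹] :=
      ⟨⟨_, by simp [det_fin_two, l0]⟩, rfl⟩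
    obtain ⟨W, hW⟩ : ∃ X : SpecialLinearGroup (Fin 2) F, X.1 = !![0, 1; -1, 0] :=
      ⟨⟨_, by simp [det_fin_two]⟩, rfl⟩
    have hp : ∀ n : ℕ, (X ^ n).1 = !![l ^ n, 0; 0, l⁻¹ ^ n] := fun n => by
      induction n with
      | zero => ext i j; fin_cases i <;> fin_cases j <;> simp
      | succ n ih =>
        rw [pow_succ, Matrix.SpecialLinearGroup.coe_mul, ih]
        ext i j; fin_cases i <;> fin_cases j <;> simp [hX, pow_succ, mul_comm]
    refine roc_of f hf hk cen_sq (X := X) (W := W) hm (Subtype.ext ?_)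
      (fun h => l1 (by simpa [hX] using (mem_cen.1 h).2.2)) ?_ fun T c h => ?_
    · rw [hp, inv_pow, lm]
      ext i j; fin_cases i <;> fin_cases j <;> simp
    · rw [mul_inv_eq_iff_eq_mul, eq_inv_mul_iff_mul_eq]
      apply Subtype.ext
      rw [Matrix.SpecialLinearGroup.coe_mul, Matrix.SpecialLinearGroup.coe_mul, hX, hW]
      ext a b; fin_cases a <;> fin_cases b <;> simp [l0]
    · have l2 : l - l⁻¹ ≠ 0 := sub_ne_zero.2 l1
      have e1 : T 1 0 = 0 := by
        have : T 1 0 * l = l⁻¹ * T 1 0 := by simpa [hX] using ent c 1 0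
        exact mul_left_cancel₀ l2 (by linear_combination this)
      have e2 : T 0 1 = 0 := by
        have : T 0 1 * l⁻¹ = l * T 0 1 := by simpa [hX] using ent c 0 1
        exact mul_left_cancel₀ l2 (by linear_combination -this)
      have d := T.det_coe
      rw [det_fin_two, e1, mul_zero, sub_zero] at d
      have e3 := (mem_cen.1 h).2.2
      rw [sq_ent, sq_ent, e1, e2] at e3
      have e4 : T 0 0 ^ 2 = 1 := four _ (by
        linear_combination T 0 0 ^ 2 * e3 + (T 0 0 * T 1 1 + 1) * d)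
      exact mem_cen.2 ⟨e2, e1, by linear_combination T 1 1 * e4 - T 0 0 * d⟩

end H51.RcRO1
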